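import Cfsg.Agent.H61.PairOrder
import Cfsg.Agent.H94.NormalSubgroupSystem

/-!
# Small tools about `p`-subgroups
-/

set_option autoImplicit false
set_option linter.all false

namespace Cfsg.Agent.H61

open Subgroup

variable {G : Type*} [Group G]

theorem isMulCommutative_zpowers_sup {a b : G} (h : a * b = b * a) :
    IsMulCommutative (zpowers a ⊔ zpowers b : Subgroup G) := by
  refine ⟨⟨fun x y => Subtype.ext ?_⟩⟩
  have hle : zpowers a ⊔ zpowers b ≤ centralizer ((zpowers a ⊔ zpowers b : Subgroup G) : Set G) := by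
    have hab : Commute a b := h
    rw [sup_le_iff, zpowers_le, zpowers_le]
    have hca : zpowers a ⊔ zpowers b ≤ centralizer {a} := by
      rw [sup_le_iff, zpowers_le, zpowers_le]
      exact ⟨mem_centralizer_singleton_iff.mpr rfl, mem_centralizer_singleton_iff.mpr h.symm⟩
    have hcb : zpowers a ⊔ zpowers b ≤ centralizer {b} := by
      rw [sup_le_iff, zpowers_le, zpowers_le]
      exact ⟨mem_centralizer_singleton_iff.mpr h, mem_centralizer_singleton_iff.mpr rfl⟩
    constructor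
    · exact mem_centralizer_iff.mpr fun z hz => mem_centralizer_singleton_iff.mp (hca hz)
    · exact mem_centralizer_iff.mpr fun z hz => mem_centralizer_singleton_iff.mp (hcb hz)
  exact mem_centralizer_iff.mp (hle y.2) x x.2

theorem mem_zpowers_sup {a b : G} (h : a * b = b * a) {e : G} (he : e ∈ zpowers a ⊔ zpowers b) :
    ∃ i j : ℤ, e = a ^ i * b ^ j := by
  have hab : Commute a b := h
  let K : Subgroup G :=
    { carrier := {e | ∃ i j : ℤ, e = a ^ i * b ^ j}
      one_mem' := ⟨0, 0, by simp⟩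
      mul_mem' := by
        rintro _ _ ⟨i, j, rfl⟩ ⟨k, l, rfl⟩
        exact ⟨i + k, j + l, by rw [(hab.zpow_zpow k j).symm.mul_mul_mul_comm, zpow_add, zpow_add]⟩
      inv_mem' := by
        rintro _ ⟨i, j, rfl⟩
        exact ⟨-i, -j, by rw [(hab.zpow_zpow i j).eq, mul_inv_rev, zpow_neg, zpow_neg]⟩ }
  exact (sup_le (zpowers_le.mpr ⟨1, 0, by simp⟩) (zpowers_le.mpr ⟨0, 1, by simp⟩) :
    zpowers a ⊔ zpowers b ≤ K) he

theorem pow_eq_one_of_mem_zpowers_sup {a b : G} {n : ℕ} (h : a * b = b * a) (ha : a ^ n = 1)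
    (hb : b ^ n = 1) : ∀ e ∈ zpowers a ⊔ zpowers b, e ^ n = 1 := by
  intro e he
  obtain ⟨i, j, rfl⟩ := mem_zpowers_sup h he
  rw [((show Commute a b from h).zpow_zpow i j).mul_pow, ← zpow_natCast, ← zpow_natCast (b ^ j),
    ← zpow_mul, ← zpow_mul, mul_comm i, mul_comm j, zpow_mul, zpow_mul, zpow_natCast, zpow_natCast,
    ha, hb, one_zpow, one_zpow, mul_one]

theorem card_zpowers_sup_zpowers [Finite G] {p : ℕ} (hp : p.Prime) {a b : G} (ha : orderOf a = p)
    (hb : orderOf b = p) (h : a * b = b * a) (hne : b ∉ zpowers a) :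
    Nat.card (zpowers a ⊔ zpowers b : Subgroup G) = p ^ 2 := by
  haveI := Fact.mk hp
  set W := zpowers a ⊔ zpowers b
  have hexp := pow_eq_one_of_mem_zpowers_sup (n := p) h (by rw [← ha, pow_orderOf_eq_one])
    (by rw [← hb, pow_orderOf_eq_one])
  have hW : IsPGroup p W := fun e => ⟨1, Subtype.ext (by simpa using hexp e e.2)⟩
  obtain ⟨k, hk⟩ := IsPGroup.iff_card.mp hW
  have h2 : p ^ 2 ∣ Nat.card W := sq_dvd_card_of_pair hp hW
    (c := a) (d := b) ⟨mem_sup_left (mem_zpowers a), mem_sup_left (mem_zpowers a)⟩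
    ⟨mem_sup_right (mem_zpowers b), mem_sup_right (mem_zpowers b)⟩ ha hne
  have hle : Nat.card W ≤ p * p := by
    let f : zpowers a × zpowers b → W := fun x =>
      ⟨x.1 * x.2, mul_mem (mem_sup_left x.1.2) (mem_sup_right x.2.2)⟩
    have hf : Function.Surjective f := by
      rintro ⟨e, he⟩
      obtain ⟨i, j, rfl⟩ := mem_zpowers_sup h he
      exact ⟨(⟨a ^ i, i, rfl⟩, ⟨b ^ j, j, rfl⟩), rfl⟩
    have := Nat.card_le_card_of_surjective f hf
    rwa [Nat.card_prod, Nat.card_zpowers, Nat.card_zpowers, ha, hb] at this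
  have h3 := Nat.le_of_dvd Nat.card_pos h2
  rw [pow_two] at h3 ⊢
  omega

theorem le_normal_sylow [Finite G] {p : ℕ} [Fact p.Prime] (P : Sylow p G)
    [hn : (P : Subgroup G).Normal] {H : Subgroup G} (hH : IsPGroup p H) : H ≤ (P : Subgroup G) := by
  haveI : Unique (Sylow p G) := P.unique_of_normal hn
  obtain ⟨S, hS⟩ := hH.exists_le_sylow
  rwa [Subsingleton.elim S P] at hS

theorem injOn_of_coprime_ker [Finite G] {G' : Type*} [Group G'] {p : ℕ} [hp : Fact p.Prime]
    {P : Subgroup G} (hP : IsPGroup p P) (f : G →* G') (hk : ¬ p ∣ Nat.card f.ker) :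
    ∀ x y, x ∈ P → y ∈ P → f x = f y → x = y := by
  intro x y hx hy hxy
  have h : x * y⁻¹ ∈ P ⊓ f.ker :=
    ⟨P.mul_mem hx (P.inv_mem hy), MonoidHom.mem_ker.mpr (by rw [map_mul, map_inv, hxy, mul_inv_cancel])⟩
  have hb : P ⊓ f.ker = ⊥ := by
    rcases (hP.to_le (inf_le_left (b := f.ker))).card_eq_or_dvd with h1 | h1
    · exact card_eq_one.mp h1
    · exact absurd (h1.trans (card_dvd_of_le inf_le_right)) hk
  rw [hb, mem_bot, mul_inv_eq_one] at h
  exact h

theorem mem_zpowers_or_of_cyclic [Finite G] {p : ℕ} [hp : Fact p.Prime] {S : Subgroup G}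
    (hS : IsPGroup p S) [IsCyclic S] {a b : G} (ha : a ∈ S) (hb : b ∈ S) :
    a ∈ zpowers b ∨ b ∈ zpowers a := by
  obtain ⟨i, hi⟩ := (IsPGroup.iff_orderOf.mp hS) ⟨a, ha⟩
  obtain ⟨j, hj⟩ := (IsPGroup.iff_orderOf.mp hS) ⟨b, hb⟩
  have key : ∀ {c d : S}, orderOf c ∣ orderOf d → c ∈ zpowers d := by
    intro c d hcd
    classical
    haveI := Fintype.ofFinite S
    have hpos := orderOf_pos d
    have hsub : (Finset.univ.filter fun x : S => x ∈ zpowers d) ⊆
        Finset.univ.filter fun x : S => x ^ orderOf d = 1 := by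
      intro x hx
      simp only [Finset.mem_filter, Finset.mem_univ, true_and] at hx ⊢
      obtain ⟨i, rfl⟩ := hx
      rw [← zpow_natCast, ← zpow_mul, mul_comm, zpow_mul, zpow_natCast, pow_orderOf_eq_one, one_zpow]
    have hcard := IsCyclic.card_pow_eq_one_le (α := S) hpos
    have heq := Finset.eq_of_subset_of_card_le hsub (hcard.trans (le_of_eq (by
      rw [← Nat.card_zpowers, Nat.card_eq_fintype_card, Fintype.card_subtype])))
    have : c ∈ Finset.univ.filter fun x : S => x ^ orderOf d = 1 :=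
      Finset.mem_filter.mpr ⟨Finset.mem_univ _, orderOf_dvd_iff_pow_eq_one.mp hcd⟩
    rw [← heq] at this
    exact (Finset.mem_filter.mp this).2
  rcases le_total i j with h | h
  · obtain ⟨k, hk⟩ := key (c := ⟨a, ha⟩) (d := ⟨b, hb⟩) (by rw [hi, hj]; exact pow_dvd_pow p h)
    exact Or.inl ⟨k, congrArg Subtype.val hk⟩
  · obtain ⟨k, hk⟩ := key (c := ⟨b, hb⟩) (d := ⟨a, ha⟩) (by rw [hi, hj]; exact pow_dvd_pow p h)
    exact Or.inr ⟨k, congrArg Subtype.val hk⟩

theorem pow_dvd_card_inf_sylow [Finite G] {p : ℕ} [hp : Fact p.Prime] (S : Sylow p G) (M : Subgroup G)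
    [M.Normal] : p ^ (Nat.card M).factorization p ∣ Nat.card ((S : Subgroup G) ⊓ M : Subgroup G) := by
  obtain ⟨R, hR⟩ := Cfsg.Agent.H94.exists_sylow_inf_normal S M
  rw [← R.card_eq_multiplicity, hR,
    Nat.card_congr (subgroupOfEquivOfLe (inf_le_right : (S : Subgroup G) ⊓ M ≤ M)).toEquiv]

end Cfsg.Agent.H61
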