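import Cfsg.Agent.H61.D8WreathModel
import Cfsg.Agent.H24.PGroupBasic

/-!
# Finite facts about `D₈ ≀ C₂`
-/

set_option autoImplicit false

namespace Cfsg.Agent.H61.DEightWr

open DihedralGroup

/-- Membership test for the first normal elementary abelian subgroup. -/
def onA (q : DEightWr) : Prop :=
  q.flip = false ∧ (q.fst = 1 ∨ q.fst = r 2 ∨ q.fst = sr 0 ∨ q.fst = sr 2) ∧
    (q.snd = 1 ∨ q.snd = r 2 ∨ q.snd = sr 0 ∨ q.snd = sr 2)

/-- Membership test for the second normal elementary abelian subgroup. -/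
def onB (q : DEightWr) : Prop :=
  q.flip = false ∧ (q.fst = 1 ∨ q.fst = r 2 ∨ q.fst = sr 1 ∨ q.fst = sr 3) ∧
    (q.snd = 1 ∨ q.snd = r 2 ∨ q.snd = sr 1 ∨ q.snd = sr 3)

/-- Membership test for the squares of the base. -/
def onSq (q : DEightWr) : Prop :=
  q.flip = false ∧ (q.fst = 1 ∨ q.fst = r 2) ∧ (q.snd = 1 ∨ q.snd = r 2)

instance (q : DEightWr) : Decidable (onA q) := by unfold onA; infer_instance
instance (q : DEightWr) : Decidable (onB q) := by unfold onB; infer_instance
instance (q : DEightWr) : Decidable (onSq q) := by unfold onSq; infer_instance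

theorem onA_mul : ∀ p q, onA p → onA q → onA (p * q) := by decide +kernel
theorem onB_mul : ∀ p q, onB p → onB q → onB (p * q) := by decide +kernel
theorem onSq_mul : ∀ p q, onSq p → onSq q → onSq (p * q) := by decide +kernel
theorem inv_cases : (∀ p, onA p → onA p⁻¹) ∧ (∀ p, onB p → onB p⁻¹) ∧ (∀ p, onSq p → onSq p⁻¹) := by
  decide +kernel

/-- The first normal elementary abelian subgroup of order 16. -/
def subA : Subgroup DEightWr where
  carrier := {q | onA q}
  one_mem' := show onA 1 by decide +kernel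
  mul_mem' := fun {p q} hp hq => onA_mul p q hp hq
  inv_mem' := fun {p} hp => inv_cases.1 p hp

/-- The second normal elementary abelian subgroup of order 16. -/
def subB : Subgroup DEightWr where
  carrier := {q | onB q}
  one_mem' := show onB 1 by decide +kernel
  mul_mem' := fun {p q} hp hq => onB_mul p q hp hq
  inv_mem' := fun {p} hp => inv_cases.2.1 p hp

/-- The Frattini subgroup of the base. -/
def subSq : Subgroup DEightWr where
  carrier := {q | onSq q}
  one_mem' := show onSq 1 by decide +kernel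
  mul_mem' := fun {p q} hp hq => onSq_mul p q hp hq
  inv_mem' := fun {p} hp => inv_cases.2.2 p hp

/-- The base `D₈ × D₈`. -/
def base : Subgroup DEightWr where
  carrier := {q | q.flip = false}
  one_mem' := rfl
  mul_mem' := fun {p q} hp hq => by
    have : ∀ p q : DEightWr, p.flip = false → q.flip = false → (p * q).flip = false := by decide +kernel
    exact this p q hp hq
  inv_mem' := fun {p} hp => by
    have : ∀ p : DEightWr, p.flip = false → p⁻¹.flip = false := by decide +kernel
    exact this p hp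

theorem card_subA : Nat.card subA = 16 := by
  show Nat.card {q // onA q} = 16
  rw [Nat.card_eq_fintype_card]
  decide +kernel

theorem card_subB : Nat.card subB = 16 := by
  show Nat.card {q // onB q} = 16
  rw [Nat.card_eq_fintype_card]
  decide +kernel

theorem card_subSq : Nat.card subSq = 4 := by
  show Nat.card {q // onSq q} = 4
  rw [Nat.card_eq_fintype_card]
  decide +kernel

theorem card_base : Nat.card base = 64 := by
  show Nat.card {q : DEightWr // q.flip = false} = 64
  rw [Nat.card_eq_fintype_card]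
  decide +kernel

theorem subA_elem : (∀ p, onA p → p * p = 1 ∧ onA (ga * p * ga) ∧ onA (gb * p * gb) ∧ onA (gw * p * gw)) ∧
    ∀ p q, onA p → onA q → p * q = q * p := by decide +kernel

theorem center_iff : ∀ q : DEightWr, (q * ga = ga * q ∧ q * gb = gb * q ∧ q * gw = gw * q) ↔ (q = 1 ∨ q = gz) := by
  decide +kernel

theorem gz_facts : gz * gz = 1 ∧ gz ≠ 1 ∧ gz = (ga * gb) ^ 2 * (gw * (ga * gb) ^ 2 * gw) ∧
    ∀ q : DEightWr, q * gz = gz * q := by decide +kernel

theorem base_sq : ∀ q : DEightWr, q.flip = false → onSq (q * q) := by decide +kernel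

theorem outside_not_commute : ∀ u : DEightWr, u.flip = true → u * u = 1 →
    ∃ g, ¬ (u * (g * u * g⁻¹) = g * u * g⁻¹ * u) := by decide +kernel

theorem pair_not_commute : ∀ u : DEightWr, (u.flip = false ∧ u * u = 1 ∧ ¬ onA u) →
    ∀ v : DEightWr, (v.flip = false ∧ v * v = 1 ∧ ¬ onB v) →
      ¬ (u * v = v * u ∧ u * (gw * v * gw) = gw * v * gw * u) := by decide +kernel

theorem elementary_normal {U : Subgroup DEightWr} (hc : Nat.card U = 16) (hsq : ∀ u ∈ U, u * u = 1)
    (hn : ∀ g, ∀ u ∈ U, g * u * g⁻¹ ∈ U) : U = subA ∨ U = subB := by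
  have hcom : ∀ u ∈ U, ∀ v ∈ U, u * v = v * u := fun u hu v hv => by
    have h := hsq _ (mul_mem hu hv)
    calc u * v = (u * v)⁻¹ := eq_inv_of_mul_eq_one_left h
      _ = v⁻¹ * u⁻¹ := mul_inv_rev _ _
      _ = v * u := by rw [inv_eq_of_mul_eq_one_right (hsq v hv), inv_eq_of_mul_eq_one_right (hsq u hu)]
  have hb : ∀ u ∈ U, u.flip = false := fun u hu => by
    by_contra hne
    obtain ⟨g, hg⟩ := outside_not_commute u (by simpa using hne) (hsq u hu)
    exact hg (hcom u hu _ (hn g u hu))
  by_cases hA : U ≤ subA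
  · exact Or.inl (Subgroup.eq_of_le_of_card_ge hA (by rw [hc, card_subA]))
  · obtain ⟨u, hu, hun⟩ := SetLike.not_le_iff_exists.1 hA
    refine Or.inr (Subgroup.eq_of_le_of_card_ge (fun v hv => ?_) (by rw [hc, card_subB]))
    by_contra hvn
    exact pair_not_commute u ⟨hb u hu, hsq u hu, hun⟩ v ⟨hb v hv, hsq v hv, hvn⟩
      ⟨hcom u hu v hv, hcom u hu _ (by simpa [show gw⁻¹ = gw from rfl] using hn gw v hv)⟩

theorem exists_conj_gw : ∀ u : DEightWr, u.flip = true → u * u = 1 → ∃ p : DEightWr, p * u * p⁻¹ = gw := by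
  decide +kernel

/-- `x` is `g` up to the centre. -/
def near (g x : DEightWr) : Prop := x = g ∨ x = g * gz

instance (g x : DEightWr) : Decidable (near g x) := by unfold near; infer_instance

theorem exists_conj_gens : ∀ x : DEightWr, (x.flip = false ∧ x * x = 1 ∧
    x * (gw * x * gw) = gw * x * gw * x) → ∀ y : DEightWr, (y.flip = false ∧ y * y = 1 ∧
    x * (gw * y * gw) = gw * y * gw * x ∧ y * (gw * y * gw) = gw * y * gw * y ∧ ¬ (x * y = y * x)) →
    ∃ p : DEightWr, p * gw = gw * p ∧ ((near ga (p * x * p⁻¹) ∧ near gb (p * y * p⁻¹)) ∨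
      (near gb (p * x * p⁻¹) ∧ near ga (p * y * p⁻¹))) := by decide +kernel

theorem eq_center_of_fix : ∀ p : DEightWr, p * gw = gw * p → near ga (p * ga * p⁻¹) →
    near gb (p * gb * p⁻¹) → (p = 1 ∨ p = gz) := by decide +kernel

theorem near_not_mem : (∀ x, near gb x → ¬ onA x) ∧ (∀ x, near ga x → ¬ onB x) ∧ onA ga ∧ onB gb := by
  decide +kernel

theorem rel_facts :
    (gw * (ga * (gw * ga * gw))) * (gw * (ga * (gw * ga * gw))) = 1 ∧
    (ga * (gw * ga * gw)) * gw * (ga * (gw * ga * gw)) = gw ∧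
    (gw * (ga * (gw * ga * gw))) * gw = gw * (gw * (ga * (gw * ga * gw))) ∧
    ga * (gw * (ga * (gw * ga * gw))) * ga = gw ∧
    (gb * (gw * gb * gw) * (ga * (gw * ga * gw))) ^ 2 = gz ∧
    ga * (gw * (gw * ga * gw) * gw) = 1 := by decide +kernel

/-- A concrete permutation representation on 8 letters. -/
theorem exists_perm_embedding : ∃ f : DEightWr →* Equiv.Perm (Fin 8), Function.Injective f := by
  have h : Rel (Equiv.swap (0 : Fin 8) 1 * Equiv.swap 2 3) (Equiv.swap (0 : Fin 8) 2)
      (Equiv.swap (0 : Fin 8) 4 * Equiv.swap 1 5 * Equiv.swap 2 6 * Equiv.swap 3 7) := by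
    constructor <;> (first | decide +kernel | (unfold Commute SemiconjBy; decide +kernel))
  obtain ⟨f, ha, hb, hw⟩ := exists_hom h
  refine ⟨f, (MonoidHom.ker_eq_bot_iff f).1 ?_⟩
  by_contra hne
  haveI : Fact (Nat.Prime 2) := ⟨Nat.prime_two⟩
  have h2 : IsPGroup 2 DEightWr := IsPGroup.of_card (n := 7) natCard_eq
  obtain ⟨q, hq, hq1⟩ : ∃ q ∈ f.ker ⊓ Subgroup.center DEightWr, q ≠ 1 := by
    by_contra hcon
    push Not at hcon
    exact H24.inf_center_ne_bot h2 hne ((Subgroup.eq_bot_iff_forall _).2 hcon)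
  have hc := Subgroup.mem_center_iff.1 hq.2
  obtain rfl : q = gz := ((center_iff q).1 ⟨(hc ga).symm, (hc gb).symm, (hc gw).symm⟩).resolve_left hq1
  have hq' : f gz = 1 := hq.1
  rw [show gz = (ga * gb) ^ 2 * (gw * (ga * gb) ^ 2 * gw) from gz_facts.2.2.1] at hq'
  simp only [map_mul, map_pow, ha, hb, hw] at hq'
  revert hq'
  decide +kernel

end Cfsg.Agent.H61.DEightWr
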