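import Mathlib

/-!
# A concrete model of the wreath product of the dihedral group of order 8 by a group of order 2
-/

set_option autoImplicit false

namespace Cfsg.Agent.H61

/-- The wreath product `D₈ ≀ C₂`. -/
@[ext]
structure DEightWr where
  /-- first coordinate -/
  fst : DihedralGroup 4
  /-- second coordinate -/
  snd : DihedralGroup 4
  /-- the swap -/
  flip : Bool
deriving DecidableEq

namespace DEightWr

/-- The obvious bijection with a product. -/
def equivProd : DihedralGroup 4 × DihedralGroup 4 × Bool ≃ DEightWr where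
  toFun q := ⟨q.1, q.2.1, q.2.2⟩
  invFun q := (q.fst, q.snd, q.flip)
  left_inv _ := rfl
  right_inv _ := rfl

instance : Fintype DEightWr := Fintype.ofEquiv _ equivProd

theorem natCard_eq : Nat.card DEightWr = 128 := by
  rw [← Nat.card_congr equivProd, Nat.card_prod, Nat.card_prod, DihedralGroup.nat_card,
    Nat.card_eq_fintype_card, Fintype.card_bool]

instance : Group DEightWr where
  mul p q := match p.flip with
    | false => ⟨p.fst * q.fst, p.snd * q.snd, q.flip⟩
    | true => ⟨p.fst * q.snd, p.snd * q.fst, !q.flip⟩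
  one := ⟨1, 1, false⟩
  inv p := match p.flip with
    | false => ⟨p.fst⁻¹, p.snd⁻¹, false⟩
    | true => ⟨p.snd⁻¹, p.fst⁻¹, true⟩
  mul_assoc := by
    rintro ⟨a, b, _ | _⟩ ⟨a', b', _ | _⟩ ⟨a'', b'', _ | _⟩ <;>
      (apply DEightWr.ext <;> first | rfl | exact mul_assoc _ _ _)
  one_mul := by rintro ⟨a, b, c⟩; apply DEightWr.ext <;> first | rfl | exact one_mul _
  mul_one := by
    rintro ⟨a, b, _ | _⟩ <;> (apply DEightWr.ext <;> first | rfl | exact mul_one _)
  inv_mul_cancel := by
    rintro ⟨a, b, _ | _⟩ <;> (apply DEightWr.ext <;> first | rfl | exact inv_mul_cancel _)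

/-- First generator. -/
def ga : DEightWr := ⟨DihedralGroup.sr 0, 1, false⟩

/-- Second generator. -/
def gb : DEightWr := ⟨DihedralGroup.sr 1, 1, false⟩

/-- The swap. -/
def gw : DEightWr := ⟨1, 1, true⟩

/-- The central involution. -/
def gz : DEightWr := ⟨DihedralGroup.r 2, DihedralGroup.r 2, false⟩

/-- Universal property data. -/
structure Rel {G : Type*} [Group G] (y v t : G) : Prop where
  yy : y * y = 1
  vv : v * v = 1
  tt : t * t = 1
  four : (y * v) ^ 4 = 1
  cyy : Commute y (t * y * t)
  cyv : Commute y (t * v * t)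
  cvy : Commute v (t * y * t)
  cvv : Commute v (t * v * t)

variable {G : Type*} [Group G]

theorem exists_dihedral_hom {y v : G} (hy : y * y = 1) (hv : v * v = 1) (h4 : (y * v) ^ 4 = 1) :
    ∃ f : DihedralGroup 4 →* G, f (DihedralGroup.sr 0) = y ∧ f (DihedralGroup.sr 1) = v ∧
      ∀ d, f d ∈ Subgroup.closure ({y, v} : Set G) := by
  set r := y * v with hr
  let P : ZMod 4 → G := fun i => r ^ i.val
  have hP : ∀ i j, P (i + j) = P i * P j := fun i j => by
    show r ^ (i + j).val = r ^ i.val * r ^ j.val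
    rw [← pow_add, ZMod.val_add]
    conv_rhs => rw [← Nat.mod_add_div (i.val + j.val) 4, pow_add, pow_mul, h4, one_pow, mul_one]
  have hP1 : P 1 = r := by
    show r ^ (1 : ZMod 4).val = r
    rw [show (1 : ZMod 4).val = 1 from rfl, pow_one]
  have hP0 : P 0 = 1 := by
    show r ^ (0 : ZMod 4).val = 1
    rw [ZMod.val_zero, pow_zero]
  have hPn : ∀ i, P (-i) = (P i)⁻¹ := fun i =>
    eq_inv_of_mul_eq_one_left (by rw [← hP, neg_add_cancel, hP0])
  have hry : y * r * y⁻¹ = r⁻¹ := by
    rw [inv_eq_of_mul_eq_one_right hy, hr, mul_inv_rev, inv_eq_of_mul_eq_one_right hy,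
      inv_eq_of_mul_eq_one_right hv, ← mul_assoc, hy, one_mul]
  have hyP : ∀ i, P i * y = y * P (-i) := fun i => by
    rw [hPn]
    have h1 : (y * r * y⁻¹) ^ i.val = y * r ^ i.val * y⁻¹ := conj_pow
    rw [hry, inv_pow] at h1
    show r ^ i.val * y = y * (r ^ i.val)⁻¹
    rw [h1, inv_eq_of_mul_eq_one_right hy, mul_assoc, ← mul_assoc y y, hy, one_mul]
  let fn : DihedralGroup 4 → G
    | DihedralGroup.r i => P i
    | DihedralGroup.sr i => y * P i
  refine ⟨{ toFun := fn, map_one' := hP0, map_mul' := ?_ }, ?_, ?_, ?_⟩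
  · rintro (i | i) (j | j)
    · exact hP i j
    · show y * P (j - i) = P i * (y * P j)
      rw [← mul_assoc, hyP, mul_assoc, ← hP, neg_add_eq_sub]
    · show y * P (i + j) = y * P i * P j
      rw [hP, mul_assoc]
    · show P (j - i) = y * P i * (y * P j)
      rw [mul_assoc y, ← mul_assoc (P i), hyP, mul_assoc y (P (-i)), ← hP, ← mul_assoc, hy, one_mul,
        neg_add_eq_sub]
  · show y * P 0 = y
    rw [hP0, mul_one]
  · show y * P 1 = v
    rw [hP1, hr, ← mul_assoc, hy, one_mul]
  · have hrm : ∀ i, P i ∈ Subgroup.closure ({y, v} : Set G) := fun i =>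
      pow_mem (mul_mem (Subgroup.subset_closure (by simp)) (Subgroup.subset_closure (by simp))) _
    rintro (i | i)
    · exact hrm i
    · exact mul_mem (Subgroup.subset_closure (by simp)) (hrm i)

theorem exists_hom {y v t : G} (h : Rel y v t) :
    ∃ f : DEightWr →* G, f ga = y ∧ f gb = v ∧ f gw = t := by
  obtain ⟨f, hfa, hfb, hfm⟩ := exists_dihedral_hom h.yy h.vv h.four
  have ht : t⁻¹ = t := inv_eq_of_mul_eq_one_right h.tt
  let f' : DihedralGroup 4 →* G := (MulAut.conj t).toMonoidHom.comp f
  have hf' : ∀ d, f' d = t * f d * t := fun d => by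
    show t * f d * t⁻¹ = _
    rw [ht]
  have hcom : ∀ d d', Commute (f d) (f' d') := by
    have h1 : ∀ g, (g = y ∨ g = v) → ∀ d', Commute g (f' d') := by
      intro g hg d'
      have hsub : Subgroup.closure ({y, v} : Set G) ≤
          (Subgroup.centralizer {g}).comap (MulAut.conj t).toMonoidHom := by
        rw [Subgroup.closure_le]
        intro x hx
        refine Subgroup.mem_comap.2 (Subgroup.mem_centralizer_singleton_iff.2 ?_)
        show t * x * t⁻¹ * g = g * (t * x * t⁻¹)
        rw [ht]
        rcases hx with rfl | rfl <;> rcases hg with rfl | rfl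
        exacts [h.cyy.symm.eq, h.cvy.symm.eq, h.cyv.symm.eq, h.cvv.symm.eq]
      exact (Subgroup.mem_centralizer_singleton_iff.1 (hsub (hfm d'))).symm
    intro d d'
    have hsub : Subgroup.closure ({y, v} : Set G) ≤ Subgroup.centralizer {f' d'} := by
      rw [Subgroup.closure_le]
      intro x hx
      exact Subgroup.mem_centralizer_singleton_iff.2 (h1 x hx d').eq
    exact Subgroup.mem_centralizer_singleton_iff.1 (hsub (hfm d))
  have hconj : ∀ d, t * f' d = f d * t ∧ t * f d = f' d * t := fun d => by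
    rw [hf']
    constructor
    · rw [← mul_assoc, ← mul_assoc, h.tt, one_mul]
    · rw [mul_assoc, h.tt, mul_one]
  let F : DEightWr → G
    | ⟨a, b, false⟩ => f a * f' b
    | ⟨a, b, true⟩ => f a * f' b * t
  have hmulF : ∀ a b a' b', f a * f' b * (f a' * f' b') = f (a * a') * f' (b * b') := by
    intro a b a' b'
    rw [map_mul, map_mul, mul_assoc, ← mul_assoc (f' b), ← (hcom a' b).eq]
    simp only [mul_assoc]
  have hswap : ∀ a b a' b', f a * f' b * t * (f a' * f' b') = f (a * b') * f' (b * a') * t := by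
    intro a b a' b'
    rw [← hmulF, mul_assoc (f a * f' b), ← mul_assoc t, (hconj a').2, mul_assoc (f' a'), (hconj b').1,
      ← mul_assoc (f' a'), ← (hcom b' a').eq]
    simp only [mul_assoc]
  refine ⟨{ toFun := F, map_one' := ?_, map_mul' := ?_ }, ?_, ?_, ?_⟩
  · show f 1 * f' 1 = 1
    rw [map_one, map_one, one_mul]
  · rintro ⟨a, b, _ | _⟩ ⟨a', b', _ | _⟩
    · exact (hmulF a b a' b').symm
    · show f (a * a') * f' (b * b') * t = f a * f' b * (f a' * f' b' * t)
      rw [← hmulF]
      simp only [mul_assoc]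
    · exact (hswap a b a' b').symm
    · show f (a * b') * f' (b * a') = f a * f' b * t * (f a' * f' b' * t)
      rw [← mul_assoc (f a * f' b * t), hswap, mul_assoc _ t t, h.tt, mul_one]
  · show f _ * f' 1 = y
    rw [map_one, mul_one, hfa]
  · show f _ * f' 1 = v
    rw [map_one, mul_one, hfb]
  · show f 1 * f' 1 * t = t
    rw [map_one, map_one, one_mul, one_mul]

theorem eq_word (q : DEightWr) : q ∈ Subgroup.closure ({ga, gb, gw} : Set DEightWr) := by
  have hy : ga ∈ Subgroup.closure ({ga, gb, gw} : Set DEightWr) := Subgroup.subset_closure (by simp)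
  have hv : gb ∈ Subgroup.closure ({ga, gb, gw} : Set DEightWr) := Subgroup.subset_closure (by simp)
  have ht : gw ∈ Subgroup.closure ({ga, gb, gw} : Set DEightWr) := Subgroup.subset_closure (by simp)
  have hD : ∀ d : DihedralGroup 4, (⟨d, 1, false⟩ : DEightWr) ∈ Subgroup.closure ({ga, gb, gw} : Set DEightWr) := by
    have h : ∀ d : DihedralGroup 4, ∃ e : Fin 2 × Fin 4,
        (⟨d, 1, false⟩ : DEightWr) = ga ^ e.1.val * (ga * gb) ^ e.2.val := by decide +kernel
    intro d
    obtain ⟨e, he⟩ := h d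
    rw [he]
    exact mul_mem (pow_mem hy _) (pow_mem (mul_mem hy hv) _)
  have e0 : ∀ q : DEightWr, q =
      (⟨q.fst, 1, false⟩ : DEightWr) * (gw * ⟨q.snd, 1, false⟩ * gw) * (if q.flip then gw else 1) := by
    decide +kernel
  rw [e0 q]
  refine mul_mem (mul_mem (hD q.fst) (mul_mem (mul_mem ht (hD q.snd)) ht)) ?_
  split_ifs
  exacts [ht, one_mem _]

theorem closure_eq_top : Subgroup.closure ({ga, gb, gw} : Set DEightWr) = ⊤ :=
  eq_top_iff.2 fun q _ => eq_word q

theorem hom_ext {f g : DEightWr →* G} (ha : f ga = g ga) (hb : f gb = g gb) (hw : f gw = g gw) :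
    f = g :=
  MonoidHom.eq_of_eqOn_dense closure_eq_top fun x hx => by
    simp only [Set.mem_insert_iff, Set.mem_singleton_iff] at hx
    rcases hx with rfl | rfl | rfl <;> assumption

end DEightWr

end Cfsg.Agent.H61
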