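import Cfsg.Agent.H61.D8WreathRank

/-!
# The normalizer of `D₈ ≀ C₂` modulo the centre
-/

set_option autoImplicit false

namespace Cfsg.Agent.H61.DEightWr

open scoped commutatorElement

/-- `gw * (ga * ga')`, an abbreviation for the product of the two base involutions. -/
def gs : DEightWr := ga * (gw * ga * gw)

theorem quot_facts :
    gs * gs = 1 ∧ gw * gs = gs * gw ∧ gs * gw * gs = gw ∧ gw * gw = 1 ∧ ga * ga = 1 ∧
    ga * gw * gs * ga = gw ∧
    (gw * gs) * gw = gw * (gw * gs) ∧
    gw * ga * gw * ga = gs ∧ ga * gs = gw * ga * gw ∧ gs * ga = gw * ga * gw ∧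
    gw * (gs * ga) * gw = ga ∧
    ((gb * (gw * gb * gw)) * gs) * ((gb * (gw * gb * gw)) * gs) = gz := by decide +kernel

/-- The relations needed for the quotient by the centre. -/
theorem quotient_rel {G : Type*} [Group G] (f : DEightWr →* G) (hz : f gz = 1) {h : G}
    (hh : h * h = 1) (hhw : h * f gw = f gw * h) (ha : h * f ga * h = f gb) :
    Rel (f gw * f gs) (f gw * (f gs * h * f gs)) (f ga) ∧
      Subgroup.closure ({f gw * f gs, f gw * (f gs * h * f gs), f ga} : Set G) ⊔ ⊥ ≥ f.range ⊔ Subgroup.zpowers h := by
  obtain ⟨q1, q2, q3, q4, q5, q6, q7, q8, q9, q10, q11, q12⟩ := quot_facts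
  set w := f gw with hwdef
  set a := f ga with hadef
  set s := f gs with hsdef
  have ss : s * s = 1 := by rw [hsdef, ← map_mul, q1, map_one]
  have ww : w * w = 1 := by rw [hwdef, ← map_mul, q4, map_one]
  have aa : a * a = 1 := by rw [hadef, ← map_mul, q5, map_one]
  have ws : w * s = s * w := by rw [hwdef, hsdef, ← map_mul, q2, map_mul]
  set a' := f (gw * ga * gw) with ha'def
  have ha' : a' = w * a * w := by rw [ha'def, map_mul, map_mul]
  have as' : a * s = a' := by rw [hadef, hsdef, ← map_mul, q9]
  have sa : s * a = a' := by rw [hadef, hsdef, ← map_mul, q10]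
  have aws : a * w * s * a = w := by rw [hadef, hwdef, hsdef, ← map_mul, ← map_mul, ← map_mul, q6]
  set b := f gb with hbdef
  set b' := f (gw * gb * gw) with hb'def
  have hb' : b' = w * b * w := by rw [hb'def, map_mul, map_mul]
  have ha'h : h * a' * h = b' := by
    rw [ha', hb', ← ha]
    simp only [← mul_assoc]
    rw [hhw]
    simp only [mul_assoc]
    rw [hhw]
  have hsh : h * s * h = b * b' := by
    rw [show s = a * a' by rw [hadef, ha'def, ← map_mul]; rfl, ← ha, ← ha'h]
    simp only [← mul_assoc]
    rw [mul_assoc (h * a) h h, hh, mul_one]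
  -- shorthand
  have tyt : a * (w * s) * a = w := by rw [← mul_assoc a w s]; exact aws
  have tvt : a * (w * (s * h * s)) * a = w * a * h * a' := by
    calc a * (w * (s * h * s)) * a = a * w * s * (h * (s * a)) := by simp only [mul_assoc]
      _ = (a * w * s * a) * a⁻¹ * (h * a') := by rw [sa, mul_inv_cancel_right]
      _ = _ := by rw [aws, inv_eq_of_mul_eq_one_right aa]; simp only [mul_assoc]
  have hwh : w * h * w = h := by rw [← hhw, mul_assoc, ww, mul_one]
  have wsw : w * s * w = s := by rw [ws, mul_assoc, ww, mul_one]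
  have a'w : a' * w = w * a := by rw [ha', mul_assoc, ww, mul_one]
  have wa' : w * a' = a * w := by rw [ha', ← mul_assoc, ← mul_assoc, ww, one_mul]
  refine ⟨⟨?_, ?_, aa, ?_, ?_, ?_, ?_, ?_⟩, ?_⟩
  · calc w * s * (w * s) = (w * s * w) * s := by simp only [mul_assoc]
      _ = 1 := by rw [wsw, ss]
  · calc w * (s * h * s) * (w * (s * h * s)) = (w * s * w) * (w * h * w) * ((w * s * w) * s) * h * s := by
          have e : ∀ x, w * (w * x) = x := fun x => by rw [← mul_assoc, ww, one_mul]
          simp only [mul_assoc, e]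
      _ = 1 := by rw [wsw, hwh, ss, mul_one, mul_assoc s h h, hh, mul_one, ss]
  · have hyv : w * s * (w * (s * h * s)) = h * s := by
      calc _ = (w * s * w) * s * h * s := by simp only [mul_assoc]
        _ = _ := by rw [wsw, ss, one_mul]
    rw [hyv, show (4 : ℕ) = 2 * 2 from rfl, pow_mul]
    have h2' : (h * s) ^ 2 = b * b' * s := by rw [sq, ← hsh]; simp only [mul_assoc]
    rw [h2', sq, hbdef, hb'def, hsdef, ← map_mul, ← map_mul, ← map_mul, q12, hz]
  · show w * s * (a * (w * s) * a) = a * (w * s) * a * (w * s)
    rw [tyt, hwdef, hsdef, ← map_mul, ← map_mul, ← map_mul, q7]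
  · show w * s * (a * (w * (s * h * s)) * a) = a * (w * (s * h * s)) * a * (w * s)
    rw [tvt]
    have e1 : w * s * (w * a * h * a') = a' * h * a' := by
      calc _ = (w * s * w) * a * h * a' := by simp only [mul_assoc]
        _ = _ := by rw [wsw, sa]
    have e2 : w * a * h * a' * (w * s) = a' * h * a' := by
      calc w * a * h * a' * (w * s) = w * a * h * ((a' * w) * s) := by simp only [mul_assoc]
        _ = w * a * (h * w) * (a * s) := by rw [a'w]; simp only [mul_assoc]
        _ = w * a * w * h * a' := by rw [hhw, as']; simp only [mul_assoc]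
        _ = _ := by rw [← ha']
    rw [e1, e2]
  · show w * (s * h * s) * (a * (w * s) * a) = a * (w * s) * a * (w * (s * h * s))
    rw [tyt]
    calc w * (s * h * s) * w = (w * s * w) * (w * h * w) * (w * s * w) := by
          have e : ∀ x, w * (w * x) = x := fun x => by rw [← mul_assoc, ww, one_mul]
          simp only [mul_assoc, e]
      _ = _ := by rw [wsw, hwh, ← mul_assoc w w, ww, one_mul]
  · show w * (s * h * s) * (a * (w * (s * h * s)) * a) = a * (w * (s * h * s)) * a * (w * (s * h * s))
    rw [tvt]
    have e1 : w * (s * h * s) * (w * a * h * a') = s * b' * a' := by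
      calc _ = (w * s) * h * ((s * w) * a) * (h * a') := by simp only [mul_assoc]
        _ = (w * s) * h * w * (s * a) * (h * a') := by rw [← ws]; simp only [mul_assoc]
        _ = (w * s) * (w * h) * a' * (h * a') := by rw [sa, mul_assoc (w * s) h w, hhw]
        _ = (w * s * w) * (h * a' * h) * a' := by simp only [mul_assoc]
        _ = _ := by rw [wsw, ha'h]
    have e2 : w * a * h * a' * (w * (s * h * s)) = a' * b' * s := by
      calc _ = w * a * h * ((a' * w) * s) * (h * s) := by simp only [mul_assoc]
        _ = w * a * (h * w) * (a * s) * (h * s) := by rw [a'w]; simp only [mul_assoc]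
        _ = (w * a * w) * (h * a' * h) * s := by rw [hhw, as']; simp only [mul_assoc]
        _ = _ := by rw [← ha', ha'h]
    rw [e1, e2, hsdef, ha'def, hb'def, ← map_mul, ← map_mul, ← map_mul, ← map_mul]
    congr 1
  · rw [sup_bot_eq, ge_iff_le]
    set C := Subgroup.closure ({w * s, w * (s * h * s), a} : Set G) with hC
    have hy : w * s ∈ C := Subgroup.subset_closure (by simp)
    have hv : w * (s * h * s) ∈ C := Subgroup.subset_closure (by simp)
    have hta : a ∈ C := Subgroup.subset_closure (by simp)
    have hwC : w ∈ C := tyt ▸ mul_mem (mul_mem hta hy) hta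
    have hsC : s ∈ C := by
      have := mul_mem hwC hy
      rwa [← mul_assoc, ww, one_mul] at this
    have hhC : h ∈ C := by
      have h1 := mul_mem (mul_mem hsC (mul_mem hwC hv)) hsC
      have e : s * (w * (w * (s * h * s))) * s = h := by
        rw [← mul_assoc w w, ww, one_mul]
        simp only [← mul_assoc]
        rw [ss, one_mul, mul_assoc, ss, mul_one]
      rwa [e] at h1
    refine sup_le ?_ (Subgroup.zpowers_le.2 hhC)
    rw [MonoidHom.range_eq_map, ← closure_eq_top, MonoidHom.map_closure, Subgroup.closure_le]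
    rintro _ ⟨q, hq, rfl⟩
    rcases hq with rfl | rfl | rfl
    · exact hta
    · show f gb ∈ C
      rw [← hbdef, ← ha]
      exact mul_mem (mul_mem hhC hta) hhC
    · exact hwC

end Cfsg.Agent.H61.DEightWr
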