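import Cfsg.Agent.H61.D8WreathFacts
import Cfsg.Agent.H29.RankFourPair

/-!
# `D₈ ≀ C₂` inside a 2-group of sectional rank at most four
-/

set_option autoImplicit false

open scoped commutatorElement

namespace Cfsg.Agent.H61.DEightWr

variable {S : Type*} [Group S] [Finite S] (h2 : IsPGroup 2 S) (hr : Cfsg.SectionalPRankLE 2 4 S)
  (ι : DEightWr →* S) (hι : Function.Injective ι)
include h2 hr hι

/-- An element centralizing the image modulo the centre, with square there, lies inside. -/
theorem mem_of_witness {h : S} (hconj : ∀ q, h * ι q * h⁻¹ = ι q ∨ h * ι q * h⁻¹ = ι (q * gz))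
    (hsq : h * h = 1 ∨ h * h = ι gz) : h ∈ ι.range := by
  by_contra hn
  haveI : Fact (Nat.Prime 2) := ⟨Nat.prime_two⟩
  have hgz : ∀ q, ι q * ι gz = ι gz * ι q := fun q => by rw [← map_mul, ← map_mul, gz_facts.2.2.2]
  have hzfix : h * ι gz * h⁻¹ = ι gz := by
    rcases hconj gz with e | e
    · exact e
    · rw [gz_facts.1, map_one] at e
      have e' : ι gz = 1 := by
        have e2 : h * ι gz = h * 1 := by rw [mul_inv_eq_iff_eq_mul.1 e, mul_one, one_mul]
        exact mul_left_cancel e2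
      exact absurd (hι (e'.trans (map_one ι).symm)) gz_facts.2.1
  have hconj2 : ∀ q, h * ι q = ι q * h ∨ h * ι q = ι (q * gz) * h := fun q =>
    (hconj q).imp (fun e => mul_inv_eq_iff_eq_mul.1 e) (fun e => mul_inv_eq_iff_eq_mul.1 e)
  set B : Subgroup S := base.map ι with hB
  set Φ : Subgroup S := subSq.map ι with hΦ
  have hzΦ : ι gz ∈ Φ := ⟨gz, show onSq gz by decide +kernel, rfl⟩
  let X : Subgroup S := Subgroup.closure (insert h (B : Set S))
  have hform : ∀ x ∈ X, ∃ q ∈ base, x = ι q ∨ x = ι q * h := by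
    intro x hx
    induction hx using Subgroup.closure_induction with
    | mem y hy =>
      rcases hy with rfl | ⟨q, hq, rfl⟩
      · exact ⟨1, one_mem _, Or.inr (by rw [map_one, one_mul])⟩
      · exact ⟨q, hq, Or.inl rfl⟩
    | one => exact ⟨1, one_mem _, Or.inl (map_one ι).symm⟩
    | inv y _ hy =>
      obtain ⟨q, hq, rfl | rfl⟩ := hy
      · exact ⟨q⁻¹, inv_mem hq, Or.inl (map_inv ι q).symm⟩
      · have hinv : h⁻¹ = h ∨ h⁻¹ = ι gz * h := by
          rcases hsq with e | e
          · exact Or.inl (inv_eq_of_mul_eq_one_right e)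
          · refine Or.inr (inv_eq_of_mul_eq_one_right ?_)
            rw [← mul_assoc, mul_inv_eq_iff_eq_mul.1 hzfix, mul_assoc, e, ← map_mul, gz_facts.1, map_one]
        rw [mul_inv_rev, ← map_inv]
        rcases hinv with e | e <;> rw [e] <;> rcases hconj2 q⁻¹ with e' | e'
        · exact ⟨q⁻¹, inv_mem hq, Or.inr e'⟩
        · exact ⟨q⁻¹ * gz, mul_mem (inv_mem hq) rfl, Or.inr e'⟩
        · exact ⟨gz * q⁻¹, mul_mem (show gz ∈ base from rfl) (inv_mem hq), Or.inr (by
            rw [mul_assoc, e', ← mul_assoc, ← map_mul])⟩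
        · exact ⟨gz * (q⁻¹ * gz), mul_mem (show gz ∈ base from rfl) (mul_mem (inv_mem hq) rfl), Or.inr (by
            rw [mul_assoc, e', ← mul_assoc, ← map_mul])⟩
    | mul a b _ _ ha hb =>
      obtain ⟨q, hq, rfl | rfl⟩ := ha <;> obtain ⟨q', hq', rfl | rfl⟩ := hb
      · exact ⟨q * q', mul_mem hq hq', Or.inl (map_mul ι q q').symm⟩
      · exact ⟨q * q', mul_mem hq hq', Or.inr (by rw [map_mul, mul_assoc])⟩
      · rcases hconj2 q' with e | e
        · exact ⟨q * q', mul_mem hq hq', Or.inr (by rw [mul_assoc, e, map_mul, mul_assoc])⟩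
        · exact ⟨q * (q' * gz), mul_mem hq (mul_mem hq' rfl), Or.inr (by
            rw [mul_assoc, e, map_mul ι q (q' * gz), mul_assoc])⟩
      · have hhh : ∃ ζ : DEightWr, ζ ∈ base ∧ h * h = ι ζ := by
          rcases hsq with e | e
          · exact ⟨1, one_mem _, e.trans (map_one ι).symm⟩
          · exact ⟨gz, rfl, e⟩
        obtain ⟨ζ, hζ, hh⟩ := hhh
        rcases hconj2 q' with e | e
        · exact ⟨q * q' * ζ, mul_mem (mul_mem hq hq') hζ, Or.inl (by
            rw [map_mul, map_mul, ← hh, mul_assoc (ι q) h, ← mul_assoc h (ι q') h, e]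
            simp only [mul_assoc])⟩
        · exact ⟨q * (q' * gz) * ζ, mul_mem (mul_mem hq (mul_mem hq' rfl)) hζ, Or.inl (by
            rw [map_mul ι (q * (q' * gz)) ζ, map_mul ι q (q' * gz), ← hh, mul_assoc (ι q) h,
              ← mul_assoc h (ι q') h, e]
            simp only [mul_assoc])⟩
  have hsqX : ∀ x ∈ X, x * x ∈ Φ := by
    intro x hx
    obtain ⟨q, hq, rfl | rfl⟩ := hform x hx
    · exact ⟨q * q, base_sq q hq, map_mul ι q q⟩
    · have hqq : ι q * ι q ∈ Φ := ⟨q * q, base_sq q hq, map_mul ι q q⟩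
      have hh : h * h ∈ Φ := by
        rcases hsq with e | e <;> rw [e]
        exacts [one_mem _, hzΦ]
      rcases hconj2 q with e | e
      · have hx2 : ι q * h * (ι q * h) = ι q * ι q * (h * h) := by
          rw [mul_assoc, ← mul_assoc h, e]
          simp only [mul_assoc]
        rw [hx2]
        exact mul_mem hqq hh
      · have hx2 : ι q * h * (ι q * h) = ι q * ι q * ι gz * (h * h) := by
          rw [mul_assoc, ← mul_assoc h, e, map_mul]
          simp only [mul_assoc]
        rw [hx2]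
        exact mul_mem (mul_mem hqq hzΦ) hh
  have hBX : B ≤ X := fun x hx => Subgroup.subset_closure (Set.mem_insert_of_mem _ hx)
  have hhX : h ∈ X := Subgroup.subset_closure (Set.mem_insert _ _)
  have hΦX : Φ ≤ X := (Subgroup.map_mono fun q (hq : onSq q) => hq.1).trans hBX
  have hXn : X ≤ Subgroup.normalizer (Φ : Set S) := by
    have key : ∀ y ∈ X, ∀ s ∈ Φ, y * s * y⁻¹ ∈ Φ := by
      intro y hy s hs
      have e : y * s * y⁻¹ = (y * s) * (y * s) * (s⁻¹ * (y⁻¹ * y⁻¹)) := by group
      rw [e]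
      exact mul_mem (hsqX _ (mul_mem hy (hΦX hs))) (mul_mem (inv_mem hs) (hsqX _ (inv_mem hy)))
    intro y hy
    refine Subgroup.mem_normalizer_iff.2 fun s => ⟨key y hy s, fun hs => ?_⟩
    have h1 := key y⁻¹ (inv_mem hy) _ hs
    simpa [mul_assoc] using h1
  haveI : (Φ.subgroupOf X).Normal :=
    Subgroup.normal_subgroupOf_of_le_normalizer hXn
  have hsqF : ∀ x : X, x ^ 2 ∈ Φ.subgroupOf X := fun x => by
    rw [Subgroup.mem_subgroupOf, Subgroup.coe_pow, sq]
    exact hsqX _ x.2
  have hcomF : ∀ x y : X, ⁅x, y⁆ ∈ Φ.subgroupOf X := fun x y => by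
    rw [← QuotientGroup.eq_one_iff]
    have hq : ∀ a : X ⧸ Φ.subgroupOf X, a * a = 1 := fun a => by
      obtain ⟨a, rfl⟩ := QuotientGroup.mk_surjective a
      rw [← QuotientGroup.mk_mul, QuotientGroup.eq_one_iff, ← sq]
      exact hsqF a
    have hi : ∀ a : X ⧸ Φ.subgroupOf X, a⁻¹ = a := fun a => inv_eq_of_mul_eq_one_right (hq a)
    show QuotientGroup.mk' _ ⁅x, y⁆ = 1
    rw [map_commutatorElement, commutatorElement_def, hi, hi, mul_assoc, hq]
  have hind := H29.RankFour.index_le_of_section hr X.subtype (Φ.subgroupOf X)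
    (by rw [X.ker_subtype]; exact bot_le) hcomF hsqF
  have hcΦ : Nat.card (Φ.subgroupOf X) = 4 := by
    rw [Nat.card_congr (Subgroup.subgroupOfEquivOfLe hΦX).toEquiv, Subgroup.card_map_of_injective hι, card_subSq]
  have hcB : Nat.card B = 64 := by rw [Subgroup.card_map_of_injective hι, card_base]
  have hXc : 128 ≤ Nat.card X := by
    have hidx := Subgroup.card_mul_index (B.subgroupOf X)
    rw [Nat.card_congr (Subgroup.subgroupOfEquivOfLe hBX).toEquiv, hcB] at hidx
    have hne : (B.subgroupOf X).index ≠ 1 := fun e => hn (by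
      rw [Subgroup.index_eq_one, Subgroup.subgroupOf_eq_top] at e
      obtain ⟨q, -, hq⟩ := e hhX
      exact ⟨q, hq⟩)
    have hne0 : (B.subgroupOf X).index ≠ 0 := Subgroup.index_ne_zero_of_finite
    rw [← hidx]
    calc 128 = 64 * 2 := rfl
      _ ≤ _ := Nat.mul_le_mul_left 64 (by omega)
  have := Subgroup.card_mul_index (Φ.subgroupOf X)
  rw [hcΦ] at this
  have h16 : (Φ.subgroupOf X).index ≤ 16 := by simpa using hind
  omega

/-- The centralizer of the image lies inside. -/
theorem centralizer_mem : ∀ c : S, (∀ q, c * ι q = ι q * c) → c = 1 ∨ c = ι gz := by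
  have hin : ∀ c : S, (∀ q, c * ι q = ι q * c) → c ∈ ι.range → c = 1 ∨ c = ι gz := by
    rintro c hc ⟨p, rfl⟩
    have hp : ∀ q, p * q = q * p := fun q => hι (by rw [map_mul, map_mul]; exact hc q)
    rcases (center_iff p).1 ⟨hp _, hp _, hp _⟩ with rfl | rfl
    exacts [Or.inl (map_one ι), Or.inr rfl]
  suffices h : ∀ n, ∀ c : S, orderOf c = n → (∀ q, c * ι q = ι q * c) → c ∈ ι.range from
    fun c hc => hin c hc (h _ c rfl hc)
  intro n
  induction n using Nat.strong_induction_on with
  | _ n ih =>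
    intro c hn hc
    by_cases h1 : c = 1
    · rw [h1]; exact one_mem _
    obtain ⟨k, hk⟩ := (IsPGroup.iff_orderOf.1 h2) c
    have hlt : orderOf (c * c) < n := by
      rw [← sq, orderOf_pow, ← hn, hk]
      rcases k with _ | k
      · exact absurd (orderOf_eq_one_iff.1 hk) h1
      · rw [Nat.gcd_eq_right (dvd_pow_self 2 (Nat.succ_ne_zero k))]
        exact Nat.div_lt_self (by positivity) one_lt_two
    have hc2 : ∀ q, c * c * ι q = ι q * (c * c) := fun q => by
      rw [mul_assoc, hc, ← mul_assoc, hc, mul_assoc]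
    refine mem_of_witness h2 hr ι hι (fun q => Or.inl (by rw [hc, mul_inv_cancel_right])) ?_
    exact hin _ hc2 (ih _ hlt _ rfl hc2)

/-- An element fixing the generators up to the centre lies inside. -/
theorem mem_of_fix {h : S} (hw : h * ι gw * h⁻¹ = ι gw) (ha : ∃ x, near ga x ∧ h * ι ga * h⁻¹ = ι x)
    (hb : ∃ x, near gb x ∧ h * ι gb * h⁻¹ = ι x) : h ∈ ι.range := by
  obtain ⟨x, hx, ha⟩ := ha
  obtain ⟨y, hy, hb⟩ := hb
  set c : S →* S := (MulAut.conj h).toMonoidHom with hc
  have hzfix : h * ι gz * h⁻¹ = ι gz := by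
    show c (ι gz) = ι gz
    have e : (x * y) ^ 2 * (gw * (x * y) ^ 2 * gw) = gz := by
      have key : ∀ x, near ga x → ∀ y, near gb y → (x * y) ^ 2 * (gw * (x * y) ^ 2 * gw) = gz := by decide +kernel
      exact key x hx y hy
    conv_lhs => rw [gz_facts.2.2.1]
    rw [← e]
    simp only [map_mul, map_pow]
    simp only [hc, MulEquiv.coe_toMonoidHom, MulAut.conj_apply, hw, ha, hb]
  let T : Subgroup DEightWr :=
    { carrier := {q | h * ι q * h⁻¹ = ι q ∨ h * ι q * h⁻¹ = ι (q * gz)}
      one_mem' := Or.inl (by simp)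
      mul_mem' := fun {p q} hp hq => by
        have e : h * ι (p * q) * h⁻¹ = (h * ι p * h⁻¹) * (h * ι q * h⁻¹) := by rw [map_mul]; group
        show _ ∨ _
        rw [e]
        rcases hp with hp | hp <;> rcases hq with hq | hq <;> rw [hp, hq, ← map_mul]
        · exact Or.inl rfl
        · exact Or.inr (by rw [mul_assoc])
        · exact Or.inr (by rw [mul_assoc, ← gz_facts.2.2.2, mul_assoc])
        · refine Or.inl (congrArg ι ?_)
          rw [mul_assoc p, ← mul_assoc gz q, ← gz_facts.2.2.2 q, mul_assoc q, gz_facts.1, mul_one]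
      inv_mem' := fun {p} hp => by
        have e : h * ι p⁻¹ * h⁻¹ = (h * ι p * h⁻¹)⁻¹ := by rw [map_inv]; group
        show _ ∨ _
        rw [e]
        rcases hp with hp | hp <;> rw [hp, ← map_inv]
        · exact Or.inl rfl
        · refine Or.inr (congrArg ι ?_)
          rw [mul_inv_rev, inv_eq_of_mul_eq_one_right gz_facts.1, ← gz_facts.2.2.2] }
  have hT : T = ⊤ := by
    refine eq_top_iff.2 ?_
    rw [← closure_eq_top, Subgroup.closure_le]
    rintro q (rfl | rfl | rfl)
    · rcases hx with rfl | rfl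
      exacts [Or.inl ha, Or.inr ha]
    · rcases hy with rfl | rfl
      exacts [Or.inl hb, Or.inr hb]
    · exact Or.inl hw
  have hall : ∀ q, h * ι q * h⁻¹ = ι q ∨ h * ι q * h⁻¹ = ι (q * gz) := fun q => (hT ▸ Subgroup.mem_top q : q ∈ T)
  refine mem_of_witness h2 hr ι hι hall (centralizer_mem h2 hr ι hι _ fun q => ?_)
  have e : h * h * ι q * (h * h)⁻¹ = h * (h * ι q * h⁻¹) * h⁻¹ := by group
  refine mul_inv_eq_iff_eq_mul.1 ?_
  rw [e]
  rcases hall q with e1 | e1 <;> rw [e1]
  · exact e1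
  · rw [map_mul]
    have e2 : h * (ι q * ι gz) * h⁻¹ = (h * ι q * h⁻¹) * (h * ι gz * h⁻¹) := by group
    rw [e2, hzfix, e1, map_mul, mul_assoc, ← map_mul, gz_facts.1, map_one, mul_one]

omit h2 hr in
/-- Normal form of an element normalizing the image. -/
theorem exists_standard {g : S} (hg : g ∈ Subgroup.normalizer (ι.range : Set S)) :
    ∃ p : DEightWr, (ι p * g) * ι gw * (ι p * g)⁻¹ = ι gw ∧
      (((∃ x, near ga x ∧ (ι p * g) * ι ga * (ι p * g)⁻¹ = ι x) ∧
          ∃ x, near gb x ∧ (ι p * g) * ι gb * (ι p * g)⁻¹ = ι x) ∨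
        ((∃ x, near gb x ∧ (ι p * g) * ι ga * (ι p * g)⁻¹ = ι x) ∧
          ∃ x, near ga x ∧ (ι p * g) * ι gb * (ι p * g)⁻¹ = ι x)) := by
  classical
  have hex : ∀ q, ∃ y, ι y = g * ι q * g⁻¹ := fun q =>
    (Subgroup.mem_normalizer_iff.1 hg _).1 ⟨q, rfl⟩
  choose φ₀ hφ₀ using hex
  let φ : DEightWr →* DEightWr :=
    { toFun := φ₀
      map_one' := hι (by rw [hφ₀]; simp)
      map_mul' := fun a b => hι (by rw [hφ₀, map_mul, map_mul, hφ₀, hφ₀]; group) }
  have hφ : ∀ q, ι (φ q) = g * ι q * g⁻¹ := hφ₀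
  have hinj : Function.Injective φ := fun a b e => hι (by
    have := congrArg ι e
    rw [hφ, hφ] at this
    exact mul_left_cancel (mul_right_cancel this))
  have hsurj : Function.Surjective φ := Finite.surjective_of_injective hinj
  -- the normal elementary abelian subgroup goes to one of them
  have hU : ∀ u, onA u → (φ u).flip = false := by
    have hn := elementary_normal (U := subA.map φ)
      (by rw [Subgroup.card_map_of_injective hinj, card_subA])
      (by rintro _ ⟨u, hu, rfl⟩; rw [← map_mul, (subA_elem.1 u hu).1, map_one])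
      (by
        have hN : subA.Normal := ⟨fun u hu q => by
          have key : ∀ q : DEightWr, ∀ u, onA u → onA (q * u * q⁻¹) := by decide +kernel
          exact key q u hu⟩
        haveI := hN.map φ hsurj
        exact fun q u hu => Subgroup.Normal.conj_mem inferInstance u hu q)
    intro u hu
    rcases hn with e | e
    · exact (show onA (φ u) from e.le ⟨u, hu, rfl⟩).1
    · exact (show onB (φ u) from e.le ⟨u, hu, rfl⟩).1
  have hU' : ∀ u, onB u → (φ u).flip = false := by
    have hn := elementary_normal (U := subB.map φ)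
      (by rw [Subgroup.card_map_of_injective hinj, card_subB])
      (by
        rintro _ ⟨u, hu, rfl⟩
        have key : ∀ u, onB u → u * u = 1 := by decide +kernel
        rw [← map_mul, key u hu, map_one])
      (by
        have hN : subB.Normal := ⟨fun u hu q => by
          have key : ∀ q : DEightWr, ∀ u, onB u → onB (q * u * q⁻¹) := by decide +kernel
          exact key q u hu⟩
        haveI := hN.map φ hsurj
        exact fun q u hu => Subgroup.Normal.conj_mem inferInstance u hu q)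
    intro u hu
    rcases hn with e | e
    · exact (show onA (φ u) from e.le ⟨u, hu, rfl⟩).1
    · exact (show onB (φ u) from e.le ⟨u, hu, rfl⟩).1
  have hxb := hU ga near_not_mem.2.2.1
  have hyb := hU' gb near_not_mem.2.2.2
  have hwb : (φ gw).flip = true := by
    by_contra hne
    have hle : (Subgroup.closure ({ga, gb, gw} : Set DEightWr)).map φ ≤ base := by
      rw [MonoidHom.map_closure, Subgroup.closure_le]
      rintro _ ⟨q, hq, rfl⟩
      rcases hq with rfl | rfl | rfl
      exacts [hxb, hyb, (by simpa using hne : (φ gw).flip = false)]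
    rw [closure_eq_top, Subgroup.map_top_of_surjective φ hsurj] at hle
    exact Bool.noConfusion (hle (Subgroup.mem_top gw) : gw.flip = false)
  obtain ⟨p1, hp1⟩ := exists_conj_gw (φ gw) hwb (by
    rw [← map_mul, show gw * gw = 1 by decide +kernel, map_one])
  let ψ : DEightWr →* DEightWr := (MulAut.conj p1).toMonoidHom.comp φ
  have hψw : ψ gw = gw := hp1
  have hψb : ∀ u, (φ u).flip = false → (ψ u).flip = false := fun u hu => by
    have key : ∀ p q : DEightWr, q.flip = false → (p * q * p⁻¹).flip = false := by decide +kernel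
    exact key p1 _ hu
  have hψinj : Function.Injective ψ := (MulAut.conj p1).injective.comp hinj
  have tr : ∀ a b : DEightWr, a * b = b * a → ψ a * ψ b = ψ b * ψ a := fun a b e => by
    rw [← map_mul, e, map_mul]
  have c1 := tr ga (gw * ga * gw) (by decide +kernel)
  have c2 := tr ga (gw * gb * gw) (by decide +kernel)
  have c3 := tr gb (gw * gb * gw) (by decide +kernel)
  simp only [map_mul, hψw] at c1 c2 c3
  obtain ⟨p2, hp2w, hp2⟩ := exists_conj_gens (ψ ga)
    ⟨hψb _ hxb, by rw [← map_mul, show ga * ga = 1 by decide +kernel, map_one], c1⟩ (ψ gb)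
    ⟨hψb _ hyb, by rw [← map_mul, show gb * gb = 1 by decide +kernel, map_one], c2, c3, fun e => by
      rw [← map_mul, ← map_mul] at e
      exact absurd (hψinj e) (by decide +kernel)⟩
  have hval : ∀ q, (ι (p2 * p1) * g) * ι q * (ι (p2 * p1) * g)⁻¹ = ι (p2 * ψ q * p2⁻¹) := fun q => by
    show _ = ι (p2 * (p1 * φ q * p1⁻¹) * p2⁻¹)
    simp only [map_mul, map_inv, hφ]
    group
  refine ⟨p2 * p1, ?_, ?_⟩
  · rw [hval, hψw, mul_inv_eq_iff_eq_mul.2 hp2w]
  · rcases hp2 with ⟨e1, e2⟩ | ⟨e1, e2⟩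
    · exact Or.inl ⟨⟨_, e1, hval ga⟩, _, e2, hval gb⟩
    · exact Or.inr ⟨⟨_, e1, hval ga⟩, _, e2, hval gb⟩

/-- Elements of the normalizer outside the image interchange the generators. -/
theorem exists_swapper {g : S} (hg : g ∈ Subgroup.normalizer (ι.range : Set S)) (hn : g ∉ ι.range) :
    ∃ p : DEightWr, (ι p * g) * ι gw * (ι p * g)⁻¹ = ι gw ∧
      (∃ x, near gb x ∧ (ι p * g) * ι ga * (ι p * g)⁻¹ = ι x) ∧
      ∃ x, near ga x ∧ (ι p * g) * ι gb * (ι p * g)⁻¹ = ι x := by
  obtain ⟨p, hw, ⟨ha, hb⟩ | h⟩ := exists_standard ι hι hg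
  · refine absurd ?_ hn
    have := mul_mem (inv_mem (⟨p, rfl⟩ : ι p ∈ ι.range)) (mem_of_fix h2 hr ι hι hw ha hb)
    rwa [inv_mul_cancel_left] at this
  · exact ⟨p, hw, h⟩

/-- Two elements outside multiply into the image. -/
theorem mul_mem_range {g g' : S} (hg : g ∈ Subgroup.normalizer (ι.range : Set S)) (hn : g ∉ ι.range)
    (hg' : g' ∈ Subgroup.normalizer (ι.range : Set S)) (hn' : g' ∉ ι.range) : g * g' ∈ ι.range := by
  obtain ⟨p, hw, ⟨x, hx, ha⟩, y, hy, hb⟩ := exists_swapper h2 hr ι hι hg hn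
  obtain ⟨p', hw', ⟨x', hx', ha'⟩, y', hy', hb'⟩ := exists_swapper h2 hr ι hι hg' hn'
  have hzc : (ι p * g) * ι gz * (ι p * g)⁻¹ = ι gz := by
    have key : ∀ x, near gb x → ∀ y, near ga y → (x * y) ^ 2 * (gw * (x * y) ^ 2 * gw) = gz := by decide +kernel
    have gen : ∀ k : S, k * ι gw * k⁻¹ = ι gw → k * ι ga * k⁻¹ = ι x → k * ι gb * k⁻¹ = ι y →
        MulAut.conj k (ι gz) = ι ((x * y) ^ 2 * (gw * (x * y) ^ 2 * gw)) := fun k e1 e2 e3 => by
      rw [gz_facts.2.2.1]
      simp only [map_mul, map_pow]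
      simp only [MulAut.conj_apply, e1, e2, e3]
    have h1 := gen _ hw ha hb
    rwa [key x hx y hy] at h1
  have hcomb : ∀ q, (ι p * g * (ι p' * g')) * ι q * (ι p * g * (ι p' * g'))⁻¹ =
      (ι p * g) * ((ι p' * g') * ι q * (ι p' * g')⁻¹) * (ι p * g)⁻¹ := fun q => by group
  have step : ∀ a b x y x', near a x → near b x' → (ι p * g) * ι b * (ι p * g)⁻¹ = ι x →
      (ι p' * g') * ι y * (ι p' * g')⁻¹ = ι x' →
      ∃ r, near a r ∧ (ι p * g * (ι p' * g')) * ι y * (ι p * g * (ι p' * g'))⁻¹ = ι r := by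
    intro a b x y x' hx hx' e e'
    rw [hcomb, e']
    rcases hx' with rfl | rfl
    · exact ⟨x, hx, e⟩
    · refine ⟨x * gz, ?_, ?_⟩
      · rcases hx with rfl | rfl
        exacts [Or.inr rfl, Or.inl (by rw [mul_assoc, gz_facts.1, mul_one])]
      · rw [map_mul, map_mul]
        calc _ = ((ι p * g) * ι b * (ι p * g)⁻¹) * ((ι p * g) * ι gz * (ι p * g)⁻¹) := by group
          _ = _ := by rw [e, hzc]
  have h := mem_of_fix h2 hr ι hι (h := ι p * g * (ι p' * g')) (by rw [hcomb, hw', hw])
    (step ga gb y ga x' hy hx' hb ha') (step gb ga x gb y' hx hy' ha hb')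
  have hgp : g * ι p' * g⁻¹ ∈ ι.range := (Subgroup.mem_normalizer_iff.1 hg _).1 ⟨p', rfl⟩
  have e : g * g' = (g * ι p' * g⁻¹)⁻¹ * (ι p)⁻¹ * (ι p * g * (ι p' * g')) := by group
  rw [e]
  exact mul_mem (mul_mem (inv_mem hgp) (inv_mem ⟨p, rfl⟩)) h

/-- An element of the normalizer outside the image moves both normal elementary abelian subgroups. -/
theorem not_stabilize {g : S} (hg : g ∈ Subgroup.normalizer (ι.range : Set S)) (hn : g ∉ ι.range)
    {U : Subgroup DEightWr} (hU : U = subA ∨ U = subB) (hgU : g ∈ Subgroup.normalizer ((U.map ι : Subgroup S) : Set S)) :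
    False := by
  obtain ⟨p, -, ⟨x, hx, ha⟩, y, hy, hb⟩ := exists_swapper h2 hr ι hι hg hn
  have hUn : ∀ q u, u ∈ U → q * u * q⁻¹ ∈ U := by
    rcases hU with rfl | rfl
    · have key : ∀ q : DEightWr, ∀ u, onA u → onA (q * u * q⁻¹) := by decide +kernel
      exact fun q u hu => key q u hu
    · have key : ∀ q : DEightWr, ∀ u, onB u → onB (q * u * q⁻¹) := by decide +kernel
      exact fun q u hu => key q u hu
  have hstab : ∀ u x, u ∈ U → (ι p * g) * ι u * (ι p * g)⁻¹ = ι x → x ∈ U := by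
    intro u x hu e
    obtain ⟨v, hv, hv'⟩ := (Subgroup.mem_normalizer_iff.1 hgU _).1 (Subgroup.mem_map_of_mem ι hu)
    have e' : ι x = ι (p * v * p⁻¹) := by
      rw [← e, map_mul, map_mul, map_inv, hv']
      group
    rw [hι e']
    exact hUn p v hv
  rcases hU with rfl | rfl
  · exact near_not_mem.1 x hx (hstab ga x near_not_mem.2.2.1 ha)
  · exact near_not_mem.2.1 y hy (hstab gb y near_not_mem.2.2.2 hb)

end Cfsg.Agent.H61.DEightWr
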