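import Cfsg.Agent.H61.KInfApps
import Cfsg.Agent.H61.WeakLocal
import Cfsg.Agent.H22.PResidual

/-! Quadratic and Engel elements acting on groups with an abelian `p'` layer. -/

set_option autoImplicit false

namespace Cfsg.Agent.H61

open scoped commutatorElement Pointwise

/-- A fixed-point-free abelian `p'`-group with an element of order `p` whose conjugates have
vanishing norm acts trivially on a group of exponent `p`. -/
theorem frob_trivial {p : ℕ} [Fact p.Prime] {A : Type*} [CommGroup A] (hA : ∀ a : A, a ^ p = 1)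
    {F : Type*} [Group F] (σ : F →* MulAut A) (R : Subgroup F) [Finite R]
    (hR : (Nat.card R).Coprime p) (hcomm : ∀ r ∈ R, ∀ s ∈ R, r * s = s * r) (h : F) (hp : h ^ p = 1)
    (hnorm : ∀ r ∈ R, h * r * h⁻¹ ∈ R) (hfpf : ∀ r ∈ R, h * r = r * h → r = 1)
    (hsum : ∀ a : A, ∏ i ∈ Finset.range p, σ (h ^ i) a = 1) : ∀ t ∈ R, σ t = 1 := by
  classical
  haveI : Fintype R := Fintype.ofFinite R
  have happ : ∀ (x y : F) (a : A), σ (x * y) a = σ x (σ y a) := fun x y a => by
    rw [map_mul, MulAut.mul_apply]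
  have hpow : ∀ (i : ℕ) (r : R), h ^ i * (r : F) * (h ^ i)⁻¹ ∈ R := by
    intro i
    induction i with
    | zero => intro r; simp
    | succ i ih =>
      intro r
      rw [show h ^ (i + 1) * (r : F) * (h ^ (i + 1))⁻¹ = h * (h ^ i * r * (h ^ i)⁻¹) * h⁻¹ by
        rw [pow_succ']; group]
      exact hnorm _ (ih r)
  let d : ℕ → R → R := fun i r =>
    ⟨(r : F) * (h ^ i * ((r⁻¹ : R) : F) * (h ^ i)⁻¹), mul_mem r.2 (hpow i _)⟩
  have hd : ∀ i, 0 < i → i < p → Function.Bijective (d i) := by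
    intro i hi hip
    refine Finite.injective_iff_bijective.1 fun r s e => ?_
    have e' : (r : F) * (h ^ i * (r : F)⁻¹ * (h ^ i)⁻¹) = s * (h ^ i * (s : F)⁻¹ * (h ^ i)⁻¹) :=
      congrArg Subtype.val e
    have hq : h ^ i * ((s : F)⁻¹ * r) = ((s : F)⁻¹ * r) * h ^ i :=
      calc h ^ i * ((s : F)⁻¹ * r)
          = (h ^ i * (s : F)⁻¹ * (h ^ i)⁻¹) * (h ^ i * r) := by group
        _ = ((s : F)⁻¹ * ((r : F) * (h ^ i * (r : F)⁻¹ * (h ^ i)⁻¹))) * (h ^ i * r) := by
          rw [e', inv_mul_cancel_left]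
        _ = ((s : F)⁻¹ * r) * h ^ i := by group
    have hgen : h ∈ Subgroup.zpowers (h ^ i) := by
      have h0 : orderOf h ∣ p := orderOf_dvd_of_pow_eq_one hp
      obtain ⟨j, hj⟩ := exists_pow_eq_self_of_coprime (n := i) (x := h) (Nat.Coprime.coprime_dvd_right h0
        ((Fact.out : p.Prime).coprime_iff_not_dvd.2 fun hd => Nat.not_dvd_of_pos_of_lt hi hip hd).symm)
      exact ⟨(j : ℤ), by simpa using hj⟩
    obtain ⟨j, hj⟩ := hgen
    have hq' : h * ((s : F)⁻¹ * r) = ((s : F)⁻¹ * r) * h := by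
      have := ((show Commute (h ^ i) ((s : F)⁻¹ * r) from hq).zpow_left j).eq
      rwa [show (h ^ i) ^ j = h from hj] at this
    exact (Subtype.ext (inv_mul_eq_one.1 (hfpf _ (mul_mem (inv_mem s.2) r.2) hq'))).symm
  let Φ : A →* A := {
    toFun := fun a => ∏ r : R, σ r a
    map_one' := by simp
    map_mul' := fun a b => by simp [Finset.prod_mul_distrib] }
  have hΦ : ∀ a, Φ a = a ^ Nat.card R := by
    intro a
    have h1 : ∏ i ∈ Finset.range p, ∏ r : R, σ ((r : F) * h ^ i * (r : F)⁻¹) a = 1 := by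
      rw [Finset.prod_comm]
      refine Finset.prod_eq_one fun r _ => ?_
      simp only [happ]
      rw [← map_prod, hsum, map_one]
    have h2 : ∀ i ∈ Finset.range (p - 1),
        ∏ r : R, σ ((r : F) * h ^ (i + 1) * (r : F)⁻¹) a = Φ (σ (h ^ (i + 1)) a) := by
      intro i hi
      refine Fintype.prod_bijective _ (hd (i + 1) (Nat.succ_pos i) (by
        rw [Finset.mem_range] at hi; omega)) _ _ fun r => ?_
      rw [← happ]
      show σ _ a = σ (((r : F) * (h ^ (i + 1) * (r : F)⁻¹ * (h ^ (i + 1))⁻¹)) * h ^ (i + 1)) a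
      congr 2; group
    have hp1 : p = (p - 1) + 1 := by have := (Fact.out : p.Prime).one_lt; omega
    rw [hp1, Finset.prod_range_succ', Finset.prod_congr rfl h2, ← map_prod] at h1
    have h3 := hsum a
    rw [hp1, Finset.prod_range_succ', pow_zero, map_one, MulAut.one_apply] at h3
    rw [eq_inv_of_mul_eq_one_left h3, map_inv] at h1
    simp only [pow_zero, mul_one, mul_inv_cancel, map_one, MulAut.one_apply, Finset.prod_const,
      Finset.card_univ] at h1
    rw [Nat.card_eq_fintype_card]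
    exact inv_mul_eq_one.1 h1
  intro t ht
  refine MulEquiv.ext fun a => ?_
  have h4 : σ t (Φ a) = Φ a := by
    show σ t (∏ r : R, σ r a) = ∏ r : R, σ r a
    rw [map_prod]
    exact Fintype.prod_bijective (fun r : R => (⟨t, ht⟩ : R) * r) (Group.mulLeft_bijective _) _ _
      fun r => (happ t r a).symm
  rw [hΦ, map_pow] at h4
  have h5 : (σ t a * a⁻¹) ^ Nat.card R = 1 := by rw [mul_pow, inv_pow, h4, mul_inv_cancel]
  have h6 := Nat.eq_one_of_dvd_coprimes hR (orderOf_dvd_of_pow_eq_one h5)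
    (orderOf_dvd_of_pow_eq_one (hA _))
  rw [MulAut.one_apply]
  exact mul_inv_eq_one.1 (orderOf_eq_one_iff.1 h6)

universe u

variable {G : Type u} [Group G] [Finite G] {p : ℕ} [Fact p.Prime]

/-- On a factor `U/V` centralized by `D`, with `K/D` an abelian `p'`-group, an element with
`[U, h; p-1] ≤ V` and `h^p ∈ D` makes `[h, K]` act trivially. -/
theorem commutator_trivial_on_factor {D K U V : Subgroup G} [D.Normal] [K.Normal] [U.Normal] [V.Normal]
    (hDK : D ≤ K) (hKab : ⁅K, K⁆ ≤ D) (hKp : ∀ x ∈ K, ∃ m, ¬ p ∣ m ∧ x ^ m ∈ D)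
    (hUU : ⁅U, U⁆ ≤ V) (hUp : ∀ u ∈ U, u ^ p ∈ V) (hUD : ⁅U, D⁆ ≤ V) {h : G} (hhp : h ^ p ∈ D)
    (hiter : Cfsg.iterCommutator U (Subgroup.zpowers h) (p - 1) ≤ V) {k : G} (hk : k ∈ K) :
    ⁅U, Subgroup.zpowers ⁅h, k⁆⁆ ≤ V := by
  classical
  set f := QuotientGroup.mk' V with hf
  set A := U.map f with hA
  haveI hAn : A.Normal := (inferInstance : U.Normal).map _ (QuotientGroup.mk'_surjective V)
  letI : CommGroup A := { (inferInstance : Group A) with
    mul_comm := fun a b => Subtype.ext (by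
      obtain ⟨x, hx, ex⟩ := a.2
      obtain ⟨y, hy, ey⟩ := b.2
      show (a : G ⧸ V) * b = b * a
      rw [← ex, ← ey, ← commutatorElement_eq_one_iff_mul_comm, ← map_commutatorElement]
      exact (QuotientGroup.eq_one_iff _).2 (hUU (Subgroup.commutator_mem_commutator hx hy))) }
  let σ₀ : G →* MulAut A := (MulAut.conjNormal (H := A)).comp f
  have hker : D ≤ σ₀.ker := by
    intro d hd
    refine MonoidHom.mem_ker.2 (MulEquiv.ext fun a => Subtype.ext ?_)
    obtain ⟨x, hx, ex⟩ := a.2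
    show f d * (a : G ⧸ V) * (f d)⁻¹ = a
    rw [← ex, mul_inv_eq_iff_eq_mul, eq_comm, ← commutatorElement_eq_one_iff_mul_comm,
      ← map_commutatorElement]
    exact (QuotientGroup.eq_one_iff _).2 (hUD (Subgroup.commutator_mem_commutator hx hd))
  let σ : G ⧸ D →* MulAut A := QuotientGroup.lift D σ₀ hker
  set q := QuotientGroup.mk' D with hq
  have hqK : ∀ a ∈ K, ∀ b ∈ K, q a * q b = q b * q a := fun a ha b hb => by
    rw [← commutatorElement_eq_one_iff_mul_comm, ← map_commutatorElement]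
    exact (QuotientGroup.eq_one_iff _).2 (hKab (Subgroup.commutator_mem_commutator ha hb))
  have hKc : ∀ {a : G}, a ∈ K → h * a * h⁻¹ ∈ K := fun ha => Subgroup.Normal.conj_mem inferInstance _ ha h
  have hcK : ∀ a ∈ K, ⁅h, a⁆ ∈ K := fun a ha => by
    rw [commutatorElement_def]; exact mul_mem (hKc ha) (inv_mem ha)
  let c : K →* G ⧸ D := {
    toFun := fun a => q ⁅h, (a : G)⁆
    map_one' := by simp
    map_mul' := fun a b => by
      rw [← map_mul, Subgroup.coe_mul]
      have e : ⁅h, (a : G) * b⁆ = ⁅h, (a : G)⁆ * ((a : G) * ⁅h, (b : G)⁆ * (a : G)⁻¹) := by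
        simp [commutatorElement_def, mul_assoc]
      rw [e, map_mul, map_mul, map_mul, map_mul, map_inv, hqK _ a.2 _ (hcK _ b.2),
        mul_inv_cancel_right] }
  set R := c.range with hR
  have hqKle : ∀ r ∈ R, ∃ a ∈ K, r = q a := by
    rintro _ ⟨a, rfl⟩; exact ⟨_, hcK _ a.2, rfl⟩
  have hcop : (Nat.card R).Coprime p := by
    refine ((Fact.out : p.Prime).coprime_iff_not_dvd.2 fun hd => ?_).symm
    obtain ⟨r, hr⟩ := exists_prime_orderOf_dvd_card' p hd
    obtain ⟨a, haK, ha⟩ := hqKle r r.2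
    obtain ⟨m, hm, hma⟩ := hKp a haK
    refine hm (hr ▸ ?_)
    rw [← Subgroup.orderOf_coe, ha]
    refine orderOf_dvd_of_pow_eq_one ?_
    rw [← map_pow]
    exact (QuotientGroup.eq_one_iff _).2 hma
  have hqhp : q h ^ p = 1 := by rw [← map_pow]; exact (QuotientGroup.eq_one_iff _).2 hhp
  have hsum : ∀ a : A, ∏ i ∈ Finset.range p, σ (q h ^ i) a = 1 := by
    intro a
    have key := prod_conj_eq_one (p := p) (MonoidHom.id A) (f h)
      (fun u hu => hAn.conj_mem u hu (f h)) (fun u => by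
        obtain ⟨x, hx, ex⟩ := u.2
        refine Subtype.ext ?_
        show ((u : A) : G ⧸ V) ^ p = 1
        rw [← ex, ← map_pow]
        exact (QuotientGroup.eq_one_iff _).2 (hUp x hx))
      (fun x hx hx' => by
        refine Subtype.ext ?_
        rw [hA, ← MonoidHom.map_zpowers, ← map_iterCommutator] at hx'
        obtain ⟨y, hy, ey⟩ := hx'
        show x = 1
        rw [← ey]
        exact (QuotientGroup.eq_one_iff _).2 (hiter hy)) a (fun i => hAn.conj_mem a a.2 _)
    refine Eq.trans (Finset.prod_congr rfl fun i _ => Subtype.ext ?_) key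
    show ((σ (q h ^ i) a : A) : G ⧸ V) = f h ^ i * (a : G ⧸ V) * (f h ^ i)⁻¹
    rw [← map_pow q]
    show f (h ^ i) * (a : G ⧸ V) * (f (h ^ i))⁻¹ = _
    rw [map_pow]
  have htriv := frob_trivial (p := p) (fun a : A => by
      obtain ⟨x, hx, ex⟩ := a.2
      refine Subtype.ext ?_
      show ((a : A) : G ⧸ V) ^ p = 1
      rw [← ex, ← map_pow]
      exact (QuotientGroup.eq_one_iff _).2 (hUp x hx))
    σ R hcop
    (fun r hr s hs => by
      obtain ⟨a, ha, rfl⟩ := hqKle r hr
      obtain ⟨b, hb, rfl⟩ := hqKle s hs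
      exact hqK a ha b hb)
    (q h) hqhp
    (by
      rintro _ ⟨a, rfl⟩
      refine ⟨⟨h * a * h⁻¹, hKc a.2⟩, ?_⟩
      show q ⁅h, h * (a : G) * h⁻¹⁆ = q h * q ⁅h, (a : G)⁆ * (q h)⁻¹
      rw [← map_inv, ← map_mul, ← map_mul]
      congr 1
      simp [commutatorElement_def, mul_assoc])
    (by
      rintro r ⟨a, rfl⟩ he
      -- iterate `h`
      set y : G ⧸ D := c a with hy
      have hy' : y = q h * q a * (q h)⁻¹ * (q a)⁻¹ := by
        show q ⁅h, (a : G)⁆ = _
        rw [map_commutatorElement, commutatorElement_def]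
      have hit : ∀ i : ℕ, q h ^ i * q a * (q h ^ i)⁻¹ = y ^ i * q a := by
        intro i
        induction i with
        | zero => simp
        | succ i ih =>
          calc q h ^ (i + 1) * q a * (q h ^ (i + 1))⁻¹ = q h * (q h ^ i * q a * (q h ^ i)⁻¹) * (q h)⁻¹ := by
                rw [pow_succ']; group
            _ = (q h * y ^ i) * q a * (q h)⁻¹ := by rw [ih]; group
            _ = (y ^ i * q h) * q a * (q h)⁻¹ := by
              rw [((show Commute (q h) y from he).pow_right i).eq]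
            _ = y ^ i * (q h * q a * (q h)⁻¹) := by group
            _ = y ^ i * (y * q a) := by rw [hy', inv_mul_cancel_right]
            _ = y ^ (i + 1) * q a := by rw [pow_succ, mul_assoc]
      have h1 := hit p
      rw [hqhp, one_mul, inv_one, mul_one] at h1
      have h2 : y ^ p = 1 := mul_eq_right.1 h1.symm
      exact orderOf_eq_one_iff.1 (Nat.eq_one_of_dvd_coprimes hcop
        (Subgroup.orderOf_dvd_natCard R ⟨a, rfl⟩) (orderOf_dvd_of_pow_eq_one h2)))
    hsum (q ⁅h, k⁆) ⟨⟨k, hk⟩, rfl⟩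
  have hcomm : ∀ x ∈ U, f x * f ⁅h, k⁆ = f ⁅h, k⁆ * f x := by
    intro x hx
    have h1 : σ₀ ⁅h, k⁆ ⟨f x, x, hx, rfl⟩ = ⟨f x, x, hx, rfl⟩ := by
      show σ (q ⁅h, k⁆) _ = _
      rw [htriv]; rfl
    exact (mul_inv_eq_iff_eq_mul.1 (congrArg Subtype.val h1 :)).symm
  rw [← QuotientGroup.ker_mk' V, ← hf, ← Subgroup.map_eq_bot_iff, Subgroup.map_commutator,
    Subgroup.commutator_comm, Subgroup.commutator_eq_bot_iff_le_centralizer, MonoidHom.map_zpowers,
    Subgroup.zpowers_le, Subgroup.mem_centralizer_iff]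
  rintro _ ⟨x, hx, rfl⟩
  exact hcomm x hx

/-- A normal subgroup acting as a `p`-group on a chief factor inside a `p`-group centralizes it. -/
theorem chief_centralized {D U V : Subgroup G} [D.Normal] (hUp : IsPGroup p U)
    (hch : Cfsg.IsChiefFactor U V)
    (hD : ∀ x ∈ D, ∃ k : ℕ, ⁅U, Subgroup.zpowers (x ^ p ^ k)⁆ ≤ V) : ⁅U, D⁆ ≤ V := by
  obtain ⟨hlt, hUn, hVn, hmax⟩ := hch
  set f := QuotientGroup.mk' V with hf
  have hfs : Function.Surjective f := QuotientGroup.mk'_surjective V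
  set A := U.map f with hA
  have hAn : A.Normal := hUn.map _ hfs
  set C := Subgroup.centralizer (A : Set (G ⧸ V)) with hC
  have hCn : C.Normal := inferInstance
  set D' := D.map f with hD'
  have hDn : D'.Normal := (inferInstance : D.Normal).map _ hfs
  set π := QuotientGroup.mk' C with hπ
  have hDC : IsPGroup p (D'.map π) := by
    rintro ⟨_, _, ⟨x, hx, rfl⟩, rfl⟩
    obtain ⟨k, hk⟩ := hD x hx
    refine ⟨k, Subtype.ext ?_⟩
    show π (f x) ^ p ^ k = 1
    rw [← map_pow, ← map_pow, hπ, QuotientGroup.mk'_apply, QuotientGroup.eq_one_iff, hC,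
      ← Subgroup.zpowers_le, ← MonoidHom.map_zpowers, ← Subgroup.commutator_eq_bot_iff_le_centralizer,
      Subgroup.commutator_comm, ← Subgroup.map_commutator, Subgroup.map_eq_bot_iff, hf,
      QuotientGroup.ker_mk']
    exact hk
  obtain ⟨P⟩ : Nonempty (Sylow p (G ⧸ V)) := inferInstance
  have hAP : A ≤ (P : Subgroup (G ⧸ V)) := (H19.le_pCore hAn (hUp.map f)).trans (H19.pCore_le_sylow P)
  have hne : A.subgroupOf (P : Subgroup (G ⧸ V)) ≠ ⊥ := by
    rw [Ne, Subgroup.subgroupOf_eq_bot, disjoint_iff, inf_eq_left.2 hAP, hA, Subgroup.map_eq_bot_iff,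
      hf, QuotientGroup.ker_mk']
    exact hlt.not_ge
  have : Group.IsNilpotent (P : Subgroup (G ⧸ V)) := P.isPGroup'.isNilpotent
  obtain ⟨z, hz, hz1⟩ :=
    (Subgroup.bot_or_exists_ne_one _).resolve_left (H19.inf_center_ne_bot _ hne)
  have hle : D' ≤ (P : Subgroup (G ⧸ V)) ⊔ C := by
    have h1 := (H19.le_pCore (hDn.map π (QuotientGroup.mk'_surjective C)) hDC).trans
      (H19.pCore_le_sylow (P.mapSurjective (QuotientGroup.mk'_surjective C)))
    rw [Sylow.coe_mapSurjective, Subgroup.map_le_iff_le_comap, Subgroup.comap_map_eq,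
      QuotientGroup.ker_mk'] at h1
    exact h1
  set W := A ⊓ Subgroup.centralizer (D' : Set (G ⧸ V)) with hW
  have hzW : ((z : P) : G ⧸ V) ∈ W := by
    refine Subgroup.mem_inf.2 ⟨hz.1, Subgroup.mem_centralizer_iff.2 fun y hy => ?_⟩
    have : (P : Subgroup (G ⧸ V)) ⊔ C ≤ Subgroup.centralizer {((z : P) : G ⧸ V)} := by
      refine sup_le (fun a ha => ?_) fun a ha => ?_
      · rw [Subgroup.mem_centralizer_singleton_iff]
        exact congrArg Subtype.val (Subgroup.mem_center_iff.1 hz.2 ⟨a, ha⟩)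
      · rw [Subgroup.mem_centralizer_singleton_iff]
        exact (Subgroup.mem_centralizer_iff.1 ha _ hz.1).symm
    exact Subgroup.mem_centralizer_singleton_iff.1 (this (hle hy))
  have hWn : (W.comap f).Normal := (Subgroup.normal_inf_normal _ _ : W.Normal).comap f
  rcases hmax (W.comap f) hWn
    ((QuotientGroup.ker_mk' V).ge.trans (Subgroup.ker_le_comap f W))
    ((Subgroup.comap_mono inf_le_left).trans (by
      rw [hA, Subgroup.comap_map_eq, hf, QuotientGroup.ker_mk', sup_eq_left.2 hlt.le])) with e | e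
  · have h1 : W = ⊥ := by
      rw [← Subgroup.map_comap_eq_self_of_surjective hfs W, e, Subgroup.map_eq_bot_iff, hf,
        QuotientGroup.ker_mk']
    rw [h1, Subgroup.mem_bot] at hzW
    exact absurd (Subtype.ext hzW) hz1
  · have h1 : A ≤ W := by
      rw [← Subgroup.map_comap_eq_self_of_surjective hfs W, e]
    rw [← QuotientGroup.ker_mk' V, ← hf, ← Subgroup.map_eq_bot_iff, Subgroup.map_commutator,
      Subgroup.commutator_eq_bot_iff_le_centralizer]
    exact h1.trans inf_le_right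

/-- A `p`-element outside `D` has a power outside `D` whose `p`-th power is inside. -/
theorem exists_power_above {D : Subgroup G} {g : G} (hg : g ∉ D) {k : ℕ} (hk : g ^ p ^ k ∈ D) :
    ∃ h ∈ Subgroup.zpowers g, h ∉ D ∧ h ^ p ∈ D := by
  classical
  have hex : ∃ j, g ^ p ^ j ∈ D := ⟨k, hk⟩
  have hspec := Nat.find_spec hex
  rcases hn : Nat.find hex with _ | n
  · rw [hn, pow_zero, pow_one] at hspec; exact absurd hspec hg
  · rw [hn, pow_succ, pow_mul] at hspec
    exact ⟨_, pow_mem (Subgroup.mem_zpowers g) _, Nat.find_min hex (by omega), hspec⟩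

end Cfsg.Agent.H61
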