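import Cfsg.Agent.H61.U34Sylow

/-!
The group of order 320 with derived subgroup of order 64 having a four-group centre is unique.
-/

set_option autoImplicit false

namespace Cfsg.Agent.H61.Group320

open scoped commutatorElement

/-- The hypotheses on the group. -/
structure Hyp (G : Type*) [Group G] : Prop where
  card : Nat.card G = 320
  derived : Nat.card (commutator G) = 64
  center : IsKleinFour (Subgroup.center (commutator G))

variable {G : Type*} [Group G] [Finite G]

theorem zpowers_facts (H : Hyp G) {g : G} (hg : orderOf g = 5) :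
    (commutator G).IsComplement' (Subgroup.zpowers g) := by
  refine Subgroup.isComplement'_of_coprime ?_ ?_
  · rw [H.derived, Nat.card_zpowers, hg, H.card]
  · rw [H.derived, Nat.card_zpowers, hg]
    norm_num

theorem five_hyp (H : Hyp G) {g : G} (hg : orderOf g = 5) :
    U34.Hyp (commutator G) (MulAut.conjNormal g) := by
  have hcompl := zpowers_facts H hg
  have hdec : ∀ y : G, ∃ u ∈ commutator G, ∃ k : ℕ, y = u * g ^ k := by
    intro y
    obtain ⟨⟨⟨u, hu⟩, ⟨v, hv⟩⟩, huv, -⟩ := hcompl.existsUnique y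
    obtain ⟨k, hk⟩ := mem_powers_iff_mem_zpowers.2 hv
    simp only at hk
    refine ⟨u, hu, k, huv.symm.trans ?_⟩
    show u * v = u * g ^ k
    rw [hk]
  have hgen : ∀ N : Subgroup ↥(commutator G), N.Normal → (∀ x ∈ N, MulAut.conjNormal g x ∈ N) →
      (∀ x y : ↥(commutator G), ⁅x, y⁆ ∈ N) → (∀ x, x⁻¹ * MulAut.conjNormal g x ∈ N) → N = ⊤ := by
    intro N hN hinv hcomm hd
    have hpow : ∀ (k : ℕ), ∀ x ∈ N, MulAut.conjNormal (g ^ k) x ∈ N := by
      intro k
      induction k with
      | zero => intro x hx; simpa using hx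
      | succ k ih =>
        intro x hx
        rw [pow_succ, map_mul, MulAut.mul_apply]
        exact ih _ (hinv x hx)
    haveI hMn : (N.map (commutator G).subtype).Normal := by
      refine ⟨?_⟩
      rintro _ ⟨x, hx, rfl⟩ y
      obtain ⟨u, hu, k, rfl⟩ := hdec y
      refine ⟨⟨u, hu⟩ * MulAut.conjNormal (g ^ k) x * ⟨u, hu⟩⁻¹, hN.conj_mem _ (hpow k x hx) _, ?_⟩
      simp only [Subgroup.coe_subtype, Subgroup.coe_mul, Subgroup.coe_inv, MulAut.conjNormal_apply,
        mul_inv_rev]
      group
    set M := N.map (commutator G).subtype with hM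
    set π := QuotientGroup.mk' M with hπ
    have hTT : ∀ a ∈ commutator G, ∀ b ∈ commutator G, π a * π b = π b * π a := by
      intro a ha b hb
      rw [← commutatorElement_eq_one_iff_mul_comm, ← map_commutatorElement]
      exact (QuotientGroup.eq_one_iff _).2 ⟨⁅⟨a, ha⟩, ⟨b, hb⟩⁆, hcomm _ _,
        map_commutatorElement (commutator G).subtype _ _⟩
    have hgT : ∀ a ∈ commutator G, π g * π a = π a * π g := by
      intro a ha
      have h1 : π (a⁻¹ * (g * a * g⁻¹)) = 1 :=
        (QuotientGroup.eq_one_iff _).2 ⟨_, hd ⟨a, ha⟩, by simp [MulAut.conjNormal_apply]⟩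
      simp only [map_mul, map_inv] at h1
      rw [inv_mul_eq_one] at h1
      conv_rhs => rw [h1]
      group
    have hgk : ∀ (k : ℕ) (a : G), a ∈ commutator G → π (g ^ k) * π a = π a * π (g ^ k) := by
      intro k a ha
      rw [map_pow]
      exact (Commute.pow_left (hgT a ha : Commute (π g) (π a)) k).eq
    have hab : ∀ a b : G, π a * π b = π b * π a := by
      intro a b
      obtain ⟨u, hu, k, rfl⟩ := hdec a
      obtain ⟨v, hv, l, rfl⟩ := hdec b
      simp only [map_mul]
      calc π u * π (g ^ k) * (π v * π (g ^ l)) = π u * (π (g ^ k) * π v) * π (g ^ l) := by group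
        _ = π u * π v * (π (g ^ k) * π (g ^ l)) := by rw [hgk k v hv]; group
        _ = π v * π u * (π (g ^ l) * π (g ^ k)) := by
          rw [hTT u hu v hv, map_pow, map_pow, ← pow_add, ← pow_add, add_comm]
        _ = π v * (π u * π (g ^ l)) * π (g ^ k) := by group
        _ = π v * π (g ^ l) * (π u * π (g ^ k)) := by rw [← hgk l u hu]; group
    have hle : commutator G ≤ M := by
      rw [commutator_def, Subgroup.commutator_le]
      intro a _ b _
      refine (QuotientGroup.eq_one_iff _).1 ?_
      show π ⁅a, b⁆ = 1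
      rw [map_commutatorElement, commutatorElement_eq_one_iff_mul_comm]
      exact hab a b
    refine eq_top_iff.2 fun x _ => ?_
    obtain ⟨w, hw, hwx⟩ := hle x.2
    have : w = x := Subtype.ext hwx
    exact this ▸ hw
  refine ⟨H.derived, H.center.card_four, fun z hz => ?_, ?_, ?_, hgen⟩
  · haveI := H.center
    exact congrArg Subtype.val (IsKleinFour.mul_self (⟨z, hz⟩ : Subgroup.center ↥(commutator G)))
  · rw [← map_pow, show g ^ 5 = 1 from hg ▸ pow_orderOf_eq_one g, map_one]
  · intro h1
    have htop := hgen (commutator ↥(commutator G)) inferInstance (fun x hx => by rwa [h1, MulAut.one_apply])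
      (fun x y => Subgroup.commutator_mem_commutator (Subgroup.mem_top _) (Subgroup.mem_top _))
      (fun x => by rw [h1, MulAut.one_apply, inv_mul_cancel]; exact one_mem _)
    haveI : Fact (Nat.Prime 2) := ⟨Nat.prime_two⟩
    haveI : Group.IsNilpotent ↥(commutator G) :=
      (IsPGroup.of_card (n := 6) (by rw [H.derived]; norm_num) : IsPGroup 2 ↥(commutator G)).isNilpotent
    haveI : Nontrivial ↥(commutator G) := Finite.one_lt_card_iff_nontrivial.1 (by rw [H.derived]; norm_num)
    haveI : Group.IsSolvable ↥(commutator G) := inferInstance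
    exact (Group.IsSolvable.commutator_lt_top_of_nontrivial ↥(commutator G)).ne htop

/-- Uniqueness. -/
theorem nonempty_equiv {K : Type*} [Group K] [Finite K] (HG : Hyp G) (HK : Hyp K) :
    Nonempty (G ≃* K) := by
  haveI : Fact (Nat.Prime 5) := ⟨by norm_num⟩
  obtain ⟨g, hg⟩ := exists_prime_orderOf_dvd_card' 5 (show 5 ∣ Nat.card G by rw [HG.card]; norm_num)
  obtain ⟨k, hk⟩ := exists_prime_orderOf_dvd_card' 5 (show 5 ∣ Nat.card K by rw [HK.card]; norm_num)
  obtain ⟨D, hD⟩ := (five_hyp HG hg).exists_data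
  obtain ⟨E, hE⟩ := (five_hyp HK hk).exists_data
  obtain ⟨e, he⟩ := D.exists_equiv E
  rw [hD, hE] at he
  let g' : Subgroup.zpowers g := ⟨g, Subgroup.mem_zpowers g⟩
  let k' : Subgroup.zpowers k := ⟨k, Subgroup.mem_zpowers k⟩
  have ho : orderOf g' = orderOf k' := by
    rw [← Subgroup.orderOf_coe, ← Subgroup.orderOf_coe, hg, hk]
  let fg : Subgroup.zpowers g ≃* Subgroup.zpowers k :=
    mulEquivOfOrderOfEq (g := g') (g' := k')
      (fun x => by obtain ⟨_, i, rfl⟩ := x; exact ⟨i, Subtype.ext (by simp [g'])⟩)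
      (fun x => by obtain ⟨_, i, rfl⟩ := x; exact ⟨i, Subtype.ext (by simp [k'])⟩) ho
  have hconj : ∀ (i : ℕ) (u : ↥(commutator G)),
      e (MulAut.conjNormal (g ^ i) u) = MulAut.conjNormal (k ^ i) (e u) := by
    intro i
    induction i with
    | zero => intro u; simp
    | succ i ih =>
      intro u
      rw [pow_succ, pow_succ, map_mul, map_mul, MulAut.mul_apply, MulAut.mul_apply, ih, he]
  refine ⟨(SemidirectProduct.mulEquivSubgroup (zpowers_facts HG hg)).symm.trans
    ((SemidirectProduct.congr e fg ?_).trans (SemidirectProduct.mulEquivSubgroup (zpowers_facts HK hk)))⟩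
  rintro ⟨a, ha⟩
  obtain ⟨i, rfl⟩ := mem_powers_iff_mem_zpowers.2 ha
  refine MulEquiv.ext fun u => ?_
  have h1 : fg ⟨g ^ i, ha⟩ = k' ^ i := by
    rw [show (⟨g ^ i, ha⟩ : Subgroup.zpowers g) = g' ^ i from Subtype.ext (by simp [g']), map_pow]
    exact congrArg (· ^ i) (mulEquivOfOrderOfEq_apply_gen _ _ ho)
  rw [h1]
  refine Eq.trans ?_ (Eq.trans (hconj i u) ?_)
  · exact congrArg e (Subtype.ext (by simp [MulAut.conjNormal_apply, -map_pow]))
  · exact Subtype.ext (by simp [MulAut.conjNormal_apply, k', -map_pow])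

end Cfsg.Agent.H61.Group320
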