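import Cfsg.Agent.H61.L34Parabolic
import Cfsg.Agent.H19.Gaschutz
import Cfsg.Agent.S4706
import Cfsg.Prelude.Def_Transfer

/-!
Preimages of the elementary abelian subgroups of order 16 in a covering group of `PSL(3,4)`.
-/

set_option autoImplicit false

namespace Cfsg.Agent.H61.L34

open Matrix
open scoped commutatorElement

variable {F : Type*} [Field F] [Fintype F]

local notation "SL2" => SpecialLinearGroup (Fin 2) F
local notation "L3" => ProjectiveSpecialLinearGroup (Fin 3) F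

/-- Conjugation of models. -/
noncomputable def Model.conj {E : Subgroup (ProjectiveSpecialLinearGroup (Fin 3) F)} (M : Model F E)
    (g : ProjectiveSpecialLinearGroup (Fin 3) F) : Model F (E.map (MulAut.conj g).toMonoidHom) := by
  have hn : ∀ n, n ∈ Subgroup.normalizer (E : Set L3) →
      g * n * g⁻¹ ∈ Subgroup.normalizer ((E.map (MulAut.conj g).toMonoidHom : Subgroup L3) : Set L3) := by
    intro n hn
    rw [← Subgroup.map_normalizer_eq_of_bijective (H := E)
      (f := (MulAut.conj g).toMonoidHom) (MulAut.conj g).bijective]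
    exact ⟨n, hn, rfl⟩
  refine ⟨(MulAut.conj g).toMonoidHom.comp M.j, fun m => hn _ (M.mem_norm m), ?_, ?_, ?_⟩
  · rintro m ⟨e, he, h⟩
    exact M.inter m ((MulAut.conj g).injective h ▸ he)
  · intro x hx
    rw [← Subgroup.map_normalizer_eq_of_bijective (H := E) (f := (MulAut.conj g).toMonoidHom) (MulAut.conj g).bijective] at hx
    obtain ⟨n, hn', rfl⟩ := hx
    obtain ⟨e, he, m, rfl⟩ := M.decomp n hn'
    exact ⟨(MulAut.conj g) e, ⟨e, he, rfl⟩, m, map_mul _ _ _⟩
  · rintro _ ⟨a, ha, rfl⟩ _ ⟨b, hb, rfl⟩ ha1 hb1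
    obtain ⟨n, hn', hab⟩ := M.trans a ha b hb (fun h => ha1 (by rw [h, map_one])) (fun h => hb1 (by rw [h, map_one]))
    refine ⟨g * n * g⁻¹, hn n hn', ?_⟩
    show g * n * g⁻¹ * (g * a * g⁻¹) * (g * n * g⁻¹)⁻¹ = g * b * g⁻¹
    rw [← hab]
    group

variable (hF : Fintype.card F = 4)
include hF

omit hF in
theorem sylowImage_le {g : SpecialLinearGroup (Fin 3) F} (hg : g ∈ UT F) :
    pr F g ∈ (UT F).map (pr F) := ⟨g, hg, rfl⟩

/-- The unitriangular image is a Sylow subgroup, of index odd and order 64. -/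
theorem ut_facts : Nat.card ((UT F).map (pr F)) = 64 ∧
    Nat.card (ProjectiveSpecialLinearGroup (Fin 3) F) = 20160 := by
  classical
  let π : UT F →* L3 := (pr F).comp (UT F).subtype
  have hinj : Function.Injective π := by
    rintro ⟨g, a, b, c, rfl⟩ ⟨g', a', b', c', rfl⟩ h
    obtain ⟨e1, e2, e3⟩ := pr_um_inj (F := F) h
    exact Subtype.ext (um_eq_iff.2 ⟨e1, e2, e3⟩)
  have hr : π.range = (UT F).map (pr F) := by
    rw [MonoidHom.range_comp, Subgroup.range_subtype]
  refine ⟨by rw [← hr, ← Nat.card_congr (MonoidHom.ofInjective hinj).toEquiv, card_UT, hF]; norm_num, ?_⟩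
  have h1 := H1.sub_one_mul_card_SL hF 3 (by norm_num)
  have h2 := H1.gcd_mul_card_PSL (ι := Fin 3) (F := F)
  rw [H1.natCard_units hF, Fintype.card_fin] at h2
  simp only [Fin.prod_univ_three] at h1
  norm_num at h1 h2
  rw [Nat.card_eq_fintype_card]
  omega

/-- An elementary abelian subgroup of order 16 inside the unitriangular image. -/
theorem eq_col_or_row {E : Subgroup L3} (hle : E ≤ (UT F).map (pr F))
    (hsq : ∀ e ∈ E, e * e = 1) (hc : Nat.card E = 16) :
    E = (colGroup F).map (pr F) ∨ E = (rowGroup F).map (pr F) := by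
  classical
  have hcard : Nat.card ((colGroup F).map (pr F)) = 16 ∧ Nat.card ((rowGroup F).map (pr F)) = 16 := by
    constructor
    · let f : F × F → (colGroup F).map (pr F) := fun p => ⟨pr F (um 0 p.1 p.2), _, ⟨p.1, p.2, rfl⟩, rfl⟩
      have hf : Function.Bijective f := by
        refine ⟨fun p q h => ?_, ?_⟩
        · obtain ⟨-, e2, e3⟩ := pr_um_inj (F := F) (congrArg Subtype.val h)
          exact Prod.ext e2 e3
        · rintro ⟨_, _, ⟨b, c, rfl⟩, rfl⟩
          exact ⟨(b, c), rfl⟩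
      rw [← Nat.card_eq_of_bijective f hf, Nat.card_prod, Nat.card_eq_fintype_card, hF]
    · let f : F × F → (rowGroup F).map (pr F) := fun p => ⟨pr F (um p.1 0 p.2), _, ⟨p.1, p.2, rfl⟩, rfl⟩
      have hf : Function.Bijective f := by
        refine ⟨fun p q h => ?_, ?_⟩
        · obtain ⟨e1, -, e3⟩ := pr_um_inj (F := F) (congrArg Subtype.val h)
          exact Prod.ext e1 e3
        · rintro ⟨_, _, ⟨a, c, rfl⟩, rfl⟩
          exact ⟨(a, c), rfl⟩
      rw [← Nat.card_eq_of_bijective f hf, Nat.card_prod, Nat.card_eq_fintype_card, hF]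
  have hel : ∀ a b c, pr F (um a b c) ∈ E → a = 0 ∨ b = 0 := by
    intro a b c h
    have h1 := hsq _ h
    rw [← map_mul, um_mul, ← map_one (pr F), ← um_one] at h1
    exact mul_eq_zero.1 (by
      have := (pr_um_inj (F := F) h1).2.2
      linear_combination this - c * two_eq hF)
  by_cases hA : E ≤ (colGroup F).map (pr F)
  · exact Or.inl (Subgroup.eq_of_le_of_card_ge hA (by rw [hcard.1, hc]))
  · right
    refine Subgroup.eq_of_le_of_card_ge ?_ (by rw [hcard.2, hc])
    obtain ⟨x, hx, hxA⟩ := SetLike.not_le_iff_exists.1 hA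
    obtain ⟨_, ⟨a₀, b₀, c₀, rfl⟩, rfl⟩ := hle hx
    have ha₀ : a₀ ≠ 0 := fun h => hxA ⟨_, ⟨b₀, c₀, rfl⟩, by rw [h]⟩
    have hb₀ : b₀ = 0 := (hel _ _ _ hx).resolve_left ha₀
    intro y hy
    obtain ⟨_, ⟨a, b, c, rfl⟩, rfl⟩ := hle hy
    refine ⟨um a 0 c, ⟨a, c, rfl⟩, ?_⟩
    have hb : b = 0 := by
      rcases hel _ _ _ hy with ha | hb
      · have hp := mul_mem hx hy
        rw [← map_mul, um_mul] at hp
        rcases hel _ _ _ hp with h | h
        · rw [ha, add_zero] at h
          exact absurd h ha₀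
        · rw [hb₀, zero_add] at h
          exact h
      · exact hb
    rw [hb]

/-- Every elementary abelian subgroup of order 16 has a model, inside a Sylow subgroup. -/
theorem exists_model {E : Subgroup L3} (hsq : ∀ e ∈ E, e * e = 1) (hc : Nat.card E = 16)
    {g : L3} (hg : E ≤ ((UT F).map (pr F)).map (MulAut.conj g).toMonoidHom) :
    (E = ((colGroup F).map (pr F)).map (MulAut.conj g).toMonoidHom ∨
      E = ((rowGroup F).map (pr F)).map (MulAut.conj g).toMonoidHom) ∧ Nonempty (Model F E) := by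
  set E0 := E.comap (MulAut.conj g).toMonoidHom with hE0
  have hEE : E = E0.map (MulAut.conj g).toMonoidHom :=
    (Subgroup.map_comap_eq_self_of_surjective (MulAut.conj g).surjective E).symm
  have hle : E0 ≤ (UT F).map (pr F) := by
    intro x hx
    obtain ⟨y, hy, hxy⟩ := hg hx
    exact (MulAut.conj g).injective hxy ▸ hy
  have hsq0 : ∀ e ∈ E0, e * e = 1 := fun e he => (MulAut.conj g).injective (by
    rw [map_mul, map_one]
    exact hsq _ he)
  have hc0 : Nat.card E0 = 16 := by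
    rw [← hc]
    conv_rhs => rw [hEE]
    exact Nat.card_congr (Subgroup.equivMapOfInjective E0 _ (MulAut.conj g).injective).toEquiv
  rcases eq_col_or_row hF hle hsq0 hc0 with h | h
  · refine ⟨Or.inl (h ▸ hEE), ⟨?_⟩⟩
    rw [hEE, h]
    exact (colModel hF).conj g
  · refine ⟨Or.inr (h ▸ hEE), ⟨?_⟩⟩
    rw [hEE, h]
    exact (rowModel hF).conj g

variable {X : Type*} [Group X] [Finite X] (φ : X →* ProjectiveSpecialLinearGroup (Fin 3) F)

/-- The hypotheses on a preimage. -/
structure Pre (φ : X →* ProjectiveSpecialLinearGroup (Fin 3) F) (H : Subgroup X) : Prop where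
  cen : φ.ker ≤ H
  sq : ∀ h ∈ H, φ h * φ h = 1
  card : Nat.card (H.map φ) = 16

variable (hker : φ.ker = Subgroup.center X)
  (hZ : ∀ z ∈ Subgroup.center X, z * z = 1)
include hker hZ

/-- The preimage is elementary abelian. -/
theorem elementary {H : Subgroup X} (hH : Pre φ H) (g : L3)
    (hg : H.map φ ≤ ((UT F).map (pr F)).map (MulAut.conj g).toMonoidHom) (hsurj : Function.Surjective φ) :
    Cfsg.IsElementaryAbelian 2 H := by
  classical
  obtain ⟨-, ⟨M⟩⟩ := exists_model hF (by rintro _ ⟨h, hh, rfl⟩; exact hH.sq h hh) hH.card hg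
  have hEZ : ∀ h : X, φ h = 1 → h ∈ Subgroup.center X := fun h hh => hker ▸ hh
  have hsqZ : ∀ h ∈ H, h * h ∈ Subgroup.center X := fun h hh => hEZ _ (by rw [map_mul]; exact hH.sq h hh)
  have hc := fun (z : X) (hz : z ∈ Subgroup.center X) (g : X) => (Subgroup.mem_center_iff.1 hz g)
  -- the square is constant outside the centre
  have hconst : ∀ a ∈ H, ∀ b ∈ H, φ a ≠ 1 → φ b ≠ 1 → a * a = b * b := by
    intro a ha b hb ha1 hb1
    obtain ⟨n, -, hn⟩ := M.trans (φ a) ⟨a, ha, rfl⟩ (φ b) ⟨b, hb, rfl⟩ ha1 hb1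
    obtain ⟨x, rfl⟩ := hsurj n
    set z := (x * a * x⁻¹)⁻¹ * b
    have hz : z ∈ Subgroup.center X := hEZ _ (by
      rw [map_mul, map_inv, map_mul, map_mul, map_inv, hn, inv_mul_cancel])
    have hb' : b = x * a * x⁻¹ * z := (mul_inv_cancel_left _ b).symm
    have haa := hc _ (hsqZ a ha) x
    rw [hb']
    calc a * a = x * (a * a) * x⁻¹ * (z * z) := by rw [hZ z hz, haa, mul_one, mul_inv_cancel_right]
      _ = x * a * x⁻¹ * (x * a * x⁻¹) * (z * z) := by group
      _ = x * a * x⁻¹ * z * (x * a * x⁻¹ * z) := by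
        rw [mul_assoc (x * a * x⁻¹) z (x * a * x⁻¹ * z), ← mul_assoc z (x * a * x⁻¹) z,
          ← hc z hz (x * a * x⁻¹)]
        simp only [mul_assoc]
  have hcm : ∀ a ∈ H, ∀ b ∈ H, ⁅a, b⁆ ∈ Subgroup.center X := by
    intro a ha b hb
    refine hEZ _ ?_
    have h1 := mul_eq_one_iff_eq_inv.1 (hH.sq a ha)
    have h2 := mul_eq_one_iff_eq_inv.1 (hH.sq b hb)
    have h3 := mul_eq_one_iff_eq_inv.1 (hH.sq _ (mul_mem ha hb))
    rw [map_mul, _root_.mul_inv_rev, ← h1, ← h2] at h3
    rw [map_commutatorElement, commutatorElement_eq_one_iff_mul_comm]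
    exact h3
  have hsqmul : ∀ a ∈ H, ∀ b ∈ H, a * b * (a * b) = a * a * (b * b) * ⁅b, a⁆ := by
    intro a ha b hb
    have hb' := hc _ (hcm b hb a ha)
    calc a * b * (a * b) = a * (⁅b, a⁆ * a * b) * b := by simp only [commutatorElement_def]; group
      _ = ⁅b, a⁆ * (a * a * (b * b)) := by
        simp only [← mul_assoc]
        rw [hb' a]
      _ = a * a * (b * b) * ⁅b, a⁆ := (hb' _).symm
  have pick : ∀ S : Finset L3, S.card < 16 → ∃ h ∈ H, φ h ∉ S := by
    intro S hS
    by_contra hall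
    push Not at hall
    have hsub : ((H.map φ : Subgroup L3) : Set L3) ⊆ (S : Set L3) := by
      rintro _ ⟨h, hh, rfl⟩
      exact hall h hh
    have := Set.ncard_le_ncard hsub
    rw [← Nat.card_coe_set_eq, Set.ncard_coe_finset] at this
    have h16 : Nat.card ((H.map φ : Subgroup L3) : Set L3) = 16 := hH.card
    omega
  obtain ⟨a, ha, ha'⟩ := pick {1} (by simp)
  obtain ⟨b, hb, hb'⟩ := pick {1, φ a} (by
    have := Finset.card_le_two (a := (1 : L3)) (b := φ a)
    omega)
  obtain ⟨c, hcH, hc'⟩ := pick {1, φ a, φ b, φ a * φ b} (by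
    have := Finset.card_le_four (a := (1 : L3)) (b := φ a) (c := φ b) (d := φ a * φ b)
    omega)
  simp only [Finset.mem_insert, Finset.mem_singleton, not_or] at ha' hb' hc'
  set s := a * a with hs
  have hpair : ∀ u ∈ H, ∀ v ∈ H, φ u ≠ 1 → φ v ≠ 1 → φ u ≠ φ v → ⁅v, u⁆ = s := by
    intro u hu v hv hu1 hv1 huv
    have huv1 : φ (u * v) ≠ 1 := fun h => huv (by
      rw [map_mul, mul_eq_one_iff_eq_inv] at h
      rw [h, inv_eq_of_mul_eq_one_right (hH.sq v hv)])
    have h := hsqmul u hu v hv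
    rw [← hconst a ha _ (mul_mem hu hv) ha' huv1, ← hconst a ha u hu ha' hu1, ← hconst a ha v hv ha' hv1,
      ← hs, hZ _ (hsqZ a ha), one_mul] at h
    exact h.symm
  have hs1 : s = 1 := by
    have h1 := hpair a ha b hb ha' hb'.1 (fun h => hb'.2 h.symm)
    have h2 := hpair a ha c hcH ha' hc'.1 (fun h => hc'.2.1 h.symm)
    have hbc : φ (b * c) ≠ 1 := fun h => hc'.2.2.1 (by
      rw [map_mul, mul_eq_one_iff_eq_inv] at h
      rw [h, inv_eq_of_mul_eq_one_right (hH.sq c hcH)])
    have hbca : φ a ≠ φ (b * c) := fun h => hc'.2.2.2 (by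
      have h0 := hH.sq b hb
      have hab := mul_eq_one_iff_eq_inv.1 (hH.sq _ (mul_mem ha hb))
      calc φ c = φ b * φ b * φ c := by rw [h0, one_mul]
        _ = φ b * φ (b * c) := by rw [map_mul, mul_assoc]
        _ = φ b * φ a := by rw [h]
        _ = φ a * φ b := by
          rw [map_mul, _root_.mul_inv_rev, ← mul_eq_one_iff_eq_inv.1 (hH.sq a ha),
            ← mul_eq_one_iff_eq_inv.1 h0] at hab
          exact hab.symm)
    have h3 := hpair a ha (b * c) (mul_mem hb hcH) ha' hbc hbca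
    have hexp : ⁅b * c, a⁆ = ⁅b, a⁆ * ⁅c, a⁆ := by
      have h := hc _ (hcm c hcH a ha)
      calc ⁅b * c, a⁆ = b * ⁅c, a⁆ * (a * b⁻¹ * a⁻¹) := by simp only [commutatorElement_def]; group
        _ = ⁅b, a⁆ * ⁅c, a⁆ := by
          rw [h b, mul_assoc, ← h]
          simp only [commutatorElement_def]
          group
    rw [hexp, h1, h2, hs, hZ _ (hsqZ a ha)] at h3
    rw [← hs] at h3
    exact h3.symm
  have hall : ∀ h ∈ H, h * h = 1 := by
    intro h hh
    by_cases h1 : φ h = 1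
    · exact hZ _ (hEZ h h1)
    · rw [← hconst a ha h hh ha' h1, ← hs, hs1]
  refine ⟨⟨⟨fun u v => Subtype.ext ?_⟩⟩, fun u hu => by rw [sq]; exact hall u hu⟩
  have h3 := mul_eq_one_iff_eq_inv.1 (hall _ (mul_mem u.2 v.2))
  rw [_root_.mul_inv_rev, ← mul_eq_one_iff_eq_inv.1 (hall _ u.2), ← mul_eq_one_iff_eq_inv.1 (hall _ v.2)] at h3
  exact h3

end Cfsg.Agent.H61.L34
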