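import Cfsg.Agent.H61.L34Cover

/-!
Splitting of the normalizers in a covering group of `PSL(3,4)`.
-/

set_option autoImplicit false

namespace Cfsg.Agent.H61.L34

open Matrix

variable {F : Type*} [Field F] [Fintype F]

local notation "SL2" => SpecialLinearGroup (Fin 2) F
local notation "L3" => ProjectiveSpecialLinearGroup (Fin 3) F

/-- The conjugate of the unitriangular image. -/
abbrev sylConj (g : ProjectiveSpecialLinearGroup (Fin 3) F) : Subgroup (ProjectiveSpecialLinearGroup (Fin 3) F) :=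
  ((UT F).map (pr F)).map (MulAut.conj g).toMonoidHom

/-- The conjugate of the column image. -/
abbrev colConj (g : ProjectiveSpecialLinearGroup (Fin 3) F) : Subgroup (ProjectiveSpecialLinearGroup (Fin 3) F) :=
  ((colGroup F).map (pr F)).map (MulAut.conj g).toMonoidHom

/-- The conjugate of the row image. -/
abbrev rowConj (g : ProjectiveSpecialLinearGroup (Fin 3) F) : Subgroup (ProjectiveSpecialLinearGroup (Fin 3) F) :=
  ((rowGroup F).map (pr F)).map (MulAut.conj g).toMonoidHom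

theorem sup_col_row (g : ProjectiveSpecialLinearGroup (Fin 3) F) :
    colConj g ⊔ rowConj g = sylConj g := by
  rw [← Subgroup.map_sup, ← Subgroup.map_sup]
  congr 2
  refine le_antisymm (sup_le ?_ ?_) ?_
  · rintro _ ⟨b, c, rfl⟩
    exact ⟨0, b, c, rfl⟩
  · rintro _ ⟨a, c, rfl⟩
    exact ⟨a, 0, c, rfl⟩
  · rintro _ ⟨a, b, c, rfl⟩
    have h1 : um (0 : F) b 0 ∈ colGroup F ⊔ rowGroup F := Subgroup.mem_sup_left ⟨b, 0, rfl⟩
    have h2 : um a 0 c ∈ colGroup F ⊔ rowGroup F := Subgroup.mem_sup_right ⟨a, c, rfl⟩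
    have := mul_mem h1 h2
    rwa [um_mul, show (0 : F) + a = a by ring, add_zero, show (0 : F) + c + 0 * 0 = c by ring] at this

theorem centralizing (g : ProjectiveSpecialLinearGroup (Fin 3) F) :
    (∀ y ∈ sylConj g, (∀ e ∈ colConj g, y * e = e * y) → y ∈ colConj g) ∧
      (∀ y ∈ sylConj g, (∀ e ∈ rowConj g, y * e = e * y) → y ∈ rowConj g) := by
  constructor
  · rintro _ ⟨_, ⟨_, ⟨a, b, c, rfl⟩, rfl⟩, rfl⟩ h
    have h1 := h _ ⟨_, ⟨um 0 1 0, ⟨1, 0, rfl⟩, rfl⟩, rfl⟩
    rw [← map_mul, ← map_mul, ← map_mul, ← map_mul] at h1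
    have h2 := (MulAut.conj g).injective h1
    rw [um_mul, um_mul] at h2
    have ha : a = 0 := by linear_combination (pr_um_inj h2).2.2
    exact ⟨_, ⟨um 0 b c, ⟨b, c, rfl⟩, rfl⟩, by rw [ha]⟩
  · rintro _ ⟨_, ⟨_, ⟨a, b, c, rfl⟩, rfl⟩, rfl⟩ h
    have h1 := h _ ⟨_, ⟨um 1 0 0, ⟨1, 0, rfl⟩, rfl⟩, rfl⟩
    rw [← map_mul, ← map_mul, ← map_mul, ← map_mul] at h1
    have h2 := (MulAut.conj g).injective h1
    rw [um_mul, um_mul] at h2
    have hb : b = 0 := by linear_combination -(pr_um_inj h2).2.2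
    exact ⟨_, ⟨um a 0 c, ⟨a, c, rfl⟩, rfl⟩, by rw [hb]⟩

theorem syl_le_normalizer (g : ProjectiveSpecialLinearGroup (Fin 3) F) :
    sylConj g ≤ Subgroup.normalizer ((colConj g : Subgroup L3) : Set L3) ∧
      sylConj g ≤ Subgroup.normalizer ((rowConj g : Subgroup L3) : Set L3) := by
  have key : ∀ (S : Subgroup (SpecialLinearGroup (Fin 3) F)), (∀ u ∈ UT F, ∀ s ∈ S, u * s * u⁻¹ ∈ S) →
      sylConj g ≤ Subgroup.normalizer (((S.map (pr F)).map (MulAut.conj g).toMonoidHom : Subgroup L3) : Set L3) := by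
    intro S hS
    have h0 : UT F ≤ Subgroup.normalizer (S : Set (SpecialLinearGroup (Fin 3) F)) := fun u hu =>
      mem_norm_of (hS u hu) (fun s hs => by simpa using hS u⁻¹ (inv_mem hu) s hs)
    calc sylConj g ≤ ((Subgroup.normalizer (S : Set (SpecialLinearGroup (Fin 3) F))).map (pr F)).map
            (MulAut.conj g).toMonoidHom := Subgroup.map_mono (Subgroup.map_mono h0)
      _ ≤ (Subgroup.normalizer ((S.map (pr F) : Subgroup L3) : Set L3)).map (MulAut.conj g).toMonoidHom :=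
          Subgroup.map_mono (Subgroup.le_normalizer_map _)
      _ ≤ _ := Subgroup.le_normalizer_map _
  refine ⟨key _ ?_, key _ ?_⟩
  · rintro _ ⟨a, b, c, rfl⟩ _ ⟨b', c', rfl⟩
    refine ⟨b', c' + a * b', ?_⟩
    rw [mul_inv_eq_iff_eq_mul, um_mul, um_mul, um_eq_iff]
    exact ⟨by ring, by ring, by ring⟩
  · rintro _ ⟨a, b, c, rfl⟩ _ ⟨a', c', rfl⟩
    refine ⟨a', c' - a' * b, ?_⟩
    rw [mul_inv_eq_iff_eq_mul, um_mul, um_mul, um_eq_iff]
    exact ⟨by ring, by ring, by ring⟩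

/-- A complement in an elementary abelian group. -/
theorem exists_compl {G : Type*} [Group G] [Finite G] {K D : Subgroup G} (hK : Cfsg.IsElementaryAbelian 2 K)
    (hD : D ≤ K) : ∃ W ≤ K, W ⊓ D = ⊥ ∧ K ≤ D ⊔ W := by
  classical
  obtain ⟨W, -, hWmax⟩ := Finite.exists_le_maximal (p := fun W : Subgroup G => W ≤ K ∧ W ⊓ D = ⊥) (a := ⊥) ⟨bot_le, bot_inf_eq D⟩
  obtain ⟨⟨hWK, hWD⟩, hmax⟩ := hWmax
  refine ⟨W, hWK, hWD, fun x hx => ?_⟩
  by_contra hxn
  have hcom : ∀ a ∈ K, ∀ b ∈ K, a * b = b * a := fun a ha b hb =>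
    congrArg Subtype.val (hK.1.is_comm.comm (⟨a, ha⟩ : K) ⟨b, hb⟩)
  have hsq : x * x = 1 := by
    have := hK.2 x hx
    rwa [sq] at this
  let W' : Subgroup G :=
    { carrier := {y | y ∈ K ∧ (y ∈ W ∨ y * x ∈ W)}
      one_mem' := ⟨one_mem _, Or.inl (one_mem _)⟩
      mul_mem' := fun {a b} ha hb => by
        refine ⟨mul_mem ha.1 hb.1, ?_⟩
        rcases ha.2 with ha2 | ha2 <;> rcases hb.2 with hb2 | hb2
        · exact Or.inl (mul_mem ha2 hb2)
        · exact Or.inr (by rw [mul_assoc]; exact mul_mem ha2 hb2)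
        · refine Or.inr ?_
          rw [mul_assoc, hcom b hb.1 x hx, ← mul_assoc]
          exact mul_mem ha2 hb2
        · refine Or.inl ?_
          have h := mul_mem ha2 hb2
          rwa [mul_assoc, ← mul_assoc x b x, hcom x hx b hb.1, mul_assoc b x x, hsq, mul_one] at h
      inv_mem' := fun {a} ha => by
        refine ⟨inv_mem ha.1, ?_⟩
        have h2 := hK.2 a ha.1
        rw [sq] at h2
        rw [inv_eq_of_mul_eq_one_right h2]
        exact ha.2 }
  have hle : W ≤ W' := fun w hw => ⟨hWK hw, Or.inl hw⟩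
  have hxW' : x ∈ W' := ⟨hx, Or.inr (by rw [hsq]; exact one_mem _)⟩
  have hP : W' ≤ K ∧ W' ⊓ D = ⊥ := by
    refine ⟨fun y hy => hy.1, (Subgroup.eq_bot_iff_forall _).2 ?_⟩
    rintro y ⟨⟨hyK, hy | hy⟩, hyD⟩
    · exact (Subgroup.eq_bot_iff_forall _).1 hWD y ⟨hy, hyD⟩
    · exfalso
      apply hxn
      have := mul_mem (Subgroup.mem_sup_left (T := W) (inv_mem hyD)) (Subgroup.mem_sup_right (S := D) hy)
      rwa [inv_mul_cancel_left] at this
  exact hxn (Subgroup.mem_sup_right (hmax hP hle hxW'))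

variable (hF : Fintype.card F = 4)
include hF
variable {X : Type*} [Group X] [Finite X] (φ : X →* ProjectiveSpecialLinearGroup (Fin 3) F) (hsurj : Function.Surjective φ)
  (hker : φ.ker = Subgroup.center X)
  (hZ : ∀ z ∈ Subgroup.center X, z * z = 1)
include hsurj hker hZ

/-- Splitting. -/
theorem split {H K : Subgroup X} (hH : Pre φ H) (hK : Pre φ K) (g : L3)
    (hHg : H.map φ ≤ sylConj g) (hKg : K.map φ ≤ sylConj g) (hne : H.map φ ≠ K.map φ)
    (hH2 : ∃ k, Nat.card H = 2 ^ k) :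
    Cfsg.IsElementaryAbelian 2 H ∧ H ⊓ K = (Subgroup.center ↥(H ⊔ K)).map (H ⊔ K).subtype ∧
      ∃ C : Subgroup X, C ≤ Subgroup.normalizer (H : Set X) ∧ C ⊓ H = ⊥ ∧
        H ⊔ C = Subgroup.normalizer (H : Set X) ∧
        Nonempty (↥C ≃* Matrix.ProjectiveSpecialLinearGroup (Fin 2) F) := by
  classical
  have hHe := elementary hF φ hker hZ hH g hHg hsurj
  have hKe := elementary hF φ hker hZ hK g hKg hsurj
  obtain ⟨hA, ⟨M⟩⟩ := exists_model hF (by rintro _ ⟨h, hh, rfl⟩; exact hH.sq h hh) hH.card hHg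
  obtain ⟨hB, -⟩ := exists_model hF (by rintro _ ⟨h, hh, rfl⟩; exact hK.sq h hh) hK.card hKg
  have hHc : (H.map φ).comap φ = H := Subgroup.comap_map_eq_self hH.cen
  have hKc : (K.map φ).comap φ = K := Subgroup.comap_map_eq_self hK.cen
  have hsup : H.map φ ⊔ K.map φ = sylConj g := by
    rcases hA with a | a <;> rcases hB with b | b
    · exact absurd (a.trans b.symm) hne
    · rw [a, b]; exact sup_col_row g
    · rw [a, b, sup_comm]; exact sup_col_row g
    · exact absurd (a.trans b.symm) hne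
  have hcent : ∀ {E : Subgroup L3}, (E = colConj g ∨ E = rowConj g) →
      ∀ y ∈ sylConj g, (∀ e ∈ E, y * e = e * y) → y ∈ E := by
    rintro E (rfl | rfl)
    · exact (centralizing g).1
    · exact (centralizing g).2
  have hnor : sylConj g ≤ Subgroup.normalizer ((H.map φ : Subgroup L3) : Set L3) := by
    rcases hA with a | a <;> rw [a]
    · exact (syl_le_normalizer g).1
    · exact (syl_le_normalizer g).2
  have hU : (H ⊔ K).map φ = sylConj g := by rw [Subgroup.map_sup, hsup]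
  have hUc : H ⊔ K = (sylConj g).comap φ := by
    rw [← hU, Subgroup.comap_map_eq_self (hH.cen.trans le_sup_left)]
  have hN : Subgroup.normalizer (H : Set X) =
      (Subgroup.normalizer ((H.map φ : Subgroup L3) : Set L3)).comap φ := by
    rw [Subgroup.comap_normalizer_eq_of_surjective _ hsurj, hHc]
  refine ⟨hHe, ?_, ?_⟩
  · refine le_antisymm ?_ ?_
    · rintro x ⟨hx1, hx2⟩
      refine ⟨⟨x, Subgroup.mem_sup_left hx1⟩, Subgroup.mem_center_iff.2 fun y => Subtype.ext ?_, rfl⟩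
      have hle : H ⊔ K ≤ Subgroup.centralizer {x} := sup_le
        (fun w hw => Subgroup.mem_centralizer_singleton_iff.2
          (congrArg Subtype.val (hHe.1.is_comm.comm (⟨w, hw⟩ : H) ⟨x, hx1⟩)))
        (fun w hw => Subgroup.mem_centralizer_singleton_iff.2
          (congrArg Subtype.val (hKe.1.is_comm.comm (⟨w, hw⟩ : K) ⟨x, hx2⟩)))
      exact Subgroup.mem_centralizer_singleton_iff.1 (hle y.2)
    · rintro _ ⟨⟨x, hx⟩, hxc, rfl⟩
      have hcomm : ∀ y ∈ H ⊔ K, y * x = x * y := fun y hy =>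
        congrArg Subtype.val (Subgroup.mem_center_iff.1 hxc ⟨y, hy⟩)
      have hxs : φ x ∈ sylConj g := hU ▸ ⟨x, hx, rfl⟩
      constructor
      · show x ∈ H
        rw [← hHc]
        refine hcent hA _ hxs ?_
        rintro _ ⟨y, hy, rfl⟩
        rw [← map_mul, ← map_mul, hcomm y (Subgroup.mem_sup_left hy)]
      · show x ∈ K
        rw [← hKc]
        refine hcent hB _ hxs ?_
        rintro _ ⟨y, hy, rfl⟩
        rw [← map_mul, ← map_mul, hcomm y (Subgroup.mem_sup_right hy)]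
  -- the complement inside `H ⊔ K`
  obtain ⟨W, hWK, hWD, hKW⟩ := exists_compl hKe (inf_le_right : H ⊓ K ≤ K)
  have hHW : H ⊔ W = H ⊔ K := le_antisymm (sup_le le_sup_left (hWK.trans le_sup_right))
    (sup_le le_sup_left (hKW.trans (sup_le (inf_le_left.trans le_sup_left) le_sup_right)))
  have hWH : W ⊓ H = ⊥ := by
    rw [Subgroup.eq_bot_iff_forall] at hWD ⊢
    exact fun x hx => hWD x ⟨hx.1, hx.2, hWK hx.1⟩
  set N := Subgroup.normalizer (H : Set X) with hNdef
  have hUN : H ⊔ K ≤ N := by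
    rw [hN, hUc]
    exact Subgroup.comap_mono hnor
  haveI : (H.subgroupOf N).Normal := by
    rw [hNdef]
    infer_instance
  haveI : IsMulCommutative (H.subgroupOf N) :=
    ⟨⟨fun a b => Subtype.ext (Subtype.ext (show a.1.1 * b.1.1 = b.1.1 * a.1.1 from congrArg Subtype.val
      (hHe.1.is_comm.comm (⟨a.1.1, a.2⟩ : H) ⟨b.1.1, b.2⟩)))⟩⟩
  have hHN : H ≤ N := le_sup_left.trans hUN
  have hsupS : H.subgroupOf N ⊔ W.subgroupOf N = (H ⊔ K).subgroupOf N := by
    rw [← Subgroup.subgroupOf_sup hHN ((hWK.trans le_sup_right).trans hUN), hHW]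
  have hinfS : W.subgroupOf N ⊓ H.subgroupOf N = ⊥ := by
    rw [Subgroup.eq_bot_iff_forall]
    intro x hx
    exact Subtype.ext ((Subgroup.eq_bot_iff_forall _).1 hWH x.1 ⟨hx.1, hx.2⟩)
  have hcop : (Nat.card (H.subgroupOf N)).Coprime ((H ⊔ K).subgroupOf N).index := by
    obtain ⟨k, hk⟩ := hH2
    rw [Nat.card_congr (Subgroup.subgroupOfEquivOfLe hHN).toEquiv, hk]
    refine Nat.Coprime.pow_left k ?_
    have hd : ((H ⊔ K).subgroupOf N).index ∣ (H ⊔ K).index :=
      Subgroup.relIndex_dvd_index_of_le hUN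
    have hidx : (H ⊔ K).index = 315 := by
      rw [hUc, Subgroup.index_comap_of_surjective _ hsurj]
      obtain ⟨h64, hL⟩ := ut_facts hF
      have := (sylConj g).card_mul_index
      rw [hL, ← Nat.card_congr (Subgroup.equivMapOfInjective ((UT F).map (pr F)) (MulAut.conj g).toMonoidHom
        (MulAut.conj g).injective).toEquiv, h64] at this
      omega
    exact Nat.Coprime.coprime_dvd_right (hidx ▸ hd) (by norm_num)
  obtain ⟨C0, hC0⟩ := H19.gaschutz_exists (K := H.subgroupOf N) (Subgroup.comap_mono le_sup_left) hcop hinfS hsupS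
  have hCH : C0.map N.subtype ⊓ H = ⊥ := by
    rw [Subgroup.eq_bot_iff_forall]
    rintro _ ⟨⟨x, hx, rfl⟩, hxH⟩
    have hb := hC0.disjoint
    rw [disjoint_iff, Subgroup.eq_bot_iff_forall] at hb
    rw [hb x ⟨hxH, hx⟩, map_one]
  refine ⟨C0.map N.subtype, Subgroup.map_subtype_le _, hCH, ?_, ?_⟩
  · rw [← Subgroup.map_subgroupOf_eq_of_le hHN, ← Subgroup.map_sup, hC0.sup_eq_top,
      ← MonoidHom.range_eq_map, Subgroup.range_subtype]
  · set E := H.map φ
    set NE := Subgroup.normalizer (E : Set L3) with hNE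
    haveI : (E.subgroupOf NE).Normal := by
      rw [hNE]
      infer_instance
    let q := QuotientGroup.mk' (E.subgroupOf NE)
    have hmem : ∀ x : ↥(C0.map N.subtype), φ x.1 ∈ NE := fun x => by
      have h := Subgroup.map_subtype_le _ x.2
      exact hN.le h
    let f : ↥(C0.map N.subtype) →* ↥NE ⧸ E.subgroupOf NE :=
      q.comp ((φ.comp (C0.map N.subtype).subtype).codRestrict NE hmem)
    let j : SpecialLinearGroup (Fin 2) F →* ↥NE ⧸ E.subgroupOf NE := q.comp (M.j.codRestrict NE M.mem_norm)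
    have hf : Function.Bijective f := by
      constructor
      · rw [← MonoidHom.ker_eq_bot_iff, Subgroup.eq_bot_iff_forall]
        rintro ⟨x, hxC⟩ hx
        have hxE : φ x ∈ E := (QuotientGroup.eq_one_iff (N := E.subgroupOf NE) (⟨φ x, hmem ⟨x, hxC⟩⟩ : ↥NE)).1 hx
        have hxH : x ∈ H := hHc ▸ hxE
        exact Subtype.ext ((Subgroup.eq_bot_iff_forall _).1 hCH x ⟨hxC, hxH⟩)
      · intro y
        obtain ⟨⟨y, hy⟩, rfl⟩ := QuotientGroup.mk'_surjective _ y
        obtain ⟨x, rfl⟩ := hsurj y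
        have hxN : x ∈ N := by rw [hN]; exact hy
        obtain ⟨⟨⟨a, ha⟩, ⟨c, hc⟩⟩, hac, -⟩ := hC0.existsUnique ⟨x, hxN⟩
        refine ⟨⟨c.1, ⟨c, hc, rfl⟩⟩, ?_⟩
        refine QuotientGroup.eq.2 ?_
        show (φ c.1)⁻¹ * φ x ∈ E
        have hx : x = a.1 * c.1 := (congrArg Subtype.val hac).symm
        refine ⟨c.1⁻¹ * a.1 * c.1, ?_, by rw [hx, map_mul, map_mul, map_mul, map_inv, mul_assoc]⟩
        have := (Subgroup.mem_normalizer_iff.1 (inv_mem c.2) a.1).1 ha
        rwa [inv_inv] at this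
    have hj : Function.Bijective j := by
      constructor
      · rw [← MonoidHom.ker_eq_bot_iff, Subgroup.eq_bot_iff_forall]
        intro m hm
        exact M.inter m ((QuotientGroup.eq_one_iff (N := E.subgroupOf NE) (⟨M.j m, M.mem_norm m⟩ : ↥NE)).1 hm)
      · intro y
        obtain ⟨⟨y, hy⟩, rfl⟩ := QuotientGroup.mk'_surjective _ y
        obtain ⟨e, he, m, rfl⟩ := M.decomp y hy
        refine ⟨m, QuotientGroup.eq.2 ?_⟩
        show (M.j m)⁻¹ * (M.j m * e) ∈ E
        rwa [inv_mul_cancel_left]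
    have h2 : ringChar F = 2 := by
      have hprime := CharP.char_is_prime F (ringChar F)
      have hd : ringChar F ∣ 2 := (ringChar.spec F 2).1 (by exact_mod_cast two_eq hF)
      exact (Nat.prime_dvd_prime_iff_eq hprime Nat.prime_two).1 hd
    obtain ⟨ψ⟩ := S4706.psl_equiv_sl h2
    exact ⟨((MulEquiv.ofBijective f hf).trans (MulEquiv.ofBijective j hj).symm).trans ψ.symm⟩

end Cfsg.Agent.H61.L34
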