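import Cfsg.Agent.H61.L34Model

/-!
The elementary abelian subgroups of order 16 of `PSL(3,4)` and their normalizers.
-/

set_option autoImplicit false

namespace Cfsg.Agent.H61.L34

open Matrix

variable {F : Type*} [Field F] [Fintype F]

local notation "SL3" => SpecialLinearGroup (Fin 3) F
local notation "SL2" => SpecialLinearGroup (Fin 2) F
local notation "L3" => ProjectiveSpecialLinearGroup (Fin 3) F

/-- The quotient map. -/
abbrev pr (F : Type*) [Field F] [Fintype F] :
    SpecialLinearGroup (Fin 3) F →* ProjectiveSpecialLinearGroup (Fin 3) F :=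
  QuotientGroup.mk' (Subgroup.center (SpecialLinearGroup (Fin 3) F))

/-- The unitriangular matrices with `a = 0`. -/
def colGroup (F : Type*) [Field F] [Fintype F] : Subgroup (SpecialLinearGroup (Fin 3) F) where
  carrier := {g | ∃ b c, g = um 0 b c}
  one_mem' := ⟨0, 0, um_one.symm⟩
  mul_mem' := by
    rintro _ _ ⟨b, c, rfl⟩ ⟨b', c', rfl⟩
    exact ⟨b + b', c + c', by rw [um_mul]; simp⟩
  inv_mem' := by
    rintro _ ⟨b, c, rfl⟩
    refine ⟨-b, -c, inv_eq_of_mul_eq_one_right ?_⟩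
    rw [um_mul, ← um_one, um_eq_iff]
    exact ⟨by ring, by ring, by ring⟩

/-- The unitriangular matrices with `b = 0`. -/
def rowGroup (F : Type*) [Field F] [Fintype F] : Subgroup (SpecialLinearGroup (Fin 3) F) where
  carrier := {g | ∃ a c, g = um a 0 c}
  one_mem' := ⟨0, 0, um_one.symm⟩
  mul_mem' := by
    rintro _ _ ⟨a, c, rfl⟩ ⟨a', c', rfl⟩
    exact ⟨a + a', c + c', by rw [um_mul]; simp⟩
  inv_mem' := by
    rintro _ ⟨a, c, rfl⟩
    refine ⟨-a, -c, inv_eq_of_mul_eq_one_right ?_⟩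
    rw [um_mul, ← um_one, um_eq_iff]
    exact ⟨by ring, by ring, by ring⟩

theorem scalar_entries {z : SL3} (hz : z ∈ Subgroup.center SL3) :
    ∃ r : F, r ^ 3 = 1 ∧ (z : Matrix (Fin 3) (Fin 3) F) = !![r, 0, 0; 0, r, 0; 0, 0, r] := by
  obtain ⟨r, hr, h⟩ := Matrix.SpecialLinearGroup.mem_center_iff.1 hz
  refine ⟨r, by simpa using hr, ?_⟩
  rw [← h]
  ext i j
  fin_cases i <;> fin_cases j <;> simp

theorem pr_um_inj {a b c a' b' c' : F} (h : pr F (um a b c) = pr F (um a' b' c')) :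
    a = a' ∧ b = b' ∧ c = c' := by
  rw [QuotientGroup.mk'_eq_mk'] at h
  obtain ⟨z, hz, h⟩ := h
  obtain ⟨r, -, hzr⟩ := scalar_entries hz
  have e := congrArg (fun g : SL3 => (g : Matrix (Fin 3) (Fin 3) F)) h
  simp only [Matrix.SpecialLinearGroup.coe_mul, um_val, hzr] at e
  have e00 := congrFun (congrFun e 0) 0
  have e01 := congrFun (congrFun e 0) 1
  have e12 := congrFun (congrFun e 1) 2
  have e02 := congrFun (congrFun e 0) 2
  simp [Matrix.mul_apply, Fin.sum_univ_three] at e00 e01 e12 e02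
  subst e00
  simp at e01 e12 e02
  exact ⟨e01, e12, e02⟩

variable (hF : Fintype.card F = 4)
include hF

/-- An element normalizing an elementary group acts on involution lifts without scalars. -/
theorem lift_conj (g u v : SL3) (hu : u * u = 1) (hv : v * v = 1)
    (h : pr F g * pr F u * (pr F g)⁻¹ = pr F v) : g * u = v * g := by
  rw [← map_mul, ← map_inv, ← map_mul, eq_comm, QuotientGroup.mk'_eq_mk'] at h
  obtain ⟨z, hz, h⟩ := h
  obtain ⟨r, hr, hzr⟩ := scalar_entries hz
  have hsq : v * z * (v * z) = 1 := by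
    rw [h]
    calc g * u * g⁻¹ * (g * u * g⁻¹) = g * (u * u) * g⁻¹ := by group
      _ = 1 := by rw [hu]; group
  have hzz : z * z = 1 := by
    have hc := Subgroup.mem_center_iff.1 hz v
    calc z * z = v * v * (z * z) := by rw [hv, one_mul]
      _ = v * (v * z) * z := by group
      _ = v * (z * v) * z := by rw [hc]
      _ = 1 := by rw [← hsq]; group
  have e := congrFun (congrFun (congrArg (fun g : SL3 => (g : Matrix (Fin 3) (Fin 3) F)) hzz) 0) 0
  simp [Matrix.SpecialLinearGroup.coe_mul, hzr, Matrix.mul_apply, Fin.sum_univ_three] at e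
  have hr1 : r = 1 := by
    have : r ^ 2 = 1 := by rw [sq]; exact e
    linear_combination hr - r * this
  have hz1 : z = 1 := by
    refine Subtype.ext ?_
    rw [hzr, hr1]
    ext i j
    fin_cases i <;> fin_cases j <;> simp
  rw [hz1, mul_one] at h
  rw [h]
  group

omit hF in
/-- The lower block embedding. -/
def blkLow : SL2 →* SL3 where
  toFun M := ⟨!![1, 0, 0; 0, M.1 0 0, M.1 0 1; 0, M.1 1 0, M.1 1 1], by
    have h := M.2
    rw [Matrix.det_fin_two] at h
    simp [Matrix.det_fin_three]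
    linear_combination h⟩
  map_one' := Subtype.ext (by ext i j; fin_cases i <;> fin_cases j <;> simp)
  map_mul' M N := Subtype.ext (by
    refine Eq.trans ?_ (Matrix.SpecialLinearGroup.coe_mul _ _).symm
    ext i j
    fin_cases i <;> fin_cases j <;>
      simp [Matrix.SpecialLinearGroup.coe_mul, Matrix.mul_apply, Fin.sum_univ_three, Fin.sum_univ_two])

omit hF in
/-- The upper block embedding. -/
def blkUp : SL2 →* SL3 where
  toFun M := ⟨!![M.1 0 0, M.1 0 1, 0; M.1 1 0, M.1 1 1, 0; 0, 0, 1], by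
    have h := M.2
    rw [Matrix.det_fin_two] at h
    simp [Matrix.det_fin_three]
    linear_combination h⟩
  map_one' := Subtype.ext (by ext i j; fin_cases i <;> fin_cases j <;> simp)
  map_mul' M N := Subtype.ext (by
    refine Eq.trans ?_ (Matrix.SpecialLinearGroup.coe_mul _ _).symm
    ext i j
    fin_cases i <;> fin_cases j <;>
      simp [Matrix.SpecialLinearGroup.coe_mul, Matrix.mul_apply, Fin.sum_univ_three, Fin.sum_univ_two])

omit hF in
theorem blkUp_val (M : SL2) : ((blkUp M : SL3) : Matrix (Fin 3) (Fin 3) F) =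
    !![M.1 0 0, M.1 0 1, 0; M.1 1 0, M.1 1 1, 0; 0, 0, 1] := rfl

omit hF in
theorem blkLow_val (M : SL2) : ((blkLow M : SL3) : Matrix (Fin 3) (Fin 3) F) =
    !![1, 0, 0; 0, M.1 0 0, M.1 0 1; 0, M.1 1 0, M.1 1 1] := rfl

omit hF in
theorem exists_sl2_col (x y : F) (h : x ≠ 0 ∨ y ≠ 0) :
    ∃ M : SL2, (M : Matrix (Fin 2) (Fin 2) F) 0 0 = x ∧ (M : Matrix (Fin 2) (Fin 2) F) 1 0 = y := by
  by_cases hx : x = 0
  · have hy : y ≠ 0 := h.resolve_left (fun e => e hx)
    exact ⟨⟨!![x, -y⁻¹; y, 0], by simp [Matrix.det_fin_two, hy]⟩, by simp, by simp⟩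
  · exact ⟨⟨!![x, 0; y, x⁻¹], by simp [Matrix.det_fin_two, hx]⟩, by simp, by simp⟩

/-- The data of a subgroup with its normalizer. -/
structure Model (F : Type*) [Field F] [Fintype F]
    (E : Subgroup (ProjectiveSpecialLinearGroup (Fin 3) F)) where
  j : SpecialLinearGroup (Fin 2) F →* ProjectiveSpecialLinearGroup (Fin 3) F
  mem_norm : ∀ M, j M ∈ Subgroup.normalizer (E : Set (ProjectiveSpecialLinearGroup (Fin 3) F))
  inter : ∀ M, j M ∈ E → M = 1
  decomp : ∀ g ∈ Subgroup.normalizer (E : Set (ProjectiveSpecialLinearGroup (Fin 3) F)),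
    ∃ e ∈ E, ∃ M, g = j M * e
  trans : ∀ a ∈ E, ∀ b ∈ E, a ≠ 1 → b ≠ 1 →
    ∃ n ∈ Subgroup.normalizer (E : Set (ProjectiveSpecialLinearGroup (Fin 3) F)), n * a * n⁻¹ = b

omit hF in
theorem mem_norm_of {G : Type*} [Group G] {E : Subgroup G} {n : G}
    (h : ∀ e ∈ E, n * e * n⁻¹ ∈ E) (h' : ∀ e ∈ E, n⁻¹ * e * n ∈ E) :
    n ∈ Subgroup.normalizer (E : Set G) := by
  rw [Subgroup.mem_normalizer_iff]
  refine fun e => ⟨h e, fun he => ?_⟩
  have := h' _ he
  rwa [show n⁻¹ * (n * e * n⁻¹) * n = e by group] at this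

/-- The model for column translations. -/
noncomputable def colModel : Model F ((colGroup F).map (pr F)) := by
  classical
  have h2 := two_eq hF
  have hsq : ∀ b c : F, um 0 b c * um 0 b c = 1 := fun b c => by
    rw [um_mul, ← um_one, um_eq_iff]
    exact ⟨by ring, by linear_combination b * h2, by linear_combination c * h2⟩
  have hact : ∀ (M : SL2) (b c : F), blkUp M * um 0 b c =
      um 0 (M.1 1 0 * c + M.1 1 1 * b) (M.1 0 0 * c + M.1 0 1 * b) * blkUp M := by
    intro M b c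
    refine Subtype.ext ?_
    show (!![M.1 0 0, M.1 0 1, 0; M.1 1 0, M.1 1 1, 0; 0, 0, 1] : Matrix (Fin 3) (Fin 3) F) * _ = _ * _
    rw [um_val, um_val]
    ext i j
    fin_cases i <;> fin_cases j <;> simp [blkUp_val, Matrix.mul_apply, Fin.sum_univ_three]
  have hconj : ∀ M : SL2, ∀ e ∈ (colGroup F).map (pr F), pr F (blkUp M) * e * (pr F (blkUp M))⁻¹ ∈
      (colGroup F).map (pr F) := by
    rintro M _ ⟨_, ⟨b, c, rfl⟩, rfl⟩
    refine ⟨um 0 (M.1 1 0 * c + M.1 1 1 * b) (M.1 0 0 * c + M.1 0 1 * b), ⟨_, _, rfl⟩, ?_⟩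
    rw [← map_mul, hact, map_mul, mul_inv_cancel_right]
  have hnorm : ∀ M : SL2, pr F (blkUp M) ∈
      Subgroup.normalizer (((colGroup F).map (pr F) : Subgroup L3) : Set L3) := fun M =>
    mem_norm_of (hconj M) (fun e he => by
      have := hconj M⁻¹ e he
      rwa [map_inv, map_inv, inv_inv] at this)
  refine ⟨(pr F).comp blkUp, hnorm, ?_, ?_, ?_⟩
  · rintro M ⟨_, ⟨b, c, rfl⟩, h⟩
    rw [MonoidHom.comp_apply, QuotientGroup.mk'_eq_mk'] at h
    obtain ⟨z, hz, h⟩ := h
    obtain ⟨r, -, hzr⟩ := scalar_entries hz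
    have e := fun i j => congrFun (congrFun (congrArg (fun g : SL3 => (g : Matrix (Fin 3) (Fin 3) F)) h) i) j
    simp only [Matrix.SpecialLinearGroup.coe_mul, um_val, hzr] at e
    have e00 := e 0 0
    have e01 := e 0 1
    have e10 := e 1 0
    have e11 := e 1 1
    have e22 := e 2 2
    simp [blkUp_val, Matrix.mul_apply, Fin.sum_univ_three] at e00 e01 e10 e11 e22
    refine Subtype.ext ?_
    ext i j
    fin_cases i <;> fin_cases j
    · simp [← e00, e22]
    · simp [← e01]
    · simp [← e10]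
    · simp [← e11, e22]
  · intro g hg
    obtain ⟨g, rfl⟩ := QuotientGroup.mk'_surjective _ g
    have hstep : ∀ b c : F, ∃ b' c', g * um 0 b c = um 0 b' c' * g := by
      intro b c
      obtain ⟨_, ⟨b', c', rfl⟩, h⟩ := (Subgroup.mem_normalizer_iff.1 hg _).1 ⟨um 0 b c, ⟨b, c, rfl⟩, rfl⟩
      exact ⟨b', c', lift_conj hF g _ _ (hsq b c) (hsq b' c') h.symm⟩
    obtain ⟨b1, c1, h1⟩ := hstep 1 0
    obtain ⟨b2, c2, h2'⟩ := hstep 0 1
    set G3 := (g : Matrix (Fin 3) (Fin 3) F) with hG3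
    have e1 := congrFun (congrFun (congrArg (fun g : SL3 => (g : Matrix (Fin 3) (Fin 3) F)) h1) 2) 2
    have e2 := congrFun (congrFun (congrArg (fun g : SL3 => (g : Matrix (Fin 3) (Fin 3) F)) h2') 2) 2
    simp [Matrix.SpecialLinearGroup.coe_mul, um_val, Matrix.mul_apply, Fin.sum_univ_three, ← hG3] at e1 e2
    have g21 : G3 2 1 = 0 := e1
    have g20 : G3 2 0 = 0 := e2
    have hdet := g.2
    rw [← hG3, Matrix.det_fin_three, g20, g21] at hdet
    have hd : G3 2 2 ≠ 0 := fun h => by simp [h] at hdet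
    have hd3 : G3 2 2 ^ 3 = 1 := by
      have := FiniteField.pow_card_sub_one_eq_one (G3 2 2) hd
      rwa [hF] at this
    set d := G3 2 2 with hddef
    have hM : (!![d ^ 2 * G3 0 0, d ^ 2 * G3 0 1; d ^ 2 * G3 1 0, d ^ 2 * G3 1 1] :
        Matrix (Fin 2) (Fin 2) F).det = 1 := by
      rw [Matrix.det_fin_two]
      simp
      linear_combination d ^ 3 * hdet + hd3
    set M : SL2 := ⟨_, hM⟩
    let zs : SL3 := ⟨!![d, 0, 0; 0, d, 0; 0, 0, d], by simp [Matrix.det_fin_three]; linear_combination hd3⟩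
    have hzs : zs ∈ Subgroup.center SL3 :=
      Matrix.SpecialLinearGroup.mem_center_iff.2 ⟨d, by simpa using hd3, by
        ext i j; fin_cases i <;> fin_cases j <;> simp [zs]⟩
    set P := (zs * blkUp M)⁻¹ * g with hP
    have hgd : g = zs * blkUp M * P := by rw [hP]; group
    have hblk : ((zs * blkUp M : SL3) : Matrix (Fin 3) (Fin 3) F) =
        !![G3 0 0, G3 0 1, 0; G3 1 0, G3 1 1, 0; 0, 0, d] := by
      rw [Matrix.SpecialLinearGroup.coe_mul, blkUp_val]
      ext i j
      fin_cases i <;> fin_cases j <;> simp [zs, M, Matrix.mul_apply, Fin.sum_univ_three] <;>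
        first
          | linear_combination G3 0 0 * hd3
          | linear_combination G3 0 1 * hd3
          | linear_combination G3 1 0 * hd3
          | linear_combination G3 1 1 * hd3
    have hadj : (G3 0 0 * G3 1 1 - G3 0 1 * G3 1 0) * d = 1 := by linear_combination hdet
    let bb := d * (-G3 1 0 * G3 0 2 + G3 0 0 * G3 1 2)
    let cc := d * (G3 1 1 * G3 0 2 - G3 0 1 * G3 1 2)
    have hcand : g = zs * blkUp M * um 0 bb cc := by
      refine Subtype.ext ?_
      rw [Matrix.SpecialLinearGroup.coe_mul, hblk, um_val, ← hG3]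
      ext i j
      fin_cases i <;> fin_cases j <;>
        simp [Matrix.mul_apply, Fin.sum_univ_three, g20, g21, bb, cc] <;>
        first
          | linear_combination -G3 0 2 * hadj
          | linear_combination -G3 1 2 * hadj
          | rfl
    refine ⟨pr F (um 0 bb cc), ⟨_, ⟨bb, cc, rfl⟩, rfl⟩, M, ?_⟩
    conv_lhs => rw [hcand]
    rw [map_mul, map_mul, show pr F zs = 1 from (QuotientGroup.eq_one_iff zs).2 hzs, one_mul]
    rfl
  · rintro _ ⟨_, ⟨b, c, rfl⟩, rfl⟩ _ ⟨_, ⟨b', c', rfl⟩, rfl⟩ ha hb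
    have key : ∀ b c : F, pr F (um 0 b c) ≠ 1 → ∃ M : SL2,
        pr F (blkUp M) * pr F (um 0 0 1) * (pr F (blkUp M))⁻¹ = pr F (um 0 b c) := by
      intro b c hne
      have hcb : c ≠ 0 ∨ b ≠ 0 := by
        by_contra h
        push Not at h
        rw [h.1, h.2, um_one, map_one] at hne
        exact hne rfl
      obtain ⟨M, hM0, hM1⟩ := exists_sl2_col c b hcb
      refine ⟨M, ?_⟩
      rw [← map_mul, hact, map_mul, mul_inv_cancel_right, hM0, hM1]
      congr 2 <;> ring
    obtain ⟨M, hM⟩ := key b c ha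
    obtain ⟨N, hN⟩ := key b' c' hb
    refine ⟨pr F (blkUp N) * (pr F (blkUp M))⁻¹, mul_mem (hnorm N) (inv_mem (hnorm M)), ?_⟩
    rw [← hM, ← hN]
    group

/-- The model for row translations. -/
noncomputable def rowModel : Model F ((rowGroup F).map (pr F)) := by
  classical
  have h2 := two_eq hF
  have hsq : ∀ a c : F, um a 0 c * um a 0 c = 1 := fun a c => by
    rw [um_mul, ← um_one, um_eq_iff]
    exact ⟨by linear_combination a * h2, by ring, by linear_combination c * h2⟩
  have hact : ∀ (M : SL2) (a c : F), um a 0 c * blkLow M =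
      blkLow M * um (a * M.1 0 0 + c * M.1 1 0) 0 (a * M.1 0 1 + c * M.1 1 1) := by
    intro M a c
    refine Subtype.ext ?_
    show _ * (!![1, 0, 0; 0, M.1 0 0, M.1 0 1; 0, M.1 1 0, M.1 1 1] : Matrix (Fin 3) (Fin 3) F) = _ * _
    rw [um_val, um_val]
    ext i j
    fin_cases i <;> fin_cases j <;> simp [blkLow_val, Matrix.mul_apply, Fin.sum_univ_three]
  have hconj : ∀ M : SL2, ∀ e ∈ (rowGroup F).map (pr F), (pr F (blkLow M))⁻¹ * e * pr F (blkLow M) ∈
      (rowGroup F).map (pr F) := by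
    rintro M _ ⟨_, ⟨a, c, rfl⟩, rfl⟩
    refine ⟨um (a * M.1 0 0 + c * M.1 1 0) 0 (a * M.1 0 1 + c * M.1 1 1), ⟨_, _, rfl⟩, ?_⟩
    rw [mul_assoc, ← map_mul (pr F) (um a 0 c), hact, map_mul, inv_mul_cancel_left]
  have hnorm : ∀ M : SL2, pr F (blkLow M) ∈
      Subgroup.normalizer (((rowGroup F).map (pr F) : Subgroup L3) : Set L3) := fun M =>
    mem_norm_of (fun e he => by
      have := hconj M⁻¹ e he
      rwa [map_inv, map_inv, inv_inv] at this) (hconj M)
  refine ⟨(pr F).comp blkLow, hnorm, ?_, ?_, ?_⟩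
  · rintro M ⟨_, ⟨a, c, rfl⟩, h⟩
    rw [MonoidHom.comp_apply, QuotientGroup.mk'_eq_mk'] at h
    obtain ⟨z, hz, h⟩ := h
    obtain ⟨r, -, hzr⟩ := scalar_entries hz
    have e := fun i j => congrFun (congrFun (congrArg (fun g : SL3 => (g : Matrix (Fin 3) (Fin 3) F)) h) i) j
    simp only [Matrix.SpecialLinearGroup.coe_mul, um_val, hzr] at e
    have e00 := e 0 0
    have e11 := e 1 1
    have e12 := e 1 2
    have e21 := e 2 1
    have e22 := e 2 2
    simp [blkLow_val, Matrix.mul_apply, Fin.sum_univ_three] at e00 e11 e12 e21 e22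
    refine Subtype.ext ?_
    ext i j
    fin_cases i <;> fin_cases j
    · simp [← e11, e00]
    · simp [← e12]
    · simp [← e21]
    · simp [← e22, e00]
  · intro g hg
    obtain ⟨g, rfl⟩ := QuotientGroup.mk'_surjective _ g
    have hstep : ∀ a c : F, ∃ a' c', g * um a 0 c = um a' 0 c' * g := by
      intro a c
      obtain ⟨_, ⟨a', c', rfl⟩, h⟩ := (Subgroup.mem_normalizer_iff.1 hg _).1 ⟨um a 0 c, ⟨a, c, rfl⟩, rfl⟩
      exact ⟨a', c', lift_conj hF g _ _ (hsq a c) (hsq a' c') h.symm⟩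
    obtain ⟨a1, c1, h1⟩ := hstep 1 0
    obtain ⟨a2, c2, h2'⟩ := hstep 0 1
    set G3 := (g : Matrix (Fin 3) (Fin 3) F) with hG3
    have e1 := congrFun (congrFun (congrArg (fun g : SL3 => (g : Matrix (Fin 3) (Fin 3) F)) h1) 1) 1
    have e2 := congrFun (congrFun (congrArg (fun g : SL3 => (g : Matrix (Fin 3) (Fin 3) F)) h2') 1) 2
    have e3 := congrFun (congrFun (congrArg (fun g : SL3 => (g : Matrix (Fin 3) (Fin 3) F)) h1) 2) 1
    simp [Matrix.SpecialLinearGroup.coe_mul, um_val, Matrix.mul_apply, Fin.sum_univ_three, ← hG3] at e1 e2 e3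
    have g10 : G3 1 0 = 0 := e1
    have g20 : G3 2 0 = 0 := e3
    have hdet := g.2
    rw [← hG3, Matrix.det_fin_three, g20, g10] at hdet
    have hd : G3 0 0 ≠ 0 := fun h => by simp [h] at hdet
    have hd3 : G3 0 0 ^ 3 = 1 := by
      have := FiniteField.pow_card_sub_one_eq_one (G3 0 0) hd
      rwa [hF] at this
    set d := G3 0 0 with hddef
    have hM : (!![d ^ 2 * G3 1 1, d ^ 2 * G3 1 2; d ^ 2 * G3 2 1, d ^ 2 * G3 2 2] :
        Matrix (Fin 2) (Fin 2) F).det = 1 := by
      rw [Matrix.det_fin_two]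
      simp
      linear_combination d ^ 3 * hdet + hd3
    set M : SL2 := ⟨_, hM⟩
    let zs : SL3 := ⟨!![d, 0, 0; 0, d, 0; 0, 0, d], by simp [Matrix.det_fin_three]; linear_combination hd3⟩
    have hzs : zs ∈ Subgroup.center SL3 :=
      Matrix.SpecialLinearGroup.mem_center_iff.2 ⟨d, by simpa using hd3, by
        ext i j; fin_cases i <;> fin_cases j <;> simp [zs]⟩
    have hblk : ((zs * blkLow M : SL3) : Matrix (Fin 3) (Fin 3) F) =
        !![d, 0, 0; 0, G3 1 1, G3 1 2; 0, G3 2 1, G3 2 2] := by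
      rw [Matrix.SpecialLinearGroup.coe_mul, blkLow_val]
      ext i j
      fin_cases i <;> fin_cases j <;> simp [zs, M, Matrix.mul_apply, Fin.sum_univ_three] <;>
        first
          | linear_combination G3 1 1 * hd3
          | linear_combination G3 1 2 * hd3
          | linear_combination G3 2 1 * hd3
          | linear_combination G3 2 2 * hd3
    let aa := d ^ 2 * G3 0 1
    let cc := d ^ 2 * G3 0 2
    have hcand : g = zs * blkLow M * um aa 0 cc := by
      refine Subtype.ext ?_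
      rw [Matrix.SpecialLinearGroup.coe_mul, hblk, um_val, ← hG3]
      ext i j
      fin_cases i <;> fin_cases j <;>
        simp [Matrix.mul_apply, Fin.sum_univ_three, g20, g10, aa, cc] <;>
        first
          | linear_combination -G3 0 1 * hd3
          | linear_combination -G3 0 2 * hd3
          | rfl
    refine ⟨pr F (um aa 0 cc), ⟨_, ⟨aa, cc, rfl⟩, rfl⟩, M, ?_⟩
    conv_lhs => rw [hcand]
    rw [map_mul, map_mul, show pr F zs = 1 from (QuotientGroup.eq_one_iff zs).2 hzs, one_mul]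
    rfl
  · rintro _ ⟨_, ⟨a, c, rfl⟩, rfl⟩ _ ⟨_, ⟨a', c', rfl⟩, rfl⟩ ha hb
    have key : ∀ a c : F, pr F (um a 0 c) ≠ 1 → ∃ M : SL2,
        (pr F (blkLow M))⁻¹ * pr F (um 1 0 0) * pr F (blkLow M) = pr F (um a 0 c) := by
      intro a c hne
      have hcb : a ≠ 0 ∨ c ≠ 0 := by
        by_contra h
        push Not at h
        rw [h.1, h.2, um_one, map_one] at hne
        exact hne rfl
      obtain ⟨M, hM0, hM1⟩ := exists_sl2_col a c hcb
      let M' : SL2 := ⟨(M : Matrix (Fin 2) (Fin 2) F).transpose, by rw [Matrix.det_transpose]; exact M.2⟩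
      refine ⟨M', ?_⟩
      rw [mul_assoc, ← map_mul (pr F) (um 1 0 0), hact, map_mul, inv_mul_cancel_left]
      congr 2 <;> simp [M', hM0, hM1]
    obtain ⟨M, hM⟩ := key a c ha
    obtain ⟨N, hN⟩ := key a' c' hb
    refine ⟨(pr F (blkLow N))⁻¹ * pr F (blkLow M), mul_mem (inv_mem (hnorm N)) (hnorm M), ?_⟩
    rw [← hM, ← hN]
    group

end Cfsg.Agent.H61.L34
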