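import Cfsg.Agent.H61.Sol3
import Cfsg.Agent.H23.MinimalNPC

/-! Normal `p`-complements from functors. -/

set_option autoImplicit false

namespace Cfsg.Agent.H61

universe u

open Cfsg.Agent.H23 (IsSylowIn)
open scoped commutatorElement Pointwise

variable {G : Type u} [Group G] [Finite G] {p : ℕ} [Fact p.Prime]

/-- The data of a minimal counterexample available to the final step. -/
structure MinimalData (p : ℕ) {X : Type u} [Group X] (T : Sylow p X) : Prop where
  /-- self-centralizing core -/
  cent : Constrained p X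
  /-- maximal Sylow subgroup -/
  coatom : IsCoatom (T : Subgroup X)
  /-- the quotient has a normal complement -/
  quot : ∀ [(Cfsg.pCore p X).Normal], Cfsg.HasNormalPComplement p (X ⧸ Cfsg.pCore p X)
  /-- the shape -/
  shape : Sol3 p X
  /-- the layer is moved by every element of the Sylow subgroup outside the core -/
  moved : ∃ L : Subgroup X, L.Normal ∧ Cfsg.pCore p X ≤ L ∧ ⁅L, L⁆ ≤ Cfsg.pCore p X ∧
    (∀ x ∈ L, ∃ m, ¬ p ∣ m ∧ x ^ m ∈ Cfsg.pCore p X) ∧
    (∀ t ∈ (T : Subgroup X), (∀ x ∈ L, ⁅t, x⁆ ∈ Cfsg.pCore p X) → t ∈ Cfsg.pCore p X) ∧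
    ∀ C : Subgroup X, C.Normal → C ≤ Cfsg.pCore p X ∨ C ⊔ (T : Subgroup X) = ⊤

/-- The general step: if the functor's value is normal in every minimal configuration, a normal
complement of its normalizer gives one for the group. -/
theorem npc_of_functor {W : ∀ (Q : Type u) [Group Q], Subgroup Q}
    (hW : Cfsg.IsCharPFunctor.{u} p W)
    (hfinal : ∀ (X : Type u) [Group X] [Finite X], Sect X G → ∀ T : Sylow p X, MinimalData p T →
      Cfsg.HasNormalPComplement p
        (Subgroup.normalizer ((Cfsg.inducedFunctor (G := X) W (T : Subgroup X) : Subgroup X) : Set X)) →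
      Cfsg.HasNormalPComplement p X)
    (X : Type u) [Group X] [Finite X] (hX : Sect X G) (T : Sylow p X)
    (hN : Cfsg.HasNormalPComplement p
      (Subgroup.normalizer ((Cfsg.inducedFunctor (G := X) W (T : Subgroup X) : Subgroup X) : Set X))) :
    Cfsg.HasNormalPComplement p X := by
  induction hd : Nat.card X using Nat.strong_induction_on generalizing X with
  | _ d IH =>
  subst hd
  by_contra hnot
  -- normal subgroups of order prime to `p` are trivial
  have hcore : ∀ N : Subgroup X, N.Normal → ¬ p ∣ Nat.card N → N = ⊥ := by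
    intro N hNn hNp
    by_contra hne
    refine hnot (H23.hasNormalPComplement_of_quotient N hNp ?_)
    refine IH _ (H19.card_quotient_lt N hne) (X ⧸ N) (sect_trans (sect_quotient N) hX)
      (T.mapSurjective (QuotientGroup.mk'_surjective N)) ?_ rfl
    rw [Sylow.coe_mapSurjective, induced_map' hW _ T.isPGroup'
      (H23.injOn_mk_of_isPGroup N hNp T.2),
      H23.normalizer_map_mk N hNp (T.2.to_le ((isConjugacyFunctor_induced (G := X) hW) _ T.2).1)]
    exact H23.hasNormalPComplement_map _ hN
  have hsub : ∀ (S H : Subgroup X), IsSylowIn p S H → H ≠ ⊤ →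
      Cfsg.HasNormalPComplement p
        (Subgroup.normalizer ((Cfsg.inducedFunctor (G := X) W S : Subgroup X) : Set X)) →
      Cfsg.HasNormalPComplement p H := by
    intro S H hS hH hNS
    have hS' : IsPGroup p (S.subgroupOf H) := hS.2.1.comap_subtype
    refine IH _ (H19.card_lt_of_ne_top H hH) H (sect_trans (sect_subgroup H) hX)
      (hS'.toSylow hS.2.2) (H23.hasNormalPComplement_of_map_le ?_ hNS) rfl
    refine (Subgroup.le_normalizer_map _).trans (le_of_eq ?_)
    rw [show ((hS'.toSylow hS.2.2 : Sylow p H) : Subgroup H) = S.subgroupOf H from rfl,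
      ← induced_map hW H.subtype H.subtype_injective hS',
      Subgroup.map_subgroupOf_eq_of_le hS.1]
  have hWc := isConjugacyFunctor_induced (G := X) hW
  have hproper : ∀ H : Subgroup X, (T : Subgroup X) ≤ H → H ≠ ⊤ → Cfsg.HasNormalPComplement p H :=
    fun H hTH hH => hsub _ H (sylowIn_of_le T hTH) hH hN
  have hloc : ∀ (S H : Subgroup X), IsSylowIn p S H → S ≠ ⊥ → H ≠ ⊤ →
      (∀ W' : Subgroup X, W' ≤ S → W' ≠ ⊥ →
        Subgroup.normalizer (S : Set X) ≤ Subgroup.normalizer (W' : Set X) →
        Cfsg.HasNormalPComplement p (Subgroup.normalizer (W' : Set X))) →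
      Cfsg.HasNormalPComplement p H := fun S H hS hSne hH h =>
    hsub S H hS hH (h _ (hWc S hS.2.1).1 ((hWc S hS.2.1).2.1 hSne)
      (normalizer_le_normalizer_functor hWc hS.2.1))
  set U := Cfsg.pCore p X with hU
  have hUn : U.Normal := H19.pCore_normal p X
  have hU1 : U ≠ ⊥ := by
    obtain ⟨U', hU'n, hU'p, hU'⟩ := H23.exists_normal_pSubgroup T hproper hloc hnot
    exact fun e => hU' (le_bot_iff.1 (e ▸ H19.le_pCore hU'n hU'p))
  have hneU : U ≠ (T : Subgroup X) := by
    intro e
    apply hnot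
    have htop : Subgroup.normalizer ((Cfsg.inducedFunctor (G := X) W (T : Subgroup X) : Subgroup X) : Set X) = ⊤ := by
      rw [eq_top_iff, ← Subgroup.normalizer_eq_top_iff.2 hUn, e]
      exact normalizer_le_normalizer_functor hWc T.2
    rw [htop] at hN
    exact (H22.hasNormalPComplement_congr Subgroup.topEquiv).1 hN
  set φ := QuotientGroup.mk' U with hφ
  have hφs : Function.Surjective φ := QuotientGroup.mk'_surjective U
  set T' : Sylow p (X ⧸ U) := T.mapSurjective hφs with hT'
  have hT'ne : (T' : Subgroup (X ⧸ U)) ≠ ⊥ := by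
    intro e
    refine hneU (le_antisymm (H19.pCore_le_sylow T) fun x hx => ?_)
    have h1 : φ x ∈ (T' : Subgroup (X ⧸ U)) := Subgroup.mem_map_of_mem _ hx
    rw [e, Subgroup.mem_bot] at h1
    exact (QuotientGroup.eq_one_iff x).1 h1
  have hWc' := isConjugacyFunctor_induced (G := X ⧸ U) hW
  have hquot : Cfsg.HasNormalPComplement p (X ⧸ U) := by
    refine IH _ (H19.card_quotient_lt U hU1) (X ⧸ U) (sect_trans (sect_quotient U) hX) T' ?_ rfl
    exact H23.hasNormalPComplement_normalizer_quotient T U (H19.pCore_quotient_pCore p) hproper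
      ((hWc' _ T'.2).2.1 hT'ne) (hWc' _ T'.2).1
      (Subgroup.le_normalizer.trans (normalizer_le_normalizer_functor hWc' T'.2))
  obtain ⟨hUp, hUT, hOp, hcent, hKp, hKcomm, hTQ, hdich⟩ :=
    H23.minimalNPC_of T hcore U hU hneU hproper hquot
  set K := Cfsg.pResidual p (X ⧸ U) with hK
  have hKn : K.Normal := H22.pResidual_normal
  set L := K.comap φ with hL
  have hLn : L.Normal := hKn.comap φ
  have hUL : U ≤ L := QuotientGroup.le_comap_mk' U K
  have hLL : ⁅L, L⁆ ≤ U := Subgroup.commutator_le.2 fun a ha b hb => by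
    rw [← QuotientGroup.eq_one_iff]
    show φ ⁅a, b⁆ = 1
    rw [map_commutatorElement, commutatorElement_eq_one_iff_mul_comm]
    exact congrArg Subtype.val (hKcomm.is_comm.comm (⟨φ a, ha⟩ : K) ⟨φ b, hb⟩)
  have hLm : ∀ x ∈ L, ∃ m, ¬ p ∣ m ∧ x ^ m ∈ U := fun x hx => ⟨Nat.card K, hKp, by
    rw [← QuotientGroup.eq_one_iff]
    show φ (x ^ Nat.card K) = 1
    rw [map_pow]
    exact congrArg Subtype.val (pow_card_eq_one' (x := (⟨φ x, hx⟩ : K)))⟩
  refine hnot (hfinal X hX T ⟨hcent, ⟨fun e => hneU ?_, fun H hH => ?_⟩, hquot, ?_, ?_⟩ hN)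
  · exact le_antisymm hUT ((H19.le_pCore (e ▸ inferInstance) T.2))
  · -- the Sylow subgroup is maximal
    by_contra hHt
    refine hH.ne' (le_antisymm ?_ hH.le)
    have hnpc := hproper H hH.le hHt
    have hR : Cfsg.pResidual p H = ⊥ := by
      rw [eq_bot_iff]
      intro r hr
      have hRn : (Cfsg.pResidual p H).Normal := H22.pResidual_normal
      have h1 := H22.isPGroup_inf_eq_bot (hUp.comap_subtype (K := H)) (Cfsg.pResidual p H)
        (H22.hasNormalPComplement_iff.1 hnpc)
      have hrU : (r : X) ∈ Subgroup.centralizer (U : Set X) :=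
        Subgroup.mem_centralizer_iff.2 fun z hz =>
          congrArg Subtype.val (Subgroup.commute_of_normal_of_disjoint (U.subgroupOf H)
            (Cfsg.pResidual p H) inferInstance hRn (disjoint_iff.2 h1)
            ⟨z, hUT.trans hH.le hz⟩ r hz hr).eq
      exact h1.le ⟨hcent hrU, hr⟩
    have htop := H22.pResidual_sup_sylow (T.subtype hH.le)
    rw [hR, bot_sup_eq, Sylow.coe_subtype, Subgroup.subgroupOf_eq_top] at htop
    exact htop
  · refine ⟨U, L, hUn, hLn, hUL, hUp, hLL, hLm, fun x => ?_⟩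
    obtain ⟨k, hk⟩ := H22.exists_index_pResidual_eq (G := X ⧸ U) (p := p)
    refine ⟨k, ?_⟩
    show φ (x ^ p ^ k) ∈ K
    rw [map_pow, ← hk]
    exact K.pow_index_mem _
  · refine ⟨L, hLn, hUL, hLL, hLm, fun t ht hc => ?_, hdich⟩
    rw [← QuotientGroup.eq_one_iff]
    refine hTQ (φ t) (Subgroup.mem_map_of_mem φ ht) fun d hd => ?_
    obtain ⟨x, rfl⟩ := hφs d
    show φ t * φ x = φ x * φ t
    rw [← commutatorElement_eq_one_iff_mul_comm, ← map_commutatorElement]
    exact (QuotientGroup.eq_one_iff _).2 (hc x hd)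

/-- In a minimal configuration no element outside the core acts on a chief factor below it with
small degree and nontrivially. -/
theorem no_engel_of_minimal {X : Type u} [Group X] [Finite X] (T : Sylow p X) (h : MinimalData p T)
    {g : X} (hgT : g ∈ (T : Subgroup X)) {U V : Subgroup X} (hUV : Cfsg.IsChiefFactor U V)
    (hU : U ≤ Cfsg.pCore p X)
    (hiter : Cfsg.iterCommutator U (Subgroup.zpowers g) (p - 1) ≤ V) :
    ⁅U, Subgroup.zpowers g⁆ ≤ V := by
  classical
  by_contra hnt
  set Q := Cfsg.pCore p X with hQ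
  have hQn : Q.Normal := H19.pCore_normal p X
  have hQp : IsPGroup p Q := H19.pCore_isPGroup p
  have hQT : Q ≤ (T : Subgroup X) := H19.pCore_le_sylow T
  obtain ⟨L, hLn, hQL, hLL, hLm, hmoved, hdich⟩ := h.moved
  have hUn := hUV.2.1
  have hVn := hUV.2.2.1
  -- the kernel of the action on the factor is the core
  set C := sectStab ({(U, V)} : Set (Subgroup X × Subgroup X)) with hC
  have hCn : C.Normal := sectStab_normal fun F hF => by
    rw [Set.mem_singleton_iff.1 hF]; exact ⟨hUn, hVn⟩
  have hUC : ⁅U, C⁆ ≤ V := sectStab_le (Set.mem_singleton _)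
  have hCQ : C ≤ Q := by
    rcases hdich C hCn with hc | hc
    · exact hc
    exfalso
    have hleC : ∀ K : Subgroup X, ⁅U, K⁆ ≤ V → K ≤ C := fun K hK => le_sectStab fun F hF => by
      rw [Set.mem_singleton_iff.1 hF]; exact ⟨hK, Subgroup.le_normalizer_of_normal⟩
    have hUp : IsPGroup p U := hQp.to_le hU
    have hT : ⁅U, (⊤ : Subgroup X)⁆ ≤ V := by
      refine chief_centralized hUp hUV fun x _ => ?_
      obtain ⟨k, hk⟩ : ∃ k, x ^ p ^ k ∈ C := by
        have hq : IsPGroup p (X ⧸ C) := by
          intro y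
          obtain ⟨z, rfl⟩ := QuotientGroup.mk'_surjective C y
          have hz : z ∈ C ⊔ (T : Subgroup X) := hc ▸ Subgroup.mem_top z
          rw [← SetLike.mem_coe, Subgroup.normal_mul] at hz
          obtain ⟨c, hcC, t, ht, rfl⟩ := hz
          obtain ⟨k, hk⟩ := T.2 ⟨t, ht⟩
          refine ⟨k, ?_⟩
          rw [map_mul, show QuotientGroup.mk' C c = 1 from (QuotientGroup.eq_one_iff c).2 hcC,
            one_mul, ← map_pow, show t ^ p ^ k = 1 from congrArg Subtype.val hk, map_one]
        obtain ⟨k, hk⟩ := hq (QuotientGroup.mk' C x)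
        exact ⟨k, (QuotientGroup.eq_one_iff _).1 ((map_pow (QuotientGroup.mk' C) x _).trans hk)⟩
      exact ⟨k, (Subgroup.commutator_mono le_rfl (Subgroup.zpowers_le.2 hk)).trans hUC⟩
    exact hnt ((Subgroup.commutator_mono le_rfl le_top).trans hT)
  have hgQ : g ∉ Q := fun hg => hnt ((Subgroup.commutator_mono le_rfl (Subgroup.zpowers_le.2 hg)).trans
    (chief_commutator_le hQp hUV hU))
  obtain ⟨j, hj⟩ := T.2 ⟨g, hgT⟩
  obtain ⟨v, hvg, hvQ, hvp⟩ := exists_power_above hgQ (k := j)
    (by rw [show g ^ p ^ j = 1 from congrArg Subtype.val hj]; exact one_mem Q)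
  refine hvQ (hmoved v (Subgroup.zpowers_le.2 hgT hvg) fun x hx => hCQ ?_)
  refine (Subgroup.zpowers_le).1 (le_sectStab fun F hF => ?_)
  rw [Set.mem_singleton_iff.1 hF]
  refine ⟨commutator_trivial_on_factor (D := Q) (K := L) hQL hLL hLm
    ((Subgroup.commutator_mono le_rfl hU).trans (chief_commutator_le hQp hUV hU))
    (fun u hu => chief_pow_mem hQp hUV hU u hu) (chief_commutator_le hQp hUV hU) hvp ?_ hx,
    Subgroup.le_normalizer_of_normal⟩
  refine le_trans ?_ hiter
  have hle : Subgroup.zpowers v ≤ Subgroup.zpowers g := Subgroup.zpowers_le.2 hvg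
  have : ∀ n, Cfsg.iterCommutator U (Subgroup.zpowers v) n ≤
      Cfsg.iterCommutator U (Subgroup.zpowers g) n := by
    intro n
    induction n with
    | zero => exact le_rfl
    | succ n ih => exact Subgroup.commutator_mono ih hle
  exact this _

end Cfsg.Agent.H61
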