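import Cfsg.Agent.H61.Npc

/-! Normal `p`-complement criteria. -/

set_option autoImplicit false

namespace Cfsg.Agent.H61

universe u

open Cfsg.Agent.H23 (IsSylowIn)
open scoped commutatorElement Pointwise

/-- A self-centralizing subgroup of the Sylow subgroup with trivial coprime action gives a
normalizer with normal `p`-complement. -/
theorem npc_normalizer_of_selfCentralizing {G : Type*} [Group G] [Finite G] {p : ℕ} [Fact p.Prime]
    (S : Sylow p G) (T : Subgroup G) (hTS : T ≤ (S : Subgroup G))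
    (hTn : (S : Subgroup G) ≤ Subgroup.normalizer (T : Set G))
    (hC : (S : Subgroup G) ⊓ Subgroup.centralizer (T : Set G) ≤ T)
    (hN : ∀ g ∈ Subgroup.normalizer (T : Set G), (orderOf g).Coprime p →
      g ∈ Subgroup.centralizer (T : Set G)) :
    Cfsg.HasNormalPComplement p (Subgroup.normalizer (T : Set G)) := by
  classical
  set N := Subgroup.normalizer (T : Set G) with hN'
  set C : Subgroup N := (Subgroup.centralizer (T : Set G)).subgroupOf N with hCdef
  have hCn : C.Normal := (Subgroup.normal_subgroupOf_iff_le_normalizer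
    (Subgroup.centralizer_le_normalizer _)).2 fun n hn => mem_normalizer_of_cj (cj_eq_of_le (by
      rintro _ ⟨c, hc, rfl⟩
      refine Subgroup.mem_centralizer_iff.2 fun t ht => ?_
      show t * (n * c * n⁻¹) = n * c * n⁻¹ * t
      have h1 : n⁻¹ * t * n ∈ T := mem_cj.1 ((cj_eq_self hn).symm ▸ ht)
      have h2 := Subgroup.mem_centralizer_iff.1 hc _ h1
      calc t * (n * c * n⁻¹) = n * ((n⁻¹ * t * n) * c) * n⁻¹ := by group
        _ = n * (c * (n⁻¹ * t * n)) * n⁻¹ := by rw [h2]
        _ = n * c * n⁻¹ * t := by group))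
  set P : Sylow p N := S.subtype hTn with hP
  -- the Sylow subgroup of the centralizer is central
  have hPC := sylowIn_inf_normal (sylowIn_of_le P le_top) (le_top : C ≤ ⊤)
    (Subgroup.normalizer_eq_top C).ge
  set Z : Sylow p C := (hPC.2.1.comap_subtype).toSylow hPC.2.2 with hZ
  have hZc : ((Z : Subgroup C)) ≤ Subgroup.center C := by
    intro z hz
    have hz' : (z : N) ∈ (P : Subgroup N) ⊓ C := hz
    have hzT : ((z : N) : G) ∈ T := hC (Subgroup.mem_inf.2 ⟨(hz'.1 : ((z : N) : G) ∈ (S : Subgroup G)), z.2⟩)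
    exact Subgroup.mem_center_iff.2 fun c =>
      Subtype.ext (Subtype.ext (Subgroup.mem_centralizer_iff.1 c.2 _ hzT).symm)
  have hnpc : Cfsg.HasNormalPComplement p C := ⟨Z, _, inferInstance,
    MonoidHom.ker_transferSylow_isComplement' Z fun x _ => Subgroup.mem_centralizer_iff.2 fun z hz =>
      (Subgroup.mem_center_iff.1 (hZc hz) x).symm⟩
  set R := (Cfsg.pResidual p C).map C.subtype with hR
  have hRn : R.Normal := by
    have : (Cfsg.pResidual p C).Characteristic := by
      refine Subgroup.characteristic_iff_map_eq.2 fun φ => ?_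
      exact H22.map_pResidual_of_surjective φ.toMonoidHom φ.surjective
    exact ConjAct.normal_of_characteristic_of_normal
  have hRp : ¬ p ∣ Nat.card R := by
    rw [hR, Subgroup.card_map_of_injective C.subtype_injective]
    exact H22.hasNormalPComplement_iff.1 hnpc
  refine H22.hasNormalPComplement_of_normal R hRp ?_
  intro y
  obtain ⟨x, rfl⟩ := QuotientGroup.mk'_surjective R y
  obtain ⟨e, m, hm, hord⟩ := Nat.exists_eq_pow_mul_and_not_dvd (orderOf_pos x).ne' p
    (Fact.out : p.Prime).ne_one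
  have hxp : (orderOf (x ^ p ^ e)).Coprime p := by
    refine Nat.Coprime.coprime_dvd_left (orderOf_dvd_of_pow_eq_one ?_)
      ((Fact.out : p.Prime).coprime_iff_not_dvd.2 hm).symm
    rw [← pow_mul, ← hord, pow_orderOf_eq_one]
  have hxC : x ^ p ^ e ∈ C := hN _ (x ^ p ^ e).2 ((Subgroup.orderOf_coe (x ^ p ^ e)).symm ▸ hxp)
  refine ⟨e, ?_⟩
  rw [← map_pow]
  exact (QuotientGroup.eq_one_iff _).2 ⟨⟨_, hxC⟩, H22.mem_pResidual_of_coprime
    (by rwa [Subgroup.orderOf_mk]), rfl⟩

variable {G : Type u} [Group G] [Finite G] {p : ℕ} [Fact p.Prime]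

/-- A normal value has a complement when its normalizer has one. -/
theorem npc_of_normal_value {W : Subgroup G} (hn : W.Normal)
    (hN : Cfsg.HasNormalPComplement p (Subgroup.normalizer (W : Set G))) :
    Cfsg.HasNormalPComplement p G := by
  rw [Subgroup.normalizer_eq_top_iff.2 hn] at hN
  exact (H22.hasNormalPComplement_congr Subgroup.topEquiv).1 hN

/-- Strong fusion control by a subgroup whose normalizer has a normal complement. -/
theorem npc_of_fusion (T : Sylow p G) {W : Subgroup G} (hTW : (T : Subgroup G) ≤ Subgroup.normalizer (W : Set G))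
    (hN : Cfsg.HasNormalPComplement p (Subgroup.normalizer (W : Set G)))
    (hf : ∀ x ∈ (T : Subgroup G), ∀ g : G, g * x * g⁻¹ ∈ (T : Subgroup G) →
      ∃ n ∈ Subgroup.normalizer (W : Set G), n * x * n⁻¹ = g * x * g⁻¹) :
    Cfsg.HasNormalPComplement p G := by
  refine H22.hasNormalPComplement_of_no_fusion T fun x hx g hg => ?_
  obtain ⟨n, hn, e⟩ := hf x hx g hg
  set N := Subgroup.normalizer (W : Set G)
  set T₀ := T.subtype hTW with hT₀
  set R := Cfsg.pResidual p N with hRdef
  have hRn : R.Normal := H22.pResidual_normal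
  have hmem : (⟨n, hn⟩ : N) ∈ R ⊔ (T₀ : Subgroup N) := by
    rw [H22.pResidual_sup_sylow]; trivial
  rw [← SetLike.mem_coe, Subgroup.normal_mul] at hmem
  obtain ⟨r, hr, t, ht, hrt⟩ := hmem
  have htT : (t : G) ∈ (T : Subgroup G) := by simpa [hT₀, Subgroup.mem_subgroupOf] using ht
  set y : G := (t : G) * x * (t : G)⁻¹ with hy
  have hyT : y ∈ (T : Subgroup G) := mul_mem (mul_mem htT hx) (inv_mem htT)
  have hnrt : n = (r : G) * t := (congrArg Subtype.val hrt).symm
  have e' : (r : G) * y * (r : G)⁻¹ = g * x * g⁻¹ := by rw [← e, hnrt, hy]; group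
  refine ⟨t, htT, ?_⟩
  have hyN : y ∈ N := hTW hyT
  have hc : ⁅r, (⟨y, hyN⟩ : N)⁆ ∈ (T₀ : Subgroup N) ⊓ R := by
    refine Subgroup.mem_inf.2 ⟨?_, ?_⟩
    · have : (r : G) * y * (r : G)⁻¹ * y⁻¹ ∈ (T : Subgroup G) :=
        mul_mem (e' ▸ hg) (inv_mem hyT)
      simpa [hT₀, Subgroup.mem_subgroupOf, commutatorElement_def] using this
    · rw [commutatorElement_def, mul_assoc, mul_assoc]
      refine mul_mem hr ?_
      rw [← mul_assoc]
      exact hRn.conj_mem _ (inv_mem hr) _
  rw [H22.isPGroup_inf_eq_bot T₀.2 R (H22.hasNormalPComplement_iff.1 hN), Subgroup.mem_bot,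
    commutatorElement_eq_one_iff_mul_comm] at hc
  have hc' : (r : G) * y = y * r := congrArg Subtype.val hc
  rw [← e', hc', mul_inv_cancel_right]

/-- Strong fusion control in the form of the prelude. -/
theorem npc_of_controlsStrongFusion {U : Subgroup G} (h : Cfsg.ControlsStrongFusion p U)
    (hN : Cfsg.HasNormalPComplement p (Subgroup.normalizer (U : Set G))) :
    Cfsg.HasNormalPComplement p G := by
  obtain ⟨T, hUT, hA⟩ := h
  refine npc_of_fusion T (fun t ht => ?_) hN fun x hx g hg => ?_
  · obtain ⟨n, hn, he⟩ := (hA (T : Subgroup G) subset_rfl).2 t (by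
      rintro _ ⟨a, ha, rfl⟩
      exact mul_mem (mul_mem ht ha) (inv_mem ht))
    refine mem_normalizer_of_cj ?_
    conv_rhs => rw [← cj_eq_self hn]
    ext z
    constructor <;> rintro ⟨a, ha, rfl⟩
    · exact ⟨a, ha, (he a (hUT ha)).symm⟩
    · exact ⟨a, ha, he a (hUT ha)⟩
  · obtain ⟨n, hn, he⟩ := (hA {x} (Set.singleton_subset_iff.2 hx)).2 g (by
      rintro _ ⟨a, rfl, rfl⟩
      exact hg)
    exact ⟨n, hn, (he x rfl).symm⟩

end Cfsg.Agent.H61

namespace Cfsg.Agent.H61

universe u

variable {p : ℕ} [Fact p.Prime]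

/-- The Sylow subgroup transported backwards along an isomorphism. -/
theorem induced_transport {W : ∀ (Q : Type u) [Group Q], Subgroup Q}
    (hW : Cfsg.IsCharPFunctor.{u} p W) {Y X : Type u} [Group Y] [Finite Y] [Group X] [Finite X]
    (e : Y ≃* X) (T : Sylow p X) :
    ((T.mapSurjective (f := e.symm.toMonoidHom) e.symm.surjective : Sylow p Y) : Subgroup Y).map
        e.toMonoidHom = (T : Subgroup X) ∧
    (Cfsg.inducedFunctor (G := Y) W
      ((T.mapSurjective (f := e.symm.toMonoidHom) e.symm.surjective : Sylow p Y) : Subgroup Y)).map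
        e.toMonoidHom = Cfsg.inducedFunctor W (T : Subgroup X) := by
  have h1 : ((T.mapSurjective (f := e.symm.toMonoidHom) e.symm.surjective : Sylow p Y) : Subgroup Y).map
      e.toMonoidHom = (T : Subgroup X) := by
    show ((T : Subgroup X).map e.symm.toMonoidHom).map e.toMonoidHom = _
    rw [Subgroup.map_map]
    conv_rhs => rw [← Subgroup.map_id (T : Subgroup X)]
    congr 1
    ext x; simp
  refine ⟨h1, ?_⟩
  rw [← induced_map hW e.toMonoidHom e.injective (Sylow.isPGroup' _), h1]

/-- Being isomorphic to a minimal configuration. -/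
def MinimalData' (p : ℕ) {Y : Type u} [Group Y] (T' : Sylow p Y) : Prop :=
  ∃ (X : Type u) (_ : Group X) (_ : Finite X) (e : Y ≃* X) (T : Sylow p X),
    MinimalData p T ∧ (T' : Subgroup Y).map e.toMonoidHom = (T : Subgroup X)

/-- Thompson's criterion: normal values in the maximal-Sylow constrained sections suffice. -/
theorem npc_of_normal_sections {W : ∀ (Q : Type u) [Group Q], Subgroup Q}
    (hW : Cfsg.IsCharPFunctor.{u} p W) {G : Type u} [Group G] [Finite G] (S : Sylow p G)
    (hN : Cfsg.HasNormalPComplement p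
      (Subgroup.normalizer ((Cfsg.inducedFunctor (G := G) W (S : Subgroup G) : Subgroup G) : Set G)))
    (hloc : ∀ (K R : Subgroup G) [_hR : (R.subgroupOf K).Normal],
      ∀ T : Sylow p (↥K ⧸ R.subgroupOf K), MinimalData' p T →
        (Cfsg.inducedFunctor (G := (↥K ⧸ R.subgroupOf K)) W (T : Subgroup _)).Normal) :
    Cfsg.HasNormalPComplement p G := by
  refine npc_of_functor hW (fun X _ _ hX T hd hNX => ?_) G sect_refl S hN
  obtain ⟨K, R, hR, ⟨e⟩⟩ := hX.exists_equiv
  obtain ⟨h1, h2⟩ := induced_transport hW e T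
  refine npc_of_normal_value ?_ hNX
  rw [← h2]
  exact (hloc K R _ ⟨X, inferInstance, inferInstance, e, T, hd, h1⟩).map _ e.surjective

end Cfsg.Agent.H61

namespace Cfsg.Agent.H61

universe u

/-- Chief factors are preserved by isomorphisms. -/
theorem chiefFactor_map {Y X : Type*} [Group Y] [Group X] (e : Y ≃* X) {U V : Subgroup Y}
    (h : Cfsg.IsChiefFactor U V) :
    Cfsg.IsChiefFactor (U.map e.toMonoidHom) (V.map e.toMonoidHom) := by
  obtain ⟨hlt, hUn, hVn, hmax⟩ := h
  refine ⟨(Subgroup.map_lt_map_iff_of_injective e.injective).2 hlt, hUn.map _ e.surjective,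
    hVn.map _ e.surjective, fun N hN h1 h2 => ?_⟩
  have hb : (N.comap e.toMonoidHom).map e.toMonoidHom = N :=
    Subgroup.map_comap_eq_self_of_surjective e.surjective N
  rcases hmax (N.comap e.toMonoidHom) (hN.comap _) (Subgroup.map_le_iff_le_comap.1 h1)
    ((Subgroup.map_le_map_iff_of_injective e.injective).1 (hb.symm ▸ h2)) with h | h
  · left; rw [← hb, h]
  · right; rw [← hb, h]

variable {p : ℕ} [Fact p.Prime]

/-- Criterion by control in sections all of whose sections are stable. -/
theorem npc_of_stable_control (hp : p ≠ 2) {W : ∀ (Q : Type u) [Group Q], Subgroup Q}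
    (hW : Cfsg.IsCharPFunctor.{u} p W) {G : Type u} [Group G] [Finite G] (S : Sylow p G)
    (hN : Cfsg.HasNormalPComplement p
      (Subgroup.normalizer ((Cfsg.inducedFunctor (G := G) W (S : Subgroup G) : Subgroup G) : Set G)))
    (hctl : ∀ (K R : Subgroup G) [_hR : (R.subgroupOf K).Normal],
      (∀ (K' R' : Subgroup (↥K ⧸ R.subgroupOf K)) [_hR' : (R'.subgroupOf K').Normal],
        Cfsg.IsNormalizerPStable p (↥K' ⧸ R'.subgroupOf K')) →
      ∀ T : Sylow p (↥K ⧸ R.subgroupOf K), Cfsg.ControlsStrongFusion p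
        (Cfsg.inducedFunctor (G := (↥K ⧸ R.subgroupOf K)) W (T : Subgroup (↥K ⧸ R.subgroupOf K)))) :
    Cfsg.HasNormalPComplement p G := by
  refine npc_of_functor hW (fun X _ _ hX T hd hNX => ?_) G sect_refl S hN
  obtain ⟨K, R, hR, ⟨e⟩⟩ := hX.exists_equiv
  obtain ⟨-, h2⟩ := induced_transport hW e T
  refine (H22.hasNormalPComplement_congr e).1
    (npc_of_controlsStrongFusion (hctl K R (fun K' R' hR' => ?_)
      (T.mapSurjective (f := e.symm.toMonoidHom) e.symm.surjective)) ?_)
  · refine stable_of_sol3 hp (hd.shape.of_sect (sect_trans (sect_of_pair K' R') ?_))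
    exact ⟨⊤, (e.symm.toMonoidHom).comp (⊤ : Subgroup X).subtype,
      fun y => ⟨⟨e y, trivial⟩, e.symm_apply_apply y⟩⟩
  · rw [← h2, ← Subgroup.map_equiv_normalizer_eq] at hNX
    exact (H22.hasNormalPComplement_congr
      (Subgroup.equivMapOfInjective _ e.toMonoidHom e.injective)).2 hNX

end Cfsg.Agent.H61
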