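import Cfsg.Agent.H61.PSUThreeTables
import Cfsg.Prelude.Def_Classical
import Mathlib

/-!
A homomorphism from `SL(2,7)` to `SU(3,3)` with kernel the centre.
-/

set_option autoImplicit false

namespace Cfsg.Agent.H61.PSUThree

/-- Addition of codes. -/
def add9 (x y : ℕ) : ℕ := (x % 3 + y % 3) % 3 + 3 * ((x / 3 + y / 3) % 3)

/-- Multiplication of codes, `α² = 2α + 1`. -/
def mul9 (x y : ℕ) : ℕ :=
  (x % 3 * (y % 3) + x / 3 * (y / 3)) % 3 +
    3 * ((x % 3 * (y / 3) + x / 3 * (y % 3) + 2 * (x / 3) * (y / 3)) % 3)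

/-- The `(i, j)` entry. -/
def ent (A : List ℕ) (i j : ℕ) : ℕ := A.getD (3 * i + j) 0

/-- An entry of a product. -/
def dot (A B : List ℕ) (i j : ℕ) : ℕ :=
  add9 (add9 (mul9 (ent A i 0) (ent B 0 j)) (mul9 (ent A i 1) (ent B 1 j))) (mul9 (ent A i 2) (ent B 2 j))

/-- The cube. -/
def cube9 (x : ℕ) : ℕ := mul9 x (mul9 x x)

/-- An entry of `Aᵀ A^σ`. -/
def gram (A : List ℕ) (i j : ℕ) : ℕ :=
  add9 (add9 (mul9 (ent A 0 i) (cube9 (ent A 0 j))) (mul9 (ent A 1 i) (cube9 (ent A 1 j))))
    (mul9 (ent A 2 i) (cube9 (ent A 2 j)))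

/-- Minus. -/
def neg9 (x : ℕ) : ℕ := mul9 2 x

/-- The determinant. -/
def det9 (A : List ℕ) : ℕ :=
  add9 (add9 (mul9 (ent A 0 0) (add9 (mul9 (ent A 1 1) (ent A 2 2)) (neg9 (mul9 (ent A 1 2) (ent A 2 1)))))
    (neg9 (mul9 (ent A 0 1) (add9 (mul9 (ent A 1 0) (ent A 2 2)) (neg9 (mul9 (ent A 1 2) (ent A 2 0)))))))
    (mul9 (ent A 0 2) (add9 (mul9 (ent A 1 0) (ent A 2 1)) (neg9 (mul9 (ent A 1 1) (ent A 2 0)))))

/-- Image of the generator `(1 1; 0 1)`. -/
def genU : List ℕ := [3, 1, 1, 0, 4, 8, 6, 1, 1]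

/-- Image of the generator `(0 -1; 1 0)`. -/
def genW : List ℕ := [1, 3, 1, 8, 0, 4, 1, 6, 1]

/-- The `k`-th element. -/
def elt (k : ℕ) : ℕ × ℕ × ℕ × ℕ := elts.getD k (0, 0, 0, 0)

/-- The image of the `k`-th element. -/
def img (k : ℕ) : List ℕ := imgs.getD k []

/-- Multiplication of quadruples modulo 7. -/
def mul7 (g h : ℕ × ℕ × ℕ × ℕ) : ℕ × ℕ × ℕ × ℕ :=
  ((g.1 * h.1 + g.2.1 * h.2.2.1) % 7, (g.1 * h.2.1 + g.2.1 * h.2.2.2) % 7,
    (g.2.2.1 * h.1 + g.2.2.2 * h.2.2.1) % 7, (g.2.2.1 * h.2.1 + g.2.2.2 * h.2.2.2) % 7)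

/-- The position of a quadruple. -/
def pos (g : ℕ × ℕ × ℕ × ℕ) : ℕ :=
  posTbl.getD (if g.2.2.1 = 0 then (g.1 - 1) * 7 + g.2.1
    else 42 + (g.2.2.1 - 1) * 49 + g.1 * 7 + g.2.2.2) 0

/-- `C = A B` as codes. -/
def isProd (A B C : List ℕ) : Bool :=
  (List.range 3).all fun i => (List.range 3).all fun j => dot A B i j == ent C i j

/-- Unitary of determinant one. -/
def isSU (A : List ℕ) : Bool :=
  det9 A == 1 && (List.range 3).all fun i => (List.range 3).all fun j =>
    gram A i j == if i = j then 1 else 0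

/-- The two products agree. -/
def commutesWith (A B : List ℕ) : Bool :=
  (List.range 3).all fun i => (List.range 3).all fun j => dot A B i j == dot B A i j

theorem check_mulU : (List.range 336).all (fun k =>
    decide (mulU.getD k 0 < 336) && (elt (mulU.getD k 0) == mul7 (1, 1, 0, 1) (elt k)) &&
      isProd genU (img k) (img (mulU.getD k 0))) = true := by decide +kernel

theorem check_mulW : (List.range 336).all (fun k =>
    decide (mulW.getD k 0 < 336) && (elt (mulW.getD k 0) == mul7 (0, 6, 1, 0) (elt k)) &&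
      isProd genW (img k) (img (mulW.getD k 0))) = true := by decide +kernel

theorem check_parents : (List.range 336).all (fun k =>
    (k == 0) || (decide ((parents.getD k (false, 0)).2 < k) &&
      ((if (parents.getD k (false, 0)).1 then mulW else mulU).getD (parents.getD k (false, 0)).2 0 == k)))
      = true := by decide +kernel

theorem check_pos : (List.range 336).all (fun k => pos (elt k) == k) = true := by decide +kernel

theorem check_surj : (List.range 7).all (fun a => (List.range 7).all fun b => (List.range 7).all fun c =>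
    (List.range 7).all fun d => !((a * d + 6 * (b * c)) % 7 == 1) ||
      (decide (pos (a, b, c, d) < 336) && elt (pos (a, b, c, d)) == (a, b, c, d))) = true := by
  decide +kernel

theorem check_su : (List.range 336).all (fun k => isSU (img k)) = true := by decide +kernel

theorem check_base : (elt 0 == (1, 0, 0, 1)) && (img 0 == [1, 0, 0, 0, 1, 0, 0, 0, 1]) &&
    (img (mulU.getD 0 0) == genU) && (img (mulW.getD 0 0) == genW) = true := by decide +kernel

theorem check_center : (List.range 336).all (fun k =>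
    !(commutesWith (img k) genU && commutesWith (img k) genW) ||
      (elt k == (1, 0, 0, 1)) || (elt k == (6, 0, 0, 6))) = true := by decide +kernel

theorem exists_root {F : Type*} [Field F] [Fintype F] (hF : Fintype.card F = 9) :
    CharP F 3 ∧ ∃ α : F, α * α = 2 * α + 1 := by
  obtain ⟨p, hp⟩ := CharP.exists F
  haveI := hp
  obtain ⟨n, hpp, hn⟩ := FiniteField.card F p
  rw [hF] at hn
  have h3 : p = 3 := by
    have : p ∣ 3 ^ 2 := by rw [show (3 : ℕ) ^ 2 = 9 by norm_num, hn]; exact dvd_pow_self p n.2.ne'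
    exact (Nat.prime_dvd_prime_iff_eq hpp Nat.prime_three).1 (hpp.dvd_of_dvd_pow this)
  subst h3
  refine ⟨inferInstance, ?_⟩
  obtain ⟨s, hs⟩ : IsSquare (2 : F) := FiniteField.isSquare_two_iff.2 (by rw [hF]; norm_num)
  exact ⟨1 + s, by linear_combination -hs⟩

section field

variable {F : Type*} [Field F] [CharP F 3]

/-- The element coded by `x`. -/
def dec9 (α : F) (x : ℕ) : F := ((x % 3 : ℕ) : F) + ((x / 3 : ℕ) : F) * α

theorem cast_mod_three (n : ℕ) : ((n % 3 : ℕ) : F) = n := by
  conv_rhs => rw [← Nat.mod_add_div n 3]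
  rw [Nat.cast_add, Nat.cast_mul, CharP.cast_eq_zero F 3, zero_mul, add_zero]

theorem dec9_mk (α : F) (a b : ℕ) : dec9 α (a % 3 + 3 * (b % 3)) = (a : F) + (b : F) * α := by
  rw [dec9, Nat.add_mul_mod_self_left, Nat.mod_mod,
    Nat.add_mul_div_left _ _ (by norm_num : 0 < 3), Nat.div_eq_of_lt (Nat.mod_lt _ (by norm_num)),
    zero_add, cast_mod_three, cast_mod_three]

theorem dec9_add (α : F) (x y : ℕ) : dec9 α (add9 x y) = dec9 α x + dec9 α y := by
  rw [add9, dec9_mk, dec9, dec9]
  push_cast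
  ring

theorem dec9_mul {α : F} (hα : α * α = 2 * α + 1) (x y : ℕ) :
    dec9 α (mul9 x y) = dec9 α x * dec9 α y := by
  rw [mul9, dec9_mk, dec9, dec9]
  push_cast
  linear_combination (-((x / 3 : ℕ) : F) * ((y / 3 : ℕ) : F)) * hα

theorem dec9_zero (α : F) : dec9 α 0 = 0 := by simp [dec9]

theorem dec9_one (α : F) : dec9 α 1 = 1 := by simp [dec9]

theorem dec9_neg {α : F} (hα : α * α = 2 * α + 1) (x : ℕ) : dec9 α (neg9 x) = -dec9 α x := by
  rw [neg9, dec9_mul hα, show dec9 α 2 = (2 : F) by simp [dec9]]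
  have h3 : (3 : F) = 0 := by exact_mod_cast CharP.cast_eq_zero F 3
  linear_combination (dec9 α x) * h3

/-- The matrix coded by a list. -/
def toMat (α : F) (A : List ℕ) : Matrix (Fin 3) (Fin 3) F := fun i j => dec9 α (ent A i j)

theorem toMat_of_isProd {α : F} (hα : α * α = 2 * α + 1) {A B C : List ℕ} (h : isProd A B C = true) :
    toMat α A * toMat α B = toMat α C := by
  simp only [isProd, List.all_eq_true, List.mem_range, beq_iff_eq] at h
  ext i j
  show (toMat α A * toMat α B) i j = dec9 α (ent C i j)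
  rw [← h i i.2 j j.2, dot, dec9_add, dec9_add, dec9_mul hα, dec9_mul hα, dec9_mul hα,
    Matrix.mul_apply, Fin.sum_univ_three]
  rfl

theorem commutesWith_of {α : F} (hα : α * α = 2 * α + 1) (hinj : ∀ x y, x < 9 → y < 9 →
    dec9 α x = dec9 α y → x = y) {A B : List ℕ}
    (h : toMat α A * toMat α B = toMat α B * toMat α A) : commutesWith A B = true := by
  simp only [commutesWith, List.all_eq_true, List.mem_range, beq_iff_eq]
  intro i hi j hj
  refine hinj _ _ (by unfold dot add9; omega) (by unfold dot add9; omega) ?_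
  have := congrFun (congrFun h ⟨i, hi⟩) ⟨j, hj⟩
  simp only [dot, dec9_add, dec9_mul hα]
  simpa [Matrix.mul_apply, Fin.sum_univ_three, toMat] using this

theorem dec9_injective {α : F} (hα : α * α = 2 * α + 1) (x y : ℕ) (hx : x < 9) (hy : y < 9)
    (h : dec9 α x = dec9 α y) : x = y := by
  have hc : ∀ a b : ℕ, a < 3 → b < 3 → (a : F) = b → a = b := fun a b ha hb hab => by
    have := (CharP.natCast_eq_natCast F 3).1 hab
    rwa [Nat.ModEq, Nat.mod_eq_of_lt ha, Nat.mod_eq_of_lt hb] at this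
  have hb : x / 3 = y / 3 := by
    by_contra hne
    -- otherwise `α` lies in the prime field
    have h1 : ((x / 3 : ℕ) : F) - ((y / 3 : ℕ) : F) ≠ 0 := fun h0 =>
      hne (hc _ _ (by omega) (by omega) (sub_eq_zero.1 h0))
    have h2 : α = (((y % 3 : ℕ) : F) - ((x % 3 : ℕ) : F)) / (((x / 3 : ℕ) : F) - ((y / 3 : ℕ) : F)) := by
      rw [eq_div_iff h1]
      simp only [dec9] at h
      linear_combination h
    have h3 : α ^ 3 = α := by
      haveI : Fact (Nat.Prime 3) := ⟨Nat.prime_three⟩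
      rw [h2, div_pow, sub_pow_char, sub_pow_char, ← frobenius_def, ← frobenius_def, ← frobenius_def,
        ← frobenius_def, map_natCast, map_natCast, map_natCast, map_natCast]
    have h4 : (3 : F) = 0 := by exact_mod_cast CharP.cast_eq_zero F 3
    -- `α³ = 5α + 2`
    have h5 : α + 2 = 0 := by linear_combination h3 - (α + 2) * hα - α * h4
    have h6 : (1 : F) = 0 := by linear_combination hα - (α - 4) * h5 - 2 * h4
    exact one_ne_zero h6
  simp only [dec9, hb, add_left_inj] at h
  have := hc _ _ (by omega) (by omega) h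
  omega

end field

end Cfsg.Agent.H61.PSUThree
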