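import Cfsg.Agent.H61.PSUThree

/-!
The homomorphism from `SL(2,7)` to `PSU(3,3)`; its kernel is the centre.
-/

set_option autoImplicit false

namespace Cfsg.Agent.H61.PSUThree

open Matrix

/-- Entries of an element of `SL(2,7)`. -/
def quad (g : Matrix.SpecialLinearGroup (Fin 2) (ZMod 7)) : ℕ × ℕ × ℕ × ℕ :=
  ((g 0 0).val, (g 0 1).val, (g 1 0).val, (g 1 1).val)

theorem quad_mul (g h : Matrix.SpecialLinearGroup (Fin 2) (ZMod 7)) : quad (g * h) = mul7 (quad g) (quad h) := by
  simp only [quad, mul7, Matrix.SpecialLinearGroup.coe_mul, Matrix.mul_apply, Fin.sum_univ_two,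
    ZMod.val_add, ZMod.val_mul]
  simp only [← Nat.add_mod]

theorem quad_injective : Function.Injective quad := by
  intro g h hgh
  simp only [quad, Prod.mk.injEq] at hgh
  ext i j
  fin_cases i <;> fin_cases j <;> apply ZMod.val_injective
  exacts [hgh.1, hgh.2.1, hgh.2.2.1, hgh.2.2.2]

theorem pos_quad (g : Matrix.SpecialLinearGroup (Fin 2) (ZMod 7)) :
    pos (quad g) < 336 ∧ elt (pos (quad g)) = quad g := by
  have h := check_surj
  simp only [List.all_eq_true, List.mem_range, Bool.or_eq_true, Bool.not_eq_true', beq_eq_false_iff_ne,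
    Bool.and_eq_true, decide_eq_true_eq, beq_iff_eq] at h
  refine (h _ (g 0 0).val_lt _ (g 0 1).val_lt _ (g 1 0).val_lt _ (g 1 1).val_lt).resolve_left ?_
  refine not_not_intro ?_
  have hd := g.prop
  rw [det_fin_two] at hd
  have h2 : (((g 0 0).val * (g 1 1).val + 6 * ((g 0 1).val * (g 1 0).val) : ℕ) : ZMod 7) = ((1 : ℕ) : ZMod 7) := by
    push_cast
    simp only [ZMod.natCast_val, ZMod.cast_id', id_eq]
    rw [show (6 : ZMod 7) = -1 by decide]
    linear_combination hd
  exact (ZMod.natCast_eq_natCast_iff' _ _ _).1 h2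

theorem check_mulU_inj : (List.range 336).all (fun k => (List.range 336).all fun l =>
    !(mulU.getD k 0 == mulU.getD l 0) || (k == l)) = true := by decide +kernel

theorem check_mulW_inj : (List.range 336).all (fun k => (List.range 336).all fun l =>
    !(mulW.getD k 0 == mulW.getD l 0) || (k == l)) = true := by decide +kernel

theorem neg_one_img : img (pos (6, 0, 0, 6)) = [1, 0, 0, 0, 1, 0, 0, 0, 1] := by decide +kernel

variable {F : Type*} [Field F] [CharP F 3]

theorem su_data {α : F} (hα : α * α = 2 * α + 1) {A : List ℕ} (h : isSU A = true) :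
    (toMat α A).det = 1 ∧ ∀ u v : Fin 3 → F,
      Cfsg.hermForm 3 F 3 (toMat α A *ᵥ u) (toMat α A *ᵥ v) = Cfsg.hermForm 3 F 3 u v := by
  simp only [isSU, Bool.and_eq_true, beq_iff_eq, List.all_eq_true, List.mem_range] at h
  refine ⟨?_, fun u v => ?_⟩
  · have h1 := congrArg (dec9 α) h.1
    simp only [det9, dec9_add, dec9_mul hα, dec9_neg hα, dec9_one] at h1
    rw [det_fin_three]
    simp only [toMat, Fin.val_zero, Fin.val_one, Fin.val_two]
    linear_combination h1
  · have hg : ∀ i j : Fin 3, (∑ k : Fin 3, toMat α A k i * toMat α A k j ^ 3) = if i = j then 1 else 0 := by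
      intro i j
      have h1 := congrArg (dec9 α) (h.2 i i.2 j j.2)
      simp only [gram, cube9, dec9_add, dec9_mul hα] at h1
      rw [Fin.sum_univ_three]
      simp only [toMat, Fin.val_zero, Fin.val_one, Fin.val_two, Fin.ext_iff]
      split_ifs at h1 ⊢ with hij
      · rw [dec9_one] at h1; linear_combination h1
      · rw [dec9_zero] at h1; linear_combination h1
    haveI : Fact (Nat.Prime 3) := ⟨Nat.prime_three⟩
    have hcube : ∀ a b c : F, (a + b + c) ^ 3 = a ^ 3 + b ^ 3 + c ^ 3 := fun a b c => by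
      rw [add_pow_char, add_pow_char]
    simp only [Cfsg.hermForm, mulVec, dotProduct, Fin.sum_univ_three, hcube, mul_pow]
    have g00 := hg 0 0; have g01 := hg 0 1; have g02 := hg 0 2
    have g10 := hg 1 0; have g11 := hg 1 1; have g12 := hg 1 2
    have g20 := hg 2 0; have g21 := hg 2 1; have g22 := hg 2 2
    simp [Fin.sum_univ_three] at g00 g01 g02 g10 g11 g12 g20 g21 g22
    linear_combination (u 0 * v 0 ^ 3) * g00 + (u 0 * v 1 ^ 3) * g01 + (u 0 * v 2 ^ 3) * g02 +
      (u 1 * v 0 ^ 3) * g10 + (u 1 * v 1 ^ 3) * g11 + (u 1 * v 2 ^ 3) * g12 +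
      (u 2 * v 0 ^ 3) * g20 + (u 2 * v 1 ^ 3) * g21 + (u 2 * v 2 ^ 3) * g22

/-- The image of an element in `SU(3,3)`. -/
noncomputable def image (α : F) (hα : α * α = 2 * α + 1) (k : ℕ) (hk : k < 336) : Cfsg.SU 3 F 3 :=
  have h := su_data hα (List.all_eq_true.1 check_su k (List.mem_range.2 hk))
  ⟨⟨toMat α (img k), h.1⟩, h.2⟩

theorem exists_hom {α : F} (hα : α * α = 2 * α + 1) :
    ∃ f : Matrix.SpecialLinearGroup (Fin 2) (ZMod 7) →* Cfsg.PSU 3 F 3,
      f.ker = Subgroup.center (Matrix.SpecialLinearGroup (Fin 2) (ZMod 7)) := by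
  let f : Matrix.SpecialLinearGroup (Fin 2) (ZMod 7) → Cfsg.SU 3 F 3 := fun g =>
    image α hα (pos (quad g)) (pos_quad g).1
  let u₁ : Matrix.SpecialLinearGroup (Fin 2) (ZMod 7) := ⟨!![1, 1; 0, 1], by simp [det_fin_two]⟩
  let w₁ : Matrix.SpecialLinearGroup (Fin 2) (ZMod 7) := ⟨!![0, -1; 1, 0], by simp [det_fin_two]⟩
  let IU : Cfsg.SU 3 F 3 := f u₁
  let IW : Cfsg.SU 3 F 3 := f w₁
  have hext : ∀ A B : Cfsg.SU 3 F 3, (((A : Matrix.SpecialLinearGroup (Fin 3) F) : Matrix (Fin 3) (Fin 3) F) =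
      ((B : Matrix.SpecialLinearGroup (Fin 3) F) : Matrix (Fin 3) (Fin 3) F)) → A = B := fun A B h =>
    Subtype.ext (Subtype.ext h)
  have hfval : ∀ g, (((f g) : Matrix.SpecialLinearGroup (Fin 3) F) : Matrix (Fin 3) (Fin 3) F) =
      toMat α (img (pos (quad g))) := fun g => rfl
  have hq1 : quad u₁ = (1, 1, 0, 1) := by rfl
  have hq2 : quad w₁ = (0, 6, 1, 0) := by rfl
  have hposk : ∀ k < 336, pos (elt k) = k := fun k hk => by
    simpa using List.all_eq_true.1 check_pos k (List.mem_range.2 hk)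
  have hb := check_base
  simp only [Bool.and_eq_true, beq_iff_eq, decide_eq_true_eq] at hb
  obtain ⟨⟨⟨hb0, hb1⟩, hb2⟩, hb3⟩ := hb
  have hone : quad 1 = (1, 0, 0, 1) := by rfl
  have hUk : ∀ k < 336, mulU.getD k 0 < 336 ∧ elt (mulU.getD k 0) = mul7 (1, 1, 0, 1) (elt k) ∧
      isProd genU (img k) (img (mulU.getD k 0)) = true := fun k hk => by
    have := List.all_eq_true.1 check_mulU k (List.mem_range.2 hk)
    simp only [Bool.and_eq_true, decide_eq_true_eq, beq_iff_eq] at this
    exact ⟨this.1.1, this.1.2, this.2⟩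
  have hWk : ∀ k < 336, mulW.getD k 0 < 336 ∧ elt (mulW.getD k 0) = mul7 (0, 6, 1, 0) (elt k) ∧
      isProd genW (img k) (img (mulW.getD k 0)) = true := fun k hk => by
    have := List.all_eq_true.1 check_mulW k (List.mem_range.2 hk)
    simp only [Bool.and_eq_true, decide_eq_true_eq, beq_iff_eq] at this
    exact ⟨this.1.1, this.1.2, this.2⟩
  have hIU : (((f u₁) : Matrix.SpecialLinearGroup (Fin 3) F) : Matrix (Fin 3) (Fin 3) F) = toMat α genU := by
    obtain ⟨h1, h2, -⟩ := hUk 0 (by norm_num)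
    rw [hfval, hq1, show ((1, 1, 0, 1) : ℕ × ℕ × ℕ × ℕ) = elt (mulU.getD 0 0) by
      rw [h2, hb0]; rfl, hposk _ h1, hb2]
  have hIW : (((f w₁) : Matrix.SpecialLinearGroup (Fin 3) F) : Matrix (Fin 3) (Fin 3) F) = toMat α genW := by
    obtain ⟨h1, h2, -⟩ := hWk 0 (by norm_num)
    rw [hfval, hq2, show ((0, 6, 1, 0) : ℕ × ℕ × ℕ × ℕ) = elt (mulW.getD 0 0) by
      rw [h2, hb0]; rfl, hposk _ h1, hb3]
  have hU : ∀ g, f (u₁ * g) = f u₁ * f g := fun g => by
    obtain ⟨h1, h2⟩ := pos_quad g
    obtain ⟨h3, h4, h5⟩ := hUk _ h1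
    refine hext _ _ ?_
    rw [hfval, quad_mul, hq1, ← h2, ← h4, hposk _ h3, Subgroup.coe_mul, Matrix.SpecialLinearGroup.coe_mul,
      hIU, hfval, toMat_of_isProd hα h5]
  have hW : ∀ g, f (w₁ * g) = f w₁ * f g := fun g => by
    obtain ⟨h1, h2⟩ := pos_quad g
    obtain ⟨h3, h4, h5⟩ := hWk _ h1
    refine hext _ _ ?_
    rw [hfval, quad_mul, hq2, ← h2, ← h4, hposk _ h3, Subgroup.coe_mul, Matrix.SpecialLinearGroup.coe_mul,
      hIW, hfval, toMat_of_isProd hα h5]
  have hf1 : f 1 = 1 := by
    refine hext _ _ ?_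
    rw [hfval, hone, ← hb0, hposk 0 (by norm_num), hb1, OneMemClass.coe_one, Matrix.SpecialLinearGroup.coe_one]
    ext i j
    fin_cases i <;> fin_cases j <;> simp [toMat, ent, dec9]
  have hmul : ∀ k < 336, ∀ g, pos (quad g) = k → ∀ h, f (g * h) = f g * f h := by
    intro k
    induction k using Nat.strong_induction_on with
    | _ k ih =>
      intro hk g hg h
      have hgk : quad g = elt k := by rw [← hg, (pos_quad g).2]
      have hp := List.all_eq_true.1 check_parents k (List.mem_range.2 hk)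
      simp only [Bool.or_eq_true, Bool.and_eq_true, decide_eq_true_eq, beq_iff_eq] at hp
      rcases hp with rfl | ⟨hlt, hpar⟩
      · obtain rfl : g = 1 := quad_injective (by rw [hgk, hb0, hone])
        rw [hf1, one_mul, one_mul]
      set j := (parents.getD k (false, 0)).2
      have hj : j < 336 := lt_trans hlt hk
      obtain ⟨g', hg'⟩ : ∃ g', quad g' = elt j := by
        cases hb : (parents.getD k (false, 0)).1 <;> rw [hb] at hpar
        · refine ⟨u₁⁻¹ * g, ?_⟩
          have h1 := quad_mul u₁ (u₁⁻¹ * g)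
          rw [mul_inv_cancel_left, hgk, hq1, ← hpar, if_neg (by decide), (hUk j hj).2.1] at h1
          obtain ⟨i, hi, he⟩ : ∃ i < 336, elt i = quad (u₁⁻¹ * g) := ⟨_, pos_quad _⟩
          rw [← he] at h1 ⊢
          have h2 := congrArg pos h1
          rw [← (hUk j hj).2.1, ← (hUk i hi).2.1, hposk _ (hUk j hj).1, hposk _ (hUk i hi).1] at h2
          have key : ∀ a < 336, ∀ b < 336, mulU.getD a 0 = mulU.getD b 0 → a = b := fun a ha b hb hab => by
            have h0 := List.all_eq_true.1 (List.all_eq_true.1 check_mulU_inj a (List.mem_range.2 ha)) b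
              (List.mem_range.2 hb)
            simp only [hab, beq_self_eq_true, Bool.not_true, Bool.false_or, beq_iff_eq] at h0
            exact h0
          rw [key j hj i hi h2]
        · refine ⟨w₁⁻¹ * g, ?_⟩
          have h1 := quad_mul w₁ (w₁⁻¹ * g)
          rw [mul_inv_cancel_left, hgk, hq2, ← hpar, if_pos rfl, (hWk j hj).2.1] at h1
          obtain ⟨i, hi, he⟩ : ∃ i < 336, elt i = quad (w₁⁻¹ * g) := ⟨_, pos_quad _⟩
          rw [← he] at h1 ⊢
          have h2 := congrArg pos h1
          rw [← (hWk j hj).2.1, ← (hWk i hi).2.1, hposk _ (hWk j hj).1, hposk _ (hWk i hi).1] at h2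
          have key : ∀ a < 336, ∀ b < 336, mulW.getD a 0 = mulW.getD b 0 → a = b := fun a ha b hb hab => by
            have h0 := List.all_eq_true.1 (List.all_eq_true.1 check_mulW_inj a (List.mem_range.2 ha)) b
              (List.mem_range.2 hb)
            simp only [hab, beq_self_eq_true, Bool.not_true, Bool.false_or, beq_iff_eq] at h0
            exact h0
          rw [key j hj i hi h2]
      have hpj : pos (quad g') = j := by rw [hg', hposk j hj]
      have hih := ih j hlt hj g' hpj h
      cases hb : (parents.getD k (false, 0)).1 <;> rw [hb] at hpar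
      · obtain rfl : g = u₁ * g' := quad_injective (by
          rw [quad_mul, hq1, hg', ← (hUk j hj).2.1, hgk, ← hpar]; rfl)
        rw [mul_assoc, hU, hU, hih, mul_assoc]
      · obtain rfl : g = w₁ * g' := quad_injective (by
          rw [quad_mul, hq2, hg', ← (hWk j hj).2.1, hgk, ← hpar]; rfl)
        rw [mul_assoc, hW, hW, hih, mul_assoc]
  let φ : Matrix.SpecialLinearGroup (Fin 2) (ZMod 7) →* Cfsg.SU 3 F 3 :=
    MonoidHom.mk' f fun g h => hmul _ (pos_quad g).1 g rfl h
  refine ⟨(QuotientGroup.mk' (Subgroup.center (Cfsg.SU 3 F 3))).comp φ, le_antisymm ?_ ?_⟩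
  · intro g hg
    rw [MonoidHom.mem_ker, MonoidHom.comp_apply, QuotientGroup.mk'_apply, QuotientGroup.eq_one_iff,
      Subgroup.mem_center_iff] at hg
    have hU' : toMat α (img (pos (quad g))) * toMat α genU = toMat α genU * toMat α (img (pos (quad g))) := by
      rw [← hfval, ← hIU, ← Matrix.SpecialLinearGroup.coe_mul, ← Matrix.SpecialLinearGroup.coe_mul, ← Subgroup.coe_mul,
        ← Subgroup.coe_mul]
      exact congrArg (fun A : Cfsg.SU 3 F 3 => ((A : Matrix.SpecialLinearGroup (Fin 3) F) : Matrix (Fin 3) (Fin 3) F))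
        (hg (φ u₁)).symm
    have hW' : toMat α (img (pos (quad g))) * toMat α genW = toMat α genW * toMat α (img (pos (quad g))) := by
      rw [← hfval, ← hIW, ← Matrix.SpecialLinearGroup.coe_mul, ← Matrix.SpecialLinearGroup.coe_mul, ← Subgroup.coe_mul,
        ← Subgroup.coe_mul]
      exact congrArg (fun A : Cfsg.SU 3 F 3 => ((A : Matrix.SpecialLinearGroup (Fin 3) F) : Matrix (Fin 3) (Fin 3) F))
        (hg (φ w₁)).symm
    have hc := List.all_eq_true.1 check_center _ (List.mem_range.2 (pos_quad g).1)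
    simp only [commutesWith_of hα (dec9_injective hα) hU', commutesWith_of hα (dec9_injective hα) hW',
      Bool.and_self, Bool.not_true, Bool.false_or, Bool.or_eq_true, beq_iff_eq, (pos_quad g).2] at hc
    rw [Matrix.SpecialLinearGroup.mem_center_iff]
    rcases hc with hc | hc
    · obtain rfl : g = 1 := quad_injective (by rw [hc, hone])
      exact ⟨1, by simp, by simp⟩
    · obtain rfl : g = -1 := quad_injective (by rw [hc]; rfl)
      exact ⟨-1, by simp, by ext i j; fin_cases i <;> fin_cases j <;> rfl⟩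
  · intro g hg
    rw [Matrix.SpecialLinearGroup.mem_center_iff] at hg
    obtain ⟨r, hr, hg⟩ := hg
    rw [MonoidHom.mem_ker, MonoidHom.comp_apply, QuotientGroup.mk'_apply, QuotientGroup.eq_one_iff]
    haveI : Fact (Nat.Prime 7) := ⟨by norm_num⟩
    have hr' : r = 1 ∨ r = -1 := by
      rw [Fintype.card_fin] at hr
      exact sq_eq_one_iff.1 hr
    rcases hr' with rfl | rfl
    · obtain rfl : g = 1 := Subtype.ext (by rw [← hg]; simp)
      rw [map_one]; exact one_mem _
    · obtain rfl : g = -1 := Subtype.ext (by rw [← hg]; ext i j; fin_cases i <;> fin_cases j <;> rfl)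
      have hk : img (pos (quad (-1 : Matrix.SpecialLinearGroup (Fin 2) (ZMod 7)))) = [1, 0, 0, 0, 1, 0, 0, 0, 1] :=
        neg_one_img
      rw [show φ (-1) = 1 from hext _ _ (by
        show toMat α (img (pos (quad (-1)))) = _
        rw [hk, OneMemClass.coe_one, Matrix.SpecialLinearGroup.coe_one]
        ext i j
        fin_cases i <;> fin_cases j <;> simp [toMat, ent, dec9])]
      exact one_mem _

end Cfsg.Agent.H61.PSUThree
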