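import Cfsg.Agent.H61.PairLocal

/-! Transfer and strong fusion from local control by a functor and a central functor. -/

set_option autoImplicit false

namespace Cfsg.Agent.H61.PairLocal

open Cfsg.Agent.H23 (IsSylowIn)
open Cfsg.Agent.H61

variable {G : Type*} [Group G] [Finite G] {p : ℕ} [Fact p.Prime]
  {W V : Subgroup G → Subgroup G}

/-- Move the local data at `H` to the fully normalized conjugate `U`. -/
theorem exists_move (S : Sylow p G) {U H Q : Subgroup G} {k : G}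
    (hU : Full p (S : Subgroup G) U) (hk : U = cj k H)
    (hQ : Q ≤ Subgroup.normalizer (H : Set G)) (hQp : IsPGroup p Q)
    (hQi : ¬ p ∣ Q.relIndex (Subgroup.normalizer (H : Set G))) :
    ∃ z : G, cj z (Subgroup.normalizer (H : Set G)) = Subgroup.normalizer (U : Set G) ∧
      cj z Q = (S : Subgroup G) ⊓ Subgroup.normalizer (U : Set G) := by
  have h1 := sylowIn_cj (⟨hQ, hQp, hQi⟩ : IsSylowIn p Q _) k
  rw [cj_normalizer, ← hk] at h1
  obtain ⟨m, hm, e⟩ := exists_cj_eq h1 hU.2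
  rw [cj_cj] at e
  refine ⟨m * k, ?_, e⟩
  rw [← cj_cj, cj_normalizer k, ← hk, cj_eq_self (Subgroup.le_normalizer hm)]

/-- The centre of `S` is central in `N_S(U)`. -/
theorem centralizer_functor_le (S : Sylow p G)
    (hVmono : ∀ H K : Subgroup G, IsPGroup p ↥H → IsPGroup p ↥K → H ≠ ⊥ → K ≠ ⊥ →
      zC H ≤ zC K → V H ≤ V K)
    {U : Subgroup G} (hU0 : U ≠ ⊥) (hU : U ≤ (S : Subgroup G)) :
    Subgroup.centralizer ((V ((S : Subgroup G) ⊓ Subgroup.normalizer (U : Set G)) : Subgroup G) : Set G) ≤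
      Subgroup.centralizer ((V (S : Subgroup G) : Subgroup G) : Set G) := by
  refine Subgroup.centralizer_le ?_
  set P := (S : Subgroup G) ⊓ Subgroup.normalizer (U : Set G)
  have hUP : U ≤ P := le_inf hU Subgroup.le_normalizer
  refine hVmono _ _ S.2 (S.2.to_le inf_le_left) (fun e => hU0 (le_bot_iff.1 (e ▸ hU)))
    (fun e => hU0 (le_bot_iff.1 (e ▸ hUP))) (fun z hz => ⟨⟨hz.1, ?_⟩, ?_⟩)
  · exact mem_normalizer_of_cj (cj_eq_of_le fun y hy => by
      obtain ⟨u, hu, rfl⟩ := hy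
      simp only [MulEquiv.toMonoidHom_eq_coe, MonoidHom.coe_coe, MulAut.conj_apply]
      rw [← Subgroup.mem_centralizer_iff.1 hz.2 u (hU hu), mul_inv_cancel_right]
      exact hu)
  · exact Subgroup.centralizer_le (show (P : Set G) ⊆ (S : Subgroup G) from fun y hy => hy.1) hz.2

/-- Conjugation carries centralizers to centralizers. -/
theorem conj_mem_centralizer {z x : G} {A : Subgroup G}
    (hx : x ∈ Subgroup.centralizer (A : Set G)) :
    z * x * z⁻¹ ∈ Subgroup.centralizer ((cj z A : Subgroup G) : Set G) := by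
  refine Subgroup.mem_centralizer_iff.2 ?_
  rintro _ ⟨a, ha, rfl⟩
  simp only [MulEquiv.toMonoidHom_eq_coe, MonoidHom.coe_coe, MulAut.conj_apply]
  calc z * a * z⁻¹ * (z * x * z⁻¹) = z * (a * x) * z⁻¹ := by group
    _ = z * x * z⁻¹ * (z * a * z⁻¹) := by rw [Subgroup.mem_centralizer_iff.1 hx a ha]; group

/-- Strong fusion by moves in `N(W S)` and `C(V S)`. -/
def PairFus (W V : Subgroup G → Subgroup G) (S B : Subgroup G) (y : G) : Prop :=
  ∃ l : List G,
    (∀ b ∈ l, b ∈ Subgroup.normalizer ((W S : Subgroup G) : Set G) ∨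
      b ∈ Subgroup.centralizer ((V S : Subgroup G) : Set G)) ∧
    (∀ k, cj ((l.take k).prod)⁻¹ B ≤ S) ∧
    ∀ a ∈ B, l.prod⁻¹ * a * l.prod = y * a * y⁻¹

omit [Finite G] in
theorem PairFus.cj_eq {S B : Subgroup G} {y : G} (h : PairFus W V S B y) :
    ∃ l : List G, cj l.prod⁻¹ B = cj y B ∧
    (∀ b ∈ l, b ∈ Subgroup.normalizer ((W S : Subgroup G) : Set G) ∨
      b ∈ Subgroup.centralizer ((V S : Subgroup G) : Set G)) ∧
    (∀ k, cj ((l.take k).prod)⁻¹ B ≤ S) ∧
    ∀ a ∈ B, l.prod⁻¹ * a * l.prod = y * a * y⁻¹ := by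
  obtain ⟨l, h1, h2, h3⟩ := h
  refine ⟨l, ?_, h1, h2, h3⟩
  ext x
  simp only [cj, Subgroup.mem_map, MulEquiv.toMonoidHom_eq_coe, MonoidHom.coe_coe,
    MulAut.conj_apply, inv_inv]
  exact ⟨fun ⟨a, ha, e⟩ => ⟨a, ha, by rw [← h3 a ha, e]⟩,
    fun ⟨a, ha, e⟩ => ⟨a, ha, by rw [h3 a ha, e]⟩⟩

omit [Finite G] in
theorem pairFus_mul {S A : Subgroup G} {g h : G} (h1 : PairFus W V S A g)
    (h2 : PairFus W V S (cj g A) h) : PairFus W V S A (h * g) := by
  obtain ⟨l, el, l1, l2, l3⟩ := h1.cj_eq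
  obtain ⟨l', m1, m2, m3⟩ := h2
  refine ⟨l ++ l', fun b hb => (List.mem_append.1 hb).elim (l1 b) (m1 b), fun k => ?_, fun a ha => ?_⟩
  · rw [List.take_append, List.prod_append]
    rcases le_total k l.length with hk | hk
    · rw [Nat.sub_eq_zero_of_le hk, List.take_zero, List.prod_nil, mul_one]
      exact l2 k
    · rw [List.take_of_length_le hk, _root_.mul_inv_rev, ← cj_cj, el]
      exact m2 _
  · calc (l ++ l').prod⁻¹ * a * (l ++ l').prod = l'.prod⁻¹ * (l.prod⁻¹ * a * l.prod) * l'.prod := by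
          rw [List.prod_append]; group
      _ = h * g * a * (h * g)⁻¹ := by rw [l3 a ha, m3 _ (conj_mem_cj ha)]; group

omit [Finite G] in
theorem pairFus_single {S B : Subgroup G} {x : G}
    (hx : x ∈ Subgroup.normalizer ((W S : Subgroup G) : Set G) ∨
      x ∈ Subgroup.centralizer ((V S : Subgroup G) : Set G))
    (hB : B ≤ S) (hxB : cj x B ≤ S) : PairFus W V S B x := by
  refine ⟨[x⁻¹], ?_, fun k => ?_, fun a _ => by simp⟩
  · intro b hb
    rw [List.mem_singleton] at hb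
    subst hb
    exact hx.imp inv_mem inv_mem
  · rcases k with _ | k
    · simpa using hB
    · simpa using hxB

omit [Finite G] in
theorem pairFus_triv {S B : Subgroup G} {x : G} (hB : B ≤ S) (hx : ∀ a ∈ B, x * a * x⁻¹ = a) :
    PairFus W V S B x :=
  ⟨[], by simp, fun k => by simpa using hB, fun a ha => by simp [hx a ha]⟩

/-- Local strong fusion control by the pair gives global control. -/
theorem pairFus_all (S : Sylow p G) (hW : Cfsg.IsConjugacyFunctor p W)
    (hV : Cfsg.IsConjugacyFunctor p V)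
    (hWZ : ∀ H : Subgroup G, IsPGroup p ↥H → zC H ≤ W H)
    (hVmono : ∀ H K : Subgroup G, IsPGroup p ↥H → IsPGroup p ↥K → H ≠ ⊥ → K ≠ ⊥ →
      zC H ≤ zC K → V H ≤ V K)
    (hloc : ∀ H : Subgroup G, zC (S : Subgroup G) ≤ H → H ≤ (S : Subgroup G) →
      ∃ Q : Subgroup G, Q ≤ Subgroup.normalizer ((H : Subgroup G) : Set G) ∧ IsPGroup p ↥Q ∧
        ¬ p ∣ (Q).relIndex (Subgroup.normalizer ((H : Subgroup G) : Set G)) ∧
        ∀ (X : Set G) (a : G), X ⊆ Q → a ∈ Subgroup.normalizer ((H : Subgroup G) : Set G) →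
          (fun x => a⁻¹ * x * a) '' X ⊆ Q →
          ∃ c ∈ Subgroup.normalizer ((H : Subgroup G) : Set G) ⊓ Subgroup.centralizer X,
          ∃ (n : ℕ) (b : Fin n → G),
            (∀ i, b i ∈ Subgroup.normalizer ((H : Subgroup G) : Set G) ⊓
                Subgroup.normalizer ((W Q : Subgroup G) : Set G) ∨
              b i ∈ Subgroup.normalizer ((H : Subgroup G) : Set G) ⊓
                Subgroup.centralizer ((V Q : Subgroup G) : Set G)) ∧
            a = c * (List.ofFn b).prod ∧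
            ∀ k : ℕ, k ≤ n → (fun x => (((List.ofFn b).take k).prod)⁻¹ * x *
              ((List.ofFn b).take k).prod) '' ((fun x => c⁻¹ * x * c) '' X) ⊆ Q)
    {A : Subgroup G} {g : G} (hA : A ≤ (S : Subgroup G)) (hg : cj g A ≤ (S : Subgroup G)) :
    PairFus W V (S : Subgroup G) A g := by
  refine pair_local_global S W hW hWZ (PairFus W V (S : Subgroup G))
    (fun B C y hCB ⟨l, h1, h2, h3⟩ => ⟨l, h1, fun k => (cj_mono _ hCB).trans (h2 k),
      fun a ha => h3 a (hCB ha)⟩)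
    (fun _ _ _ => pairFus_mul) (fun _ _ => pairFus_triv)
    (fun x hx B hB hxB => pairFus_single (Or.inl hx) hB hxB) ?_ hA hg
  rintro U hU0 hU ⟨k, H, hZH, hHS, hk⟩ hstep g hg A hA hgA
  obtain ⟨Q, hQN, hQp, hQi, hQ⟩ := hloc H hZH hHS
  obtain ⟨z, hzN, hzQ⟩ := exists_move S hU hk hQN hQp hQi
  set P := (S : Subgroup G) ⊓ Subgroup.normalizer (U : Set G) with hP
  have hmemQ : ∀ {y : G}, y ∈ P → z⁻¹ * y * z ∈ Q := fun hy => by rwa [← mem_cj, hzQ]
  have hgH : z⁻¹ * g * z ∈ Subgroup.normalizer (H : Set G) := by rwa [← mem_cj, hzN]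
  obtain ⟨c, hc, n, b, hb, hprod, hstay⟩ := hQ ((fun y => z⁻¹ * y * z) '' (A : Set G))
    (z⁻¹ * g * z)⁻¹ (by rintro _ ⟨y, hy, rfl⟩; exact hmemQ (hA hy)) (inv_mem hgH) (by
      rintro _ ⟨_, ⟨y, hy, rfl⟩, rfl⟩
      have := hmemQ (hgA (conj_mem_cj (g := g) hy))
      simpa [mul_assoc] using this)
  have hcA : ∀ y ∈ A, c⁻¹ * (z⁻¹ * y * z) * c = z⁻¹ * y * z := fun y hy => by
    have h1 := Subgroup.mem_centralizer_iff.1 hc.2 _ ⟨y, hy, rfl⟩
    calc c⁻¹ * (z⁻¹ * y * z) * c = c⁻¹ * ((z⁻¹ * y * z) * c) := by group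
      _ = z⁻¹ * y * z := by rw [h1, inv_mul_cancel_left]
  have hWe : W P = cj z (W Q) := by rw [← hzQ]; exact (hW Q hQp).2.2 z
  have hVe : V P = cj z (V Q) := by rw [← hzQ]; exact (hV Q hQp).2.2 z
  let y : ℕ → G := fun i => z * (((List.ofFn b).take i).prod)⁻¹ * z⁻¹
  have hyP : ∀ i, i ≤ n → cj (y i) A ≤ P := by
    rintro i hi _ ⟨a, ha, rfl⟩
    have h1 := hstay i hi ⟨_, ⟨_, ⟨a, ha, rfl⟩, rfl⟩, rfl⟩
    simp only [hcA a ha, SetLike.mem_coe] at h1
    rw [← hzQ, mem_cj]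
    simpa [y, mul_assoc] using h1
  have key : ∀ i, i ≤ n → PairFus W V (S : Subgroup G) A (y i) := by
    intro i
    induction i with
    | zero => intro _; exact pairFus_triv (hA.trans inf_le_left) (by simp [y])
    | succ i ih =>
      intro hi
      have e : y (i + 1) = (z * (b ⟨i, hi⟩)⁻¹ * z⁻¹) * y i := by
        simp only [y]
        rw [List.prod_take_succ _ i (by simpa using hi), List.getElem_ofFn]
        group
      rw [e]
      refine pairFus_mul (ih (by omega)) ?_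
      have h1 : cj (y i) A ≤ P := hyP i (by omega)
      have h2 : cj (z * (b ⟨i, hi⟩)⁻¹ * z⁻¹) (cj (y i) A) ≤ P := by
        rw [cj_cj, ← e]; exact hyP _ hi
      rcases hb ⟨i, hi⟩ with hbN | hbC
      · refine hstep _ ⟨?_, ?_⟩ _ h1 h2
        · rw [← hzN]; exact conj_mem_cj (inv_mem hbN.1)
        · rw [hWe, ← cj_normalizer]; exact conj_mem_cj (inv_mem hbN.2)
      · refine pairFus_single (Or.inr (centralizer_functor_le S hVmono hU0 hU.1 ?_))
          (h1.trans inf_le_left) (h2.trans inf_le_left)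
        rw [← hP, hVe]; exact conj_mem_centralizer (inv_mem hbC.2)
  obtain ⟨l, l1, l2, l3⟩ := key n le_rfl
  refine ⟨l, l1, l2, fun a ha => ?_⟩
  rw [l3 a ha]
  have e : (List.ofFn b).take n = List.ofFn b := List.take_of_length_le (by simp)
  simp only [y, e]
  have hz : g = z * ((List.ofFn b).prod⁻¹ * c⁻¹) * z⁻¹ := by
    rw [← _root_.mul_inv_rev, ← hprod]; group
  rw [hz]
  have := hcA a ha
  calc z * (List.ofFn b).prod⁻¹ * z⁻¹ * a * (z * (List.ofFn b).prod⁻¹ * z⁻¹)⁻¹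
      = z * (List.ofFn b).prod⁻¹ * (z⁻¹ * a * z) * (List.ofFn b).prod * z⁻¹ := by group
    _ = z * (List.ofFn b).prod⁻¹ * (c⁻¹ * (z⁻¹ * a * z) * c) * (List.ofFn b).prod * z⁻¹ := by
        rw [this]
    _ = _ := by group

/-- Local transfer control by the pair gives global control. -/
theorem pairTransfer (S : Sylow p G) (hW : Cfsg.IsConjugacyFunctor p W)
    (hV : Cfsg.IsConjugacyFunctor p V)
    (hWZ : ∀ H : Subgroup G, IsPGroup p ↥H → zC H ≤ W H)
    (hVS : (S : Subgroup G) ≤ Subgroup.centralizer ((V (S : Subgroup G) : Subgroup G) : Set G))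
    (hVmono : ∀ H K : Subgroup G, IsPGroup p ↥H → IsPGroup p ↥K → H ≠ ⊥ → K ≠ ⊥ →
      zC H ≤ zC K → V H ≤ V K)
    (hloc : ∀ H : Subgroup G, zC (S : Subgroup G) ≤ H → H ≤ (S : Subgroup G) →
      ∃ Q : Subgroup G, Q ≤ Subgroup.normalizer ((H : Subgroup G) : Set G) ∧ IsPGroup p ↥Q ∧
        ¬ p ∣ (Q).relIndex (Subgroup.normalizer ((H : Subgroup G) : Set G)) ∧
        Q ⊓ ⁅Subgroup.normalizer (H : Set G), Subgroup.normalizer (H : Set G)⁆ ≤
          (Q ⊓ ⁅Subgroup.normalizer (H : Set G) ⊓ Subgroup.normalizer ((W Q : Subgroup G) : Set G),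
              Subgroup.normalizer (H : Set G) ⊓ Subgroup.normalizer ((W Q : Subgroup G) : Set G)⁆) ⊔
          (Q ⊓ ⁅Subgroup.normalizer (H : Set G) ⊓ Subgroup.centralizer ((V Q : Subgroup G) : Set G),
              Subgroup.normalizer (H : Set G) ⊓ Subgroup.centralizer ((V Q : Subgroup G) : Set G)⁆)) :
    (S : Subgroup G) ⊓ ⁅(⊤ : Subgroup G), ⊤⁆ ≤
      ((S : Subgroup G) ⊓ ⁅Subgroup.normalizer ((W (S : Subgroup G) : Subgroup G) : Set G),
          Subgroup.normalizer ((W (S : Subgroup G) : Subgroup G) : Set G)⁆) ⊔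
      ((S : Subgroup G) ⊓ ⁅Subgroup.centralizer ((V (S : Subgroup G) : Subgroup G) : Set G),
          Subgroup.centralizer ((V (S : Subgroup G) : Subgroup G) : Set G)⁆) := by
  set Ω := ((S : Subgroup G) ⊓ ⁅Subgroup.normalizer ((W (S : Subgroup G) : Subgroup G) : Set G),
      Subgroup.normalizer ((W (S : Subgroup G) : Subgroup G) : Set G)⁆) ⊔
    ((S : Subgroup G) ⊓ ⁅Subgroup.centralizer ((V (S : Subgroup G) : Subgroup G) : Set G),
      Subgroup.centralizer ((V (S : Subgroup G) : Subgroup G) : Set G)⁆) with hΩ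
  let R : Subgroup G → G → Prop := fun B y => ∀ a ∈ B, y * a * y⁻¹ * a⁻¹ ∈ Ω
  have hSN : (S : Subgroup G) ≤ Subgroup.normalizer ((W (S : Subgroup G) : Subgroup G) : Set G) :=
    Subgroup.le_normalizer.trans (normalizer_le_normalizer_functor hW S.2)
  suffices h : ∀ (A : Subgroup G) (g : G), A ≤ (S : Subgroup G) → cj g A ≤ (S : Subgroup G) → R A g by
    refine inf_commutator_le_of_focal (sylowIn_of_le S le_top) fun a ha u _ hu => ?_
    refine h (Subgroup.zpowers a) u (Subgroup.zpowers_le.2 ha) ?_ a (Subgroup.mem_zpowers a)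
    rw [cj, MonoidHom.map_zpowers, Subgroup.zpowers_le]
    exact hu
  intro A g hA hg
  refine pair_local_global S W hW hWZ R (fun B C y hCB h a ha => h a (hCB ha))
    (fun B y x h1 h2 a ha => ?_) (fun B y _ hy a ha => by simp [hy a ha]) ?_ ?_ hA hg
  · have e : x * y * a * (x * y)⁻¹ * a⁻¹ =
        (x * (y * a * y⁻¹) * x⁻¹ * (y * a * y⁻¹)⁻¹) * (y * a * y⁻¹ * a⁻¹) := by group
    rw [e]
    exact mul_mem (h2 _ (conj_mem_cj ha)) (h1 a ha)
  · intro x hx B hB hxB a ha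
    refine Subgroup.mem_sup_left (Subgroup.mem_inf.2 ⟨mul_mem (hxB (conj_mem_cj ha)) (inv_mem (hB ha)), ?_⟩)
    exact Subgroup.commutator_mem_commutator hx (hSN (hB ha))
  rintro U hU0 hU ⟨k, H, hZH, hHS, hk⟩ hstep g hg A hA hgA a ha
  obtain ⟨Q, hQN, hQp, hQi, hQ⟩ := hloc H hZH hHS
  obtain ⟨z, hzN, hzQ⟩ := exists_move S hU hk hQN hQp hQi
  set P := (S : Subgroup G) ⊓ Subgroup.normalizer (U : Set G) with hP
  set N := Subgroup.normalizer (U : Set G) with hN
  have hWe : W P = cj z (W Q) := by rw [← hzQ]; exact (hW Q hQp).2.2 z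
  have hVe : V P = cj z (V Q) := by rw [← hzQ]; exact (hV Q hQp).2.2 z
  have hcom : ∀ K : Subgroup G, cj z ⁅K, K⁆ = ⁅cj z K, cj z K⁆ := fun K =>
    Subgroup.map_commutator _ _ _
  have h1 : P ⊓ ⁅N, N⁆ ≤ (P ⊓ ⁅N ⊓ Subgroup.normalizer ((W P : Subgroup G) : Set G),
      N ⊓ Subgroup.normalizer ((W P : Subgroup G) : Set G)⁆) ⊔
      (P ⊓ ⁅N ⊓ Subgroup.centralizer ((V P : Subgroup G) : Set G),
        N ⊓ Subgroup.centralizer ((V P : Subgroup G) : Set G)⁆) := by
    have := cj_mono z hQ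
    rw [cj_inf, hcom, hzN, hzQ, cj_sup, cj_inf, cj_inf, hcom, hcom, cj_inf, cj_inf, hzN, hzQ,
      cj_normalizer, ← hWe] at this
    refine this.trans (sup_le_sup le_rfl (inf_le_inf_left _ ?_))
    have hC : cj z (Subgroup.centralizer ((V Q : Subgroup G) : Set G)) ≤
        Subgroup.centralizer ((V P : Subgroup G) : Set G) := by
      rintro _ ⟨x, hx, rfl⟩
      rw [hVe]
      exact conj_mem_centralizer hx
    exact Subgroup.commutator_mono (inf_le_inf_left _ hC) (inf_le_inf_left _ hC)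
  suffices h3 : P ⊓ ⁅N, N⁆ ≤ Ω from h3 (Subgroup.mem_inf.2 ⟨mul_mem (hgA (conj_mem_cj ha)) (inv_mem (hA ha)),
    Subgroup.commutator_mem_commutator hg (hA ha).2⟩)
  refine h1.trans (sup_le ?_ ?_)
  · have hsyl : IsSylowIn p P (N ⊓ Subgroup.normalizer ((W P : Subgroup G) : Set G)) :=
      sylowIn_mono hU.2 (le_inf inf_le_right (Subgroup.le_normalizer.trans
        (normalizer_le_normalizer_functor hW (S.2.to_le inf_le_left)))) inf_le_left
    refine inf_commutator_le_of_focal hsyl fun b hb x hx hxb => ?_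
    refine hstep x hx (Subgroup.zpowers b) (Subgroup.zpowers_le.2 hb) ?_ b (Subgroup.mem_zpowers b)
    rw [cj, MonoidHom.map_zpowers, Subgroup.zpowers_le]
    exact hxb
  · refine le_sup_of_le_right (inf_le_inf inf_le_left (Subgroup.commutator_mono ?_ ?_)) <;>
      exact inf_le_right.trans (centralizer_functor_le S hVmono hU0 hU.1)

end Cfsg.Agent.H61.PairLocal
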