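import Cfsg.Agent.H61.LocalGlobal
import Cfsg.Agent.H61.Transfer
import Cfsg.Agent.H61.Sect

/-! Glauberman's passage from local to global control by a functor and a central functor. -/

set_option autoImplicit false

namespace Cfsg.Agent.H61.PairLocal

open Cfsg.Agent.H23 (IsSylowIn)
open Cfsg.Agent.H61

variable {G : Type*} [Group G]

/-- The centre of a subgroup, inside the group. -/
abbrev zC (S : Subgroup G) : Subgroup G := S ⊓ Subgroup.centralizer (S : Set G)

/-- A conjugate of a subgroup between `Z(S)` and `S`. -/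
def ZConj (S U : Subgroup G) : Prop := ∃ (k : G) (H : Subgroup G), zC S ≤ H ∧ H ≤ S ∧ U = cj k H

variable [Finite G] {p : ℕ} [Fact p.Prime]

/-- Conjugations of subgroups of order at least `m` reduce to normalizers of subgroups with centre
of `S` inside. -/
theorem zfull_step (S : Sylow p G) (R : Subgroup G → G → Prop)
    (mono : ∀ A B g, B ≤ A → R A g → R B g)
    (mul : ∀ A g h, R A g → R (cj g A) h → R A (h * g))
    (triv : ∀ A g, A ≤ (S : Subgroup G) → (∀ a ∈ A, g * a * g⁻¹ = a) → R A g) :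
    ∀ m : ℕ, (∀ U, U ≠ ⊥ → Full p (S : Subgroup G) U → ZConj (S : Subgroup G) U → m ≤ Nat.card U →
        ∀ n ∈ Subgroup.normalizer (U : Set G), R U n) →
      ∀ {A : Subgroup G} {g : G}, m ≤ Nat.card A → A ≤ (S : Subgroup G) →
        cj g A ≤ (S : Subgroup G) → R A g := by
  intro m
  induction hd : Nat.card (S : Subgroup G) + 1 - m using Nat.strong_induction_on generalizing m with
  | _ d IH =>
  subst hd
  intro hkey A g hm hA hg
  refine family_induction_above m S (fun _ => True)
    (fun T hT => let ⟨k, hk, _⟩ := exists_full S hT; ⟨k, trivial, hk⟩) R mono mul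
    (fun U _ hU hcard n hn => ?_) hm hA hg
  rcases eq_or_ne U ⊥ with rfl | hU0
  · exact triv _ _ bot_le (by simp)
  by_cases hZ : zC (S : Subgroup G) ≤ U
  · exact hkey U hU0 hU ⟨1, U, hZ, hU.1, (cj_one U).symm⟩ hcard n hn
  -- Frattini in the centralizer
  set C := Subgroup.centralizer (U : Set G) with hC
  have hCN : C ≤ Subgroup.normalizer (U : Set G) := Subgroup.centralizer_le_normalizer _
  have hKn : Subgroup.normalizer (U : Set G) ≤ Subgroup.normalizer (C : Set G) := fun y hy =>
    mem_normalizer_of_cj (cj_eq_of_le (by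
      rintro _ ⟨c, hc, rfl⟩
      simp only [MulEquiv.toMonoidHom_eq_coe, MonoidHom.coe_coe, MulAut.conj_apply]
      refine Subgroup.mem_centralizer_iff.2 fun u hu => ?_
      have := Subgroup.mem_centralizer_iff.1 hc _ ((Subgroup.mem_normalizer_iff''.1 hy u).1 hu)
      calc u * (y * c * y⁻¹) = y * (y⁻¹ * u * y * c) * y⁻¹ := by group
        _ = y * c * y⁻¹ * u := by rw [this]; group))
  set T := ((S : Subgroup G) ⊓ Subgroup.normalizer (U : Set G)) ⊓ C with hT
  have hTs : IsSylowIn p T C := sylowIn_inf_normal hU.2 hCN hKn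
  have hTn : IsSylowIn p (cj n T) C := by
    have := sylowIn_cj hTs n
    rwa [cj_eq_self (hKn hn)] at this
  obtain ⟨c, hc, hce⟩ := exists_cj_eq hTn hTs
  rw [cj_cj] at hce
  have hcn : c * n ∈ Subgroup.normalizer (U : Set G) := mul_mem (hCN hc) hn
  have hU'S : U ⊔ T ≤ (S : Subgroup G) := sup_le hU.1 (inf_le_left.trans inf_le_left)
  have hlt : U < U ⊔ T := by
    refine lt_of_le_of_ne le_sup_left fun e => hZ ?_
    refine le_trans (fun z hz => ?_) (le_sup_right.trans e.ge : T ≤ U)
    have hzC : z ∈ C := Subgroup.centralizer_le (show (U : Set G) ⊆ (S : Subgroup G) from hU.1) hz.2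
    exact ⟨⟨hz.1, hCN hzC⟩, hzC⟩
  have h1 : R (U ⊔ T) (c * n) := by
    have hlt' := card_lt_of_lt hlt
    have hle := Subgroup.card_le_of_le hU'S
    refine IH _ ?_ (m + 1) rfl (fun U' h0 h1 h2 h3 => hkey U' h0 h1 h2 (by omega)) (by omega) hU'S ?_
    · omega
    · rw [cj_sup, cj_eq_self hcn, hce]
      exact hU'S
  have hcU : cj (c * n) U = U := cj_eq_self hcn
  have h2 : R (cj (c * n) U) c⁻¹ := triv _ _ (hcU.le.trans hU.1) fun a ha => by
    rw [hcU] at ha
    rw [← Subgroup.mem_centralizer_iff.1 (inv_mem hc : c⁻¹ ∈ C) a ha]; group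
  have := mul _ _ _ (mono _ _ _ le_sup_left h1) h2
  simpa using this

/-- Local to global passage for a functor `W ≥ Z`. -/
theorem pair_local_global (S : Sylow p G) (W : Subgroup G → Subgroup G)
    (hW : Cfsg.IsConjugacyFunctor p W)
    (hWZ : ∀ H : Subgroup G, IsPGroup p H → zC H ≤ W H)
    (R : Subgroup G → G → Prop)
    (mono : ∀ A B g, B ≤ A → R A g → R B g)
    (mul : ∀ A g h, R A g → R (cj g A) h → R A (h * g))
    (triv : ∀ A g, A ≤ (S : Subgroup G) → (∀ a ∈ A, g * a * g⁻¹ = a) → R A g)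
    (top : ∀ x ∈ Subgroup.normalizer ((W (S : Subgroup G) : Subgroup G) : Set G),
      ∀ B : Subgroup G, B ≤ S → cj x B ≤ S → R B x)
    (loc : ∀ U : Subgroup G, U ≠ ⊥ → Full p (S : Subgroup G) U → ZConj (S : Subgroup G) U →
      (∀ x ∈ Subgroup.normalizer (U : Set G) ⊓
          Subgroup.normalizer ((W ((S : Subgroup G) ⊓ Subgroup.normalizer (U : Set G)) :
            Subgroup G) : Set G),
        ∀ B : Subgroup G, B ≤ (S : Subgroup G) ⊓ Subgroup.normalizer (U : Set G) →
          cj x B ≤ (S : Subgroup G) ⊓ Subgroup.normalizer (U : Set G) → R B x) →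
      ∀ g ∈ Subgroup.normalizer (U : Set G), ∀ A : Subgroup G,
        A ≤ (S : Subgroup G) ⊓ Subgroup.normalizer (U : Set G) →
        cj g A ≤ (S : Subgroup G) ⊓ Subgroup.normalizer (U : Set G) → R A g)
    {A : Subgroup G} {g : G} (hA : A ≤ (S : Subgroup G)) (hg : cj g A ≤ (S : Subgroup G)) :
    R A g := by
  suffices key : ∀ U : Subgroup G, U ≠ ⊥ → Full p (S : Subgroup G) U → ZConj (S : Subgroup G) U →
      ∀ g ∈ Subgroup.normalizer (U : Set G), ∀ A : Subgroup G,
        A ≤ (S : Subgroup G) ⊓ Subgroup.normalizer (U : Set G) →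
        cj g A ≤ (S : Subgroup G) ⊓ Subgroup.normalizer (U : Set G) → R A g by
    refine zfull_step S R mono mul triv 0 (fun U hne hU hUZ _ n hn => ?_) (Nat.zero_le _) hA hg
    exact key U hne hU hUZ n hn U (le_inf hU.1 Subgroup.le_normalizer)
      (by rw [cj_eq_self hn]; exact le_inf hU.1 Subgroup.le_normalizer)
  intro U hU0 hU hUZ
  induction hd : Nat.card (S : Subgroup G) -
      Nat.card ((S : Subgroup G) ⊓ Subgroup.normalizer (U : Set G) : Subgroup G)
    using Nat.strong_induction_on generalizing U with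
  | _ d IH =>
  subst hd
  refine loc U hU0 hU hUZ ?_
  set P : Subgroup G := (S : Subgroup G) ⊓ Subgroup.normalizer (U : Set G) with hP
  intro x hx B hB hxB
  have hPp : IsPGroup p P := S.2.to_le inf_le_left
  rcases (inf_le_left : P ≤ (S : Subgroup G)).eq_or_lt with hPS | hPS
  · exact top x (by rw [← hPS]; exact hx.2) B (hB.trans inf_le_left) (hxB.trans inf_le_left)
  have hP0 : P ≠ ⊥ := fun e => hU0 (le_bot_iff.1 ((le_inf hU.1 Subgroup.le_normalizer).trans e.le))
  -- subgroups larger than `P` are under control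
  have big : ∀ (C : Subgroup G) (h : G), Nat.card P < Nat.card C → C ≤ (S : Subgroup G) →
      cj h C ≤ (S : Subgroup G) → R C h := by
    intro C h hlt hC hh
    refine zfull_step S R mono mul triv (Nat.card P + 1) (fun U' hU'0 hU' hU'Z hcard n hn => ?_) hlt hC hh
    have hle : U' ≤ (S : Subgroup G) ⊓ Subgroup.normalizer (U' : Set G) :=
      le_inf hU'.1 Subgroup.le_normalizer
    refine IH _ ?_ U' hU'0 hU' hU'Z rfl n hn U' hle (by rw [cj_eq_self hn]; exact hle)
    have := Subgroup.card_le_of_le hle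
    have := Subgroup.card_le_of_le (inf_le_left : (S : Subgroup G) ⊓
      Subgroup.normalizer (U' : Set G) ≤ S)
    omega
  set V := W P with hV
  have hVS : V ≤ (S : Subgroup G) := (hW P hPp).1.trans inf_le_left
  have hZV : zC (S : Subgroup G) ≤ V := by
    refine le_trans (le_inf (le_inf inf_le_left fun z hz => ?_) fun z hz => ?_) (hWZ P hPp)
    · exact mem_normalizer_of_cj (cj_eq_of_le fun y hy => by
        obtain ⟨u, hu, rfl⟩ := hy
        simp only [MulEquiv.toMonoidHom_eq_coe, MonoidHom.coe_coe, MulAut.conj_apply]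
        rw [← Subgroup.mem_centralizer_iff.1 hz.2 u (hU.1 hu), mul_inv_cancel_right]
        exact hu)
    · exact Subgroup.centralizer_le (show (P : Set G) ⊆ (S : Subgroup G) from
        fun y hy => hy.1) hz.2
  set Q : Subgroup G := (S : Subgroup G) ⊓ Subgroup.normalizer (V : Set G) with hQ
  have hgrow : Nat.card P < Nat.card Q :=
    (card_lt_inf_normalizer S.2 hPS).trans_le (Subgroup.card_le_of_le
      (inf_le_inf_left _ (normalizer_le_normalizer_functor hW hPp)))
  have hBQ : B ≤ Q := hB.trans (le_inf inf_le_left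
    (Subgroup.le_normalizer.trans (normalizer_le_normalizer_functor hW hPp)))
  have hxBQ : cj x B ≤ Q := hxB.trans (le_inf inf_le_left
    (Subgroup.le_normalizer.trans (normalizer_le_normalizer_functor hW hPp)))
  obtain ⟨k, hk, hkle⟩ := exists_full S hVS
  set U' := cj k V with hU'
  set P' : Subgroup G := (S : Subgroup G) ⊓ Subgroup.normalizer (U' : Set G) with hP'
  have hU'0 : U' ≠ ⊥ := fun e => (hW P hPp).2.1 hP0
    (Subgroup.map_injective (f := (MulAut.conj k).toMonoidHom) (MulAut.conj k).injective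
      (e.trans (cj_bot k).symm))
  have hcard : Nat.card P < Nat.card P' :=
    hgrow.trans_le ((card_cj k Q).ge.trans (Subgroup.card_le_of_le hkle))
  have h1 : R B k := mono _ _ _ hBQ (big Q k hgrow inf_le_left (hkle.trans inf_le_left))
  have hx' : k * x * k⁻¹ ∈ Subgroup.normalizer (U' : Set G) := by
    rw [hU', ← cj_normalizer]; exact conj_mem_cj hx.2
  have e1 : cj (k * x * k⁻¹) (cj k B) = cj k (cj x B) := by simp [mul_assoc]
  have h2 : R (cj k B) (k * x * k⁻¹) := by
    refine IH _ ?_ U' hU'0 hk ⟨k, V, hZV, hVS, rfl⟩ rfl _ hx' _ ((cj_mono k hBQ).trans hkle)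
      (by rw [e1]; exact (cj_mono k hxBQ).trans hkle)
    have := Subgroup.card_le_of_le (inf_le_left : P' ≤ (S : Subgroup G))
    simp only [hP'] at hcard this ⊢
    omega
  have h3 : R (cj k (cj x B)) k⁻¹ :=
    mono (cj k Q) _ _ (cj_mono k hxBQ)
      (big _ _ (by rw [card_cj]; exact hgrow) (hkle.trans inf_le_left) (by simp [hQ]))
  have := mul _ _ _ h1 (mul _ _ _ h2 (by rw [e1]; exact h3))
  simpa [mul_assoc] using this

end Cfsg.Agent.H61.PairLocal
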