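import Cfsg.Agent.H75.SylowGraph
import Cfsg.Agent.H21.UniqueSubgroup
import Cfsg.Agent.H20.Generation
import Cfsg.Agent.H61.Sect
import Cfsg.Agent.S0218
import Cfsg.Prelude.Def_Local

/-! Sylow graphs of `p`-solvable groups. -/

set_option autoImplicit false

namespace Cfsg.Agent.H61

open Cfsg.Agent.H75
open scoped Pointwise

variable {p : ℕ} [Fact p.Prime]

omit [Fact p.Prime] in
/-- In a finite cyclic group the subgroup of a given order is unique. -/
theorem eq_of_card_eq_cyclic {P : Type*} [Group P] [Finite P] [IsCyclic P] {H K : Subgroup P}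
    (hH : Nat.card H = p) (hK : Nat.card K = p) : H = K := by
  classical
  have := Fintype.ofFinite P
  have hp0 : 0 < p := hH ▸ Nat.card_pos
  have hsub : ∀ L : Subgroup P, Nat.card L = p →
      (Finset.univ.filter fun x : P => x ∈ L) = Finset.univ.filter fun x : P => x ^ p = 1 := by
    intro L hL
    refine Finset.eq_of_subset_of_card_le (fun x hx => ?_) ?_
    · simp only [Finset.mem_filter, Finset.mem_univ, true_and] at hx ⊢
      have := pow_card_eq_one' (x := (⟨x, hx⟩ : L))
      rw [hL] at this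
      exact congrArg Subtype.val this
    · conv_rhs => rw [← Fintype.card_subtype, ← Nat.card_eq_fintype_card]
      exact (IsCyclic.card_pow_eq_one_le (α := P) hp0).trans hL.ge
  ext x
  have h := (hsub H hH).trans (hsub K hK).symm
  simpa using Finset.ext_iff.1 h x

/-- Cyclic and generalized quaternion groups have one subgroup of order `p`. -/
theorem unique_of_cyclic_or_quaternion {P : Type*} [Group P] [Finite P]
    (h : IsCyclic P ∨ (p = 2 ∧ ∃ n : ℕ, Nonempty (P ≃* QuaternionGroup (2 ^ n))))
    (H K : Subgroup P) (hH : Nat.card H = p) (hK : Nat.card K = p) : H = K := by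
  rcases h with hc | ⟨rfl, n, ⟨e⟩⟩
  · exact eq_of_card_eq_cyclic hH hK
  rcases n with _ | n
  · have : IsCyclic (QuaternionGroup (2 ^ 0)) := isCyclic_of_orderOf_eq_card (QuaternionGroup.xa 0) (by
      rw [QuaternionGroup.orderOf_xa, Nat.card_eq_fintype_card, QuaternionGroup.card]; norm_num)
    have : IsCyclic P := isCyclic_of_surjective e.symm.toMonoidHom e.symm.surjective
    exact eq_of_card_eq_cyclic hH hK
  · have hsub : ∀ L : Subgroup P, Nat.card L = 2 → ∃ x, orderOf x = 2 ∧ L = Subgroup.zpowers x := by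
      intro L hL
      obtain ⟨x, hx⟩ := exists_prime_orderOf_dvd_card' (G := L) 2 (by rw [hL])
      refine ⟨x, by rw [Subgroup.orderOf_coe, hx], (Subgroup.eq_of_le_of_card_ge
        (Subgroup.zpowers_le.2 x.2) ?_).symm⟩
      rw [Nat.card_zpowers, Subgroup.orderOf_coe, hx, hL]
    obtain ⟨x, hx, rfl⟩ := hsub H hH
    obtain ⟨y, hy, rfl⟩ := hsub K hK
    have huniq := (Nat.card_eq_one_iff_unique.1 (Cfsg.Agent.S0218.result n)).1
    have := @Subsingleton.elim _ huniq ⟨e x, by rw [MulEquiv.orderOf_eq, hx]⟩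
      ⟨e y, by rw [MulEquiv.orderOf_eq, hy]⟩
    rw [e.injective (congrArg Subtype.val this)]

variable {G : Type*} [Group G] [Finite G]

/-- A Sylow subgroup with one subgroup of order `p` and trivial `O_p` disconnects the Sylow graph. -/
theorem not_connected_of_rankOne (hdiv : p ∣ Nat.card G) (P : Sylow p G)
    (hcore : Cfsg.pCore p G = ⊥)
    (huniq : ∀ H K : Subgroup (P : Subgroup G), Nat.card H = p → Nat.card K = p → H = K) :
    ¬ Cfsg.IsSylowChainConnected p G := by
  obtain ⟨z, hz⟩ := exists_prime_orderOf_dvd_card' (G := (P : Subgroup G)) p (P.dvd_card_of_dvd_card hdiv)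
  set Z := Subgroup.zpowers (z : G) with hZ
  have hZc : Nat.card Z = p := by rw [hZ, Nat.card_zpowers, Subgroup.orderOf_coe, hz]
  have hZP : Z ≤ (P : Subgroup G) := Subgroup.zpowers_le.2 z.2
  have hu : ∀ L : Subgroup G, L ≤ (P : Subgroup G) → Nat.card L = p → L = Z := by
    intro L hL hLc
    have h1 : ∀ M : Subgroup G, M ≤ (P : Subgroup G) → Nat.card (M.subgroupOf P) = Nat.card M :=
      fun M hM => Nat.card_congr (Subgroup.subgroupOfEquivOfLe hM).toEquiv
    have h2 := congrArg (Subgroup.map (P : Subgroup G).subtype)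
      (huniq (L.subgroupOf P) (Z.subgroupOf P) (by rw [h1 L hL, hLc]) (by rw [h1 Z hZP, hZc]))
    rwa [Subgroup.map_subgroupOf_eq_of_le hL, Subgroup.map_subgroupOf_eq_of_le hZP] at h2
  set H := Subgroup.normalizer (Z : Set G) with hH
  have hPH : (P : Subgroup G) ≤ H := fun s hs => mem_normalizer_of_cj
    (hu _ ((cj_mono s hZP).trans (cj_eq_self (Subgroup.le_normalizer hs)).le) (by rw [card_cj, hZc]))
  refine IsClassicalSPE.not_connected (H := H)
    ⟨fun e => ?_, (P.dvd_card_of_dvd_card hdiv).trans (Subgroup.card_dvd_of_le hPH), fun g hg hd => hg ?_⟩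
  · have h1 : Z ≤ Cfsg.pCore p G := H19.le_pCore (Subgroup.normalizer_eq_top_iff.1 e) (P.2.to_le hZP)
    rw [hcore, le_bot_iff] at h1
    rw [h1, Subgroup.card_bot] at hZc
    exact (Fact.out : p.Prime).ne_one hZc.symm
  -- every subgroup of order `p` of `H` is `Z`
  have key : ∀ L : Subgroup G, L ≤ H → Nat.card L = p → L = Z := by
    intro L hLH hL
    obtain ⟨m, hm, hle⟩ := exists_cj_le (sylowIn_of_le P hPH) hLH
      (IsPGroup.of_card (n := 1) (by rw [hL, pow_one]))
    have h1 := hu _ hle (by rw [card_cj, hL])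
    have h2 : cj m⁻¹ (cj m L) = cj m⁻¹ Z := by rw [h1]
    rw [cj_cj, inv_mul_cancel, cj_one, cj_eq_self (inv_mem hm : m⁻¹ ∈ H)] at h2
    exact h2
  obtain ⟨x, hx⟩ := exists_prime_orderOf_dvd_card' (G := ↥(H ⊓ H.map (MulAut.conj g).toMonoidHom)) p hd
  have hc : Nat.card (Subgroup.zpowers (x : G)) = p := by rw [Nat.card_zpowers, Subgroup.orderOf_coe, hx]
  have e1 := key _ (Subgroup.zpowers_le.2 x.2.1) hc
  have e2 := key (cj g⁻¹ (Subgroup.zpowers (x : G))) (by
    have h1 := cj_mono g⁻¹ (Subgroup.zpowers_le.2 x.2.2 : Subgroup.zpowers (x : G) ≤ cj g H)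
    rwa [cj_cj, inv_mul_cancel, cj_one] at h1) (by rw [card_cj, hc])
  rw [e1] at e2
  simpa using inv_mem (mem_normalizer_of_cj e2 : g⁻¹ ∈ H)

/-- A Sylow subgroup without unique subgroup of order `p` has a noncyclic elementary abelian subgroup. -/
theorem exists_noncyclic {S : Subgroup G} (hS : IsPGroup p S)
    (hnu : ¬ ∀ H K : Subgroup S, Nat.card H = p → Nat.card K = p → H = K) :
    ∃ A : Subgroup G, A ≤ S ∧ IsMulCommutative A ∧ ¬ IsCyclic A := by
  push Not at hnu
  obtain ⟨H, K, hH, hK, hne⟩ := hnu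
  have hS1 : Nontrivial S := by
    have : Nontrivial H := Finite.one_lt_card_iff_nontrivial.1 (hH ▸ (Fact.out : p.Prime).one_lt)
    exact Function.Injective.nontrivial H.subtype_injective
  have hZ : Nontrivial (Subgroup.center S) := hS.center_nontrivial
  obtain ⟨z, hz⟩ := exists_prime_orderOf_dvd_card' (G := Subgroup.center S) p (by
    obtain ⟨n, hn0, hn⟩ := (hS.to_subgroup (Subgroup.center S)).nontrivial_iff_card.1 hZ
    rw [hn]; exact dvd_pow_self p hn0.ne')
  obtain ⟨L, hL, hLz⟩ : ∃ L : Subgroup S, Nat.card L = p ∧ L ≠ Subgroup.zpowers (z : S) := by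
    by_cases h : H = Subgroup.zpowers (z : S)
    · exact ⟨K, hK, fun e => hne (h.trans e.symm)⟩
    · exact ⟨H, hH, h⟩
  set Y := Subgroup.zpowers (z : S) with hY
  have hYc : Nat.card Y = p := by rw [hY, Nat.card_zpowers, Subgroup.orderOf_coe, hz]
  have hYz : Y ≤ Subgroup.center S := Subgroup.zpowers_le.2 z.2
  have hLc : IsCyclic L := isCyclic_of_prime_card hL
  set A := Y ⊔ L with hA
  have hcom : IsMulCommutative A := by
    refine Subgroup.le_centralizer_iff_isMulCommutative.1 (sup_le ?_ ?_)
    · exact hYz.trans (Subgroup.center_le_centralizer _)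
    · refine Subgroup.le_centralizer_iff.1 (sup_le ?_ ?_)
      · exact hYz.trans (Subgroup.center_le_centralizer _)
      · exact Subgroup.le_centralizer_iff_isMulCommutative.2 inferInstance
  refine ⟨A.map S.subtype, Subgroup.map_subtype_le A, inferInstance, fun hc => hLz ?_⟩
  have : IsCyclic A := isCyclic_of_surjective
    (A.equivMapOfInjective _ S.subtype_injective).symm.toMonoidHom
    (A.equivMapOfInjective _ S.subtype_injective).symm.surjective
  have h1 := eq_of_card_eq_cyclic (p := p) (H := L.subgroupOf A) (K := Y.subgroupOf A)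
    (by rw [Nat.card_congr (Subgroup.subgroupOfEquivOfLe (le_sup_right : L ≤ A)).toEquiv, hL])
    (by rw [Nat.card_congr (Subgroup.subgroupOfEquivOfLe (le_sup_left : Y ≤ A)).toEquiv, hYc])
  have h2 := congrArg (Subgroup.map A.subtype) h1
  rwa [Subgroup.map_subgroupOf_eq_of_le le_sup_right,
    Subgroup.map_subgroupOf_eq_of_le le_sup_left] at h2

/-- In a `p`-solvable group with disconnected Sylow graph `O_p = 1` and Sylow subgroups have a
unique subgroup of order `p`. -/
theorem rankOne_of_not_connected (hdiv : p ∣ Nat.card G) (hsol : Cfsg.IsPSolvable p G)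
    (P : Sylow p G) (h : ¬ Cfsg.IsSylowChainConnected p G) :
    Cfsg.pCore p G = ⊥ ∧
      ∀ H K : Subgroup (P : Subgroup G), Nat.card H = p → Nat.card K = p → H = K := by
  obtain ⟨H, hH, hPH⟩ := exists_spe_of_not_connected h P
  have hnorm : ∀ M : Subgroup G, M.Normal → p ∣ Nat.card M → ¬ M ≤ H := fun M hM hd hle =>
    hH.1 (top_le_iff.1 ((Subgroup.normalizer_eq_top_iff.2 hM).ge.trans (hH.normalizer_le hle hd)))
  refine ⟨by_contra fun hne => ?_, by_contra fun hnu => ?_⟩
  · exact hnorm _ (H19.pCore_normal p G) (dvd_card_of_ne_bot (H19.pCore_isPGroup p) hne)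
      ((H19.pCore_le_sylow P).trans hPH)
  obtain ⟨A, hAP, hAc, hAnc⟩ := exists_noncyclic P.2 hnu
  have hgen : ∀ K : Subgroup G, K.Normal → ¬ p ∣ Nat.card K → K ≤ H := by
    intro K hK hd
    haveI := hAc
    obtain ⟨k, hk⟩ := IsPGroup.iff_card.1 (P.2.to_le hAP)
    refine H20.le_of_centralizers_le hAnc
      (by rw [Subgroup.normalizer_eq_top_iff.2 hK]; exact le_top)
      (hk ▸ Nat.Coprime.pow_left k ((Fact.out : p.Prime).coprime_iff_not_dvd.2 hd))
      fun a ha ha1 => inf_le_right.trans ?_
    refine le_trans ?_ (hH.normalizer_le (Q := Subgroup.zpowers a)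
      ((Subgroup.zpowers_le.2 (hAP ha)).trans hPH)
      (dvd_card_of_ne_bot (P.2.to_le (Subgroup.zpowers_le.2 (hAP ha))) (by simpa using ha1)))
    intro x hx
    refine Subgroup.centralizer_le_normalizer _ ?_
    rw [Subgroup.zpowers_eq_closure, Subgroup.centralizer_closure]
    exact hx
  obtain ⟨n, C, h0, hlast, hmono, hnor, hfac⟩ := hsol
  have key : ∀ i, ¬ p ∣ Nat.card (C i) := by
    intro i
    induction i using Fin.induction with
    | zero => rw [h0, Subgroup.card_bot, Nat.dvd_one]; exact (Fact.out : p.Prime).ne_one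
    | succ i ih =>
      intro hd
      have hle : C i.castSucc ≤ C i.succ := hmono i.castSucc_lt_succ.le
      have hcard := Subgroup.relIndex_mul_relIndex ⊥ _ _ bot_le hle
      rw [Subgroup.relIndex_bot_left, Subgroup.relIndex_bot_left] at hcard
      rcases hfac i with ⟨m, hm⟩ | hco
      · have hsyl := sylowIn_inf_normal (sylowIn_of_le P le_top) le_top
          (by rw [Subgroup.normalizer_eq_top_iff.2 (hnor i.succ)] : (⊤ : Subgroup G) ≤
            Subgroup.normalizer ((C i.succ : Subgroup G) : Set G))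
        refine hnorm _ (hnor i.succ) hd ?_
        have hsup : C i.castSucc ⊔ ((P : Subgroup G) ⊓ C i.succ) ≤ H :=
          sup_le (hgen _ (hnor _) ih) (inf_le_left.trans hPH)
        refine le_trans ?_ hsup
        rw [← Subgroup.relIndex_eq_one]
        have h1 : (C i.castSucc ⊔ ((P : Subgroup G) ⊓ C i.succ)).relIndex (C i.succ) ∣ p ^ m := by
          rw [← hm]
          exact Subgroup.relIndex_dvd_of_le_left (C i.succ) le_sup_left
        have h2 : (C i.castSucc ⊔ ((P : Subgroup G) ⊓ C i.succ)).relIndex (C i.succ) ∣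
            ((P : Subgroup G) ⊓ C i.succ).relIndex (C i.succ) :=
          Subgroup.relIndex_dvd_of_le_left (C i.succ) le_sup_right
        obtain ⟨j, -, hj⟩ := (Nat.dvd_prime_pow (Fact.out : p.Prime)).1 h1
        rcases j with _ | j
        · simpa using hj
        · exact absurd ((dvd_pow_self p (by omega)).trans (hj ▸ h2)) hsyl.2.2
      · rcases (Fact.out : p.Prime).dvd_mul.1 (hcard ▸ hd) with h' | h'
        · exact ih h'
        · exact (Fact.out : p.Prime).ne_one (Nat.eq_one_of_dvd_coprimes hco h' dvd_rfl)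
  exact key (Fin.last n) (by rw [hlast, Subgroup.card_top]; exact hdiv)

end Cfsg.Agent.H61
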