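import Cfsg.Agent.H61.FrobAction

/-! Groups of shape `p`, abelian `p'`, `p` are stable in the normalizer form for odd `p`. -/

set_option autoImplicit false

namespace Cfsg.Agent.H61

universe u

open scoped commutatorElement Pointwise

/-- A normal `p`-subgroup, then an abelian `p'` layer, then a `p`-group. -/
def Sol3 (p : ℕ) (G : Type u) [Group G] : Prop :=
  ∃ A L : Subgroup G, A.Normal ∧ L.Normal ∧ A ≤ L ∧ IsPGroup p A ∧ ⁅L, L⁆ ≤ A ∧
    (∀ x ∈ L, ∃ m, ¬ p ∣ m ∧ x ^ m ∈ A) ∧ ∀ x : G, ∃ k : ℕ, x ^ p ^ k ∈ L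

variable {G : Type u} [Group G] [Finite G] {p : ℕ} [Fact p.Prime]

omit [Finite G] [Fact p.Prime] in
/-- Sections inherit the shape. -/
theorem Sol3.of_sect {X : Type u} [Group X] (hX : Sect X G) (h : Sol3 p G) : Sol3 p X := by
  obtain ⟨A, L, hA, hL, hAL, hAp, hLL, hLm, hk⟩ := h
  obtain ⟨H, f, hf⟩ := hX
  refine ⟨(A.subgroupOf H).map f, (L.subgroupOf H).map f, (hA.comap H.subtype).map f hf,
    (hL.comap H.subtype).map f hf, Subgroup.map_mono (Subgroup.comap_mono hAL),
    hAp.comap_subtype.map f, ?_, ?_, fun x => ?_⟩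
  · rw [← Subgroup.map_commutator]
    refine Subgroup.map_mono (Subgroup.commutator_le.2 fun a ha b hb => ?_)
    exact hLL (Subgroup.commutator_mem_commutator ha hb)
  · rintro _ ⟨y, hy, rfl⟩
    obtain ⟨m, hm, hm'⟩ := hLm _ hy
    exact ⟨m, hm, ⟨y ^ m, by simpa [Subgroup.mem_subgroupOf] using hm', map_pow f y m⟩⟩
  · obtain ⟨y, rfl⟩ := hf x
    obtain ⟨k, hk⟩ := hk y
    exact ⟨k, ⟨y ^ p ^ k, by simpa [Subgroup.mem_subgroupOf] using hk, map_pow f y _⟩⟩

/-- A `p`-element centralizing the abelian layer lies below it, when `O_p = 1`. -/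
theorem eq_one_of_centralizes_layer (hO : Cfsg.pCore p G = ⊥) {L : Subgroup G} [L.Normal]
    (hLk : ∀ x : G, ∃ k : ℕ, x ^ p ^ k ∈ L) {h : G} (hh : ∃ k : ℕ, h ^ p ^ k = 1)
    (hc : ∀ x ∈ L, h * x = x * h) : h = 1 := by
  obtain ⟨k, hk⟩ := hh
  have hzp : IsPGroup p (Subgroup.zpowers h) := by
    rintro ⟨_, n, rfl⟩
    refine ⟨k, Subtype.ext ?_⟩
    show (h ^ n) ^ p ^ k = 1
    rw [← zpow_natCast, ← zpow_mul, mul_comm, zpow_mul, zpow_natCast, hk, one_zpow]
  obtain ⟨P, hP⟩ := hzp.exists_le_sylow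
  set X := (P : Subgroup G) ⊓ Subgroup.centralizer (L : Set G) with hX
  have htop : L ⊔ (P : Subgroup G) = ⊤ := by
    have hq : IsPGroup p (G ⧸ L) := by
      intro y
      obtain ⟨x, rfl⟩ := QuotientGroup.mk'_surjective L y
      obtain ⟨k, hk⟩ := hLk x
      exact ⟨k, by rw [← map_pow]; exact (QuotientGroup.eq_one_iff _).2 hk⟩
    have h1 : (P.mapSurjective (QuotientGroup.mk'_surjective L) : Subgroup (G ⧸ L)) = ⊤ :=
      ((P.mapSurjective (QuotientGroup.mk'_surjective L)).is_maximal'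
        (hq.to_subgroup ⊤) le_top).symm
    rw [Sylow.coe_mapSurjective] at h1
    rw [sup_comm, ← QuotientGroup.ker_mk' L, ← Subgroup.comap_map_eq, h1, Subgroup.comap_top]
  have hXn : X.Normal := by
    rw [← Subgroup.normalizer_eq_top_iff, eq_top_iff, ← htop]
    refine sup_le (fun x hx => ?_) fun s hs => mem_normalizer_of_cj ?_
    · refine Subgroup.centralizer_le_normalizer _ (Subgroup.mem_centralizer_iff.2 fun y hy => ?_)
      exact (Subgroup.mem_centralizer_iff.1 hy.2 x hx).symm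
    · rw [hX, cj_inf, cj_eq_self (Subgroup.le_normalizer hs), cj_normal]
  have hmem : h ∈ X := ⟨hP (Subgroup.mem_zpowers h),
    Subgroup.mem_centralizer_iff.2 fun x hx => (hc x hx).symm⟩
  have h2 := H19.le_pCore hXn (P.2.to_le inf_le_left) hmem
  rwa [hO, Subgroup.mem_bot] at h2

/-- An element of order prime to `p` centralizing all chief factors below a normal `p`-subgroup
centralizes it. -/
theorem centralizes_of_factors {P : Subgroup G} [P.Normal] (hP : IsPGroup p P) {x : G}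
    (hxp : (orderOf x).Coprime p)
    (hF : ∀ U V : Subgroup G, Cfsg.IsChiefFactor U V → U ≤ P → ⁅U, Subgroup.zpowers x⁆ ≤ V) :
    x ∈ Subgroup.centralizer (P : Set G) := by
  have key : ∀ W : Subgroup G, W.Normal → W ≤ P → ∀ w ∈ W, x * w * x⁻¹ = w := by
    intro W hW hWP
    induction hd : Nat.card W using Nat.strong_induction_on generalizing W with
    | _ d IH =>
    subst hd
    rcases eq_or_ne W ⊥ with rfl | hne
    · intro w hw; rw [Subgroup.mem_bot.1 hw]; simp
    obtain ⟨V, ⟨hVn, hVW⟩, hVmax⟩ := Set.exists_max_image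
      {V : Subgroup G | V.Normal ∧ V < W} (fun V : Subgroup G => Nat.card V) (Set.toFinite _)
      ⟨⊥, inferInstance, bot_lt_iff_ne_bot.2 hne⟩
    have hchief : Cfsg.IsChiefFactor W V := ⟨hVW, hW, hVn, fun N hN h1 h2 => by
      rcases h2.eq_or_lt with e | hlt
      · exact Or.inr e
      · exact Or.inl (Subgroup.eq_of_le_of_card_ge h1 (hVmax N ⟨hN, hlt⟩)).symm⟩
    refine coprime_centralizes (hP.to_le (hVW.le.trans hWP)) hxp
      (IH _ (card_lt_of_lt hVW) V hVn (hVW.le.trans hWP) rfl) fun w hw => ?_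
    have := hF W V hchief hWP
      (Subgroup.commutator_mem_commutator (W.inv_mem hw) (Subgroup.mem_zpowers x))
    simpa [commutatorElement_def, mul_assoc] using this
  rw [Subgroup.mem_centralizer_iff]
  intro w hw
  exact (mul_inv_eq_iff_eq_mul.1 (key P inferInstance le_rfl w hw)).symm

/-- The normal `p`-subgroup version of stability for groups of this shape. -/
theorem mem_of_quadratic_sol3 (hp : p ≠ 2) (hS : Sol3 p G) {P C D : Subgroup G} [P.Normal]
    (hP : IsPGroup p P) [D.Normal] (hC : C = Subgroup.centralizer (P : Set G)) (hCD : C ≤ D)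
    (hDp : ∀ x ∈ D, ∃ k : ℕ, x ^ p ^ k ∈ C)
    (hmax : ∀ M : Subgroup G, M.Normal → (∀ x ∈ M, ∃ k : ℕ, x ^ p ^ k ∈ C) → M ≤ D)
    {g : G} (hquad : ⁅⁅P, Subgroup.zpowers g⁆, Subgroup.zpowers g⁆ = ⊥) : g ∈ D := by
  classical
  set q := QuotientGroup.mk' D with hq
  have hqs : Function.Surjective q := QuotientGroup.mk'_surjective D
  have hO : Cfsg.pCore p (G ⧸ D) = ⊥ := by
    rw [eq_bot_iff]
    intro y hy
    obtain ⟨x, rfl⟩ := hqs y
    refine Subgroup.mem_bot.2 ((QuotientGroup.eq_one_iff x).2 (hmax _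
      ((H19.pCore_normal p (G ⧸ D)).comap q) (fun z hz => ?_) hy))
    obtain ⟨i, hi⟩ := H19.pCore_isPGroup (G := G ⧸ D) p ⟨_, hz⟩
    obtain ⟨j, hj⟩ := hDp (z ^ p ^ i) ((QuotientGroup.eq_one_iff _).1 (by
      have h1 := congrArg Subtype.val hi
      exact h1))
    exact ⟨i + j, by rw [pow_add, pow_mul]; exact hj⟩
  obtain ⟨A, L, hA, hL, hAL, hAp, hLL, hLm, hLk⟩ := hS
  have hAD : A ≤ D := fun a ha => by
    have h1 := H19.le_pCore (hA.map q hqs) (hAp.map q) (Subgroup.mem_map_of_mem q ha)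
    rw [hO, Subgroup.mem_bot] at h1
    exact (QuotientGroup.eq_one_iff a).1 h1
  set K := L ⊔ D with hK
  have hKimg : K.map q = L.map q := by
    rw [hK, Subgroup.map_sup, hq, QuotientGroup.map_mk'_self, sup_bot_eq]
  have hKab : ⁅K, K⁆ ≤ D := by
    rw [← QuotientGroup.ker_mk' D, ← hq, ← Subgroup.map_eq_bot_iff, Subgroup.map_commutator, hKimg,
      ← Subgroup.map_commutator, Subgroup.map_eq_bot_iff, hq, QuotientGroup.ker_mk']
    exact hLL.trans hAD
  have hKm : ∀ x ∈ K, ∃ m, ¬ p ∣ m ∧ x ^ m ∈ D := by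
    intro x hx
    obtain ⟨y, hy, e⟩ := (hKimg ▸ Subgroup.mem_map_of_mem q hx : q x ∈ L.map q)
    obtain ⟨m, hm, hm'⟩ := hLm y hy
    refine ⟨m, hm, (QuotientGroup.eq_one_iff _).1 ?_⟩
    show q (x ^ m) = 1
    rw [map_pow, ← e, ← map_pow]
    exact (QuotientGroup.eq_one_iff _).2 (hAD hm')
  by_contra hgD
  have hLk' : ∀ y : G ⧸ D, ∃ k : ℕ, y ^ p ^ k ∈ L.map q := by
    intro y
    obtain ⟨x, rfl⟩ := hqs y
    obtain ⟨k, hk⟩ := hLk x
    exact ⟨k, ⟨_, hk, map_pow q x _⟩⟩
  obtain ⟨hp1, hp2⟩ : 2 ≤ p - 1 ∧ True := ⟨by have := (Fact.out : p.Prime).two_le; omega, trivial⟩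
  -- `g` acts with `p`-power order modulo `D`
  obtain ⟨j, hj⟩ : ∃ j, g ^ p ^ j ∈ D := by
    obtain ⟨e, m, hm, hord⟩ := Nat.exists_eq_pow_mul_and_not_dvd (orderOf_pos g).ne' p
      (Fact.out : p.Prime).ne_one
    refine ⟨e, hCD ?_⟩
    have hxp : (orderOf (g ^ p ^ e)).Coprime p := by
      refine Nat.Coprime.coprime_dvd_left (orderOf_dvd_of_pow_eq_one ?_)
        ((Fact.out : p.Prime).coprime_iff_not_dvd.2 hm).symm
      rw [← pow_mul, ← hord, pow_orderOf_eq_one]
    rw [hC]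
    set x := g ^ p ^ e with hx
    have hxg : x ∈ Subgroup.zpowers g := pow_mem (Subgroup.mem_zpowers g) _
    have h2 : ∀ w ∈ P, x * w * x⁻¹ = w := by
      have hin : ∀ c ∈ ⁅P, Subgroup.zpowers g⁆, x * c * x⁻¹ = c := fun c hc => by
        have h1 : ⁅c, x⁆ ∈ ⁅⁅P, Subgroup.zpowers g⁆, Subgroup.zpowers g⁆ :=
          Subgroup.commutator_mem_commutator hc hxg
        rw [hquad, Subgroup.mem_bot, commutatorElement_eq_one_iff_mul_comm] at h1
        rw [← h1, mul_inv_cancel_right]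
      refine coprime_centralizes (hP.to_le (Subgroup.commutator_le_left _ _)) hxp hin fun w hw => ?_
      have := Subgroup.commutator_mem_commutator (H₁ := P) (H₂ := Subgroup.zpowers g) (P.inv_mem hw) hxg
      simpa [commutatorElement_def, mul_assoc] using this
    rw [Subgroup.mem_centralizer_iff]
    intro w hw
    exact (mul_inv_eq_iff_eq_mul.1 (h2 w hw)).symm
  obtain ⟨h, hhg, hhD, hhp⟩ := exists_power_above hgD hj
  -- the commutators with the layer stabilize all factors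
  set Fs : Set (Subgroup G × Subgroup G) := {F | Cfsg.IsChiefFactor F.1 F.2 ∧ F.1 ≤ P} with hFs
  set D1 := sectStab Fs with hD1
  have hD1n : D1.Normal := sectStab_normal fun F hF => ⟨hF.1.2.1, hF.1.2.2.1⟩
  have hD1le : D1 ≤ D := by
    refine hmax D1 hD1n fun x hx => ?_
    obtain ⟨e, m, hm, hord⟩ := Nat.exists_eq_pow_mul_and_not_dvd (orderOf_pos x).ne' p
      (Fact.out : p.Prime).ne_one
    refine ⟨e, hC ▸ centralizes_of_factors hP ?_ fun U V hUV hU => ?_⟩
    · refine Nat.Coprime.coprime_dvd_left (orderOf_dvd_of_pow_eq_one ?_)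
        ((Fact.out : p.Prime).coprime_iff_not_dvd.2 hm).symm
      rw [← pow_mul, ← hord, pow_orderOf_eq_one]
    · have := hUV.2.2.1
      exact (Subgroup.commutator_mono le_rfl (Subgroup.zpowers_le.2 (D1.pow_mem hx _))).trans
        (sectStab_le (show (U, V) ∈ Fs from ⟨hUV, hU⟩))
  have hcomm : ∀ k ∈ K, ⁅h, k⁆ ∈ D := by
    intro k hk
    refine hD1le ((Subgroup.zpowers_le).1 (le_sectStab fun F hF => ?_))
    obtain ⟨U, V⟩ := F
    obtain ⟨hUV, hU⟩ := hF
    have := hUV.2.1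
    have := hUV.2.2.1
    refine ⟨commutator_trivial_on_factor (D := D) (K := K) le_sup_right hKab hKm
      ((Subgroup.commutator_mono le_rfl hU).trans (chief_commutator_le hP hUV hU))
      (fun u hu => chief_pow_mem hP hUV hU u hu) ?_ hhp ?_ hk, Subgroup.le_normalizer_of_normal⟩
    · refine chief_centralized (hP.to_le hU) hUV fun x hx => ?_
      obtain ⟨i, hi⟩ := hDp x hx
      refine ⟨i, le_trans ?_ bot_le⟩
      rw [le_bot_iff, Subgroup.commutator_comm, Subgroup.commutator_eq_bot_iff_le_centralizer,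
        Subgroup.zpowers_le]
      exact Subgroup.centralizer_le (SetLike.coe_subset_coe.2 hU) (hC ▸ hi)
    · refine (iterCommutator_antitone Subgroup.le_normalizer_of_normal hp1).trans (le_trans ?_ bot_le)
      show ⁅⁅U, Subgroup.zpowers h⁆, Subgroup.zpowers h⁆ ≤ ⊥
      rw [← hquad]
      exact Subgroup.commutator_mono (Subgroup.commutator_mono hU (Subgroup.zpowers_le.2 hhg))
        (Subgroup.zpowers_le.2 hhg)
  refine hhD ((QuotientGroup.eq_one_iff h).1 ?_)
  have hLn : (L.map q).Normal := hL.map q hqs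
  refine eq_one_of_centralizes_layer hO hLk' ⟨1, ?_⟩ ?_
  · rw [pow_one]
    show q h ^ p = 1
    rw [← map_pow]
    exact (QuotientGroup.eq_one_iff _).2 hhp
  · rintro _ ⟨x, hx, rfl⟩
    rw [← commutatorElement_eq_one_iff_mul_comm]
    show ⁅q h, q x⁆ = 1
    rw [← map_commutatorElement]
    exact (QuotientGroup.eq_one_iff _).2 (hcomm x (le_sup_left (b := D) hx))

/-- Groups of this shape are stable in the normalizer form for odd `p`. -/
theorem stable_of_sol3 (hp : p ≠ 2) (hS : Sol3 p G) : Cfsg.IsNormalizerPStable p G := by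
  intro P hP g hg hquad
  set N := Subgroup.normalizer (P : Set G) with hN
  set C := (Subgroup.centralizer (P : Set G)).subgroupOf N with hC
  set D := (Cfsg.pCore p (↥N ⧸ C)).comap (QuotientGroup.mk' C) with hD
  have hDn : D.Normal := (H19.pCore_normal p _).comap _
  set P₀ := P.subgroupOf N with hP₀
  have hP₀n : P₀.Normal := (Subgroup.normal_subgroupOf_iff_le_normalizer Subgroup.le_normalizer).2 le_rfl
  have hC' : C = Subgroup.centralizer (P₀ : Set N) := by
    ext x
    simp only [hC, Subgroup.mem_subgroupOf, Subgroup.mem_centralizer_iff]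
    refine ⟨fun h y hy => Subtype.ext (h y hy), fun h y hy => ?_⟩
    exact congrArg Subtype.val (h ⟨y, Subgroup.le_normalizer hy⟩ hy)
  have hquad' : ⁅⁅P₀, Subgroup.zpowers (⟨g, hg⟩ : N)⁆, Subgroup.zpowers (⟨g, hg⟩ : N)⁆ = ⊥ := by
    refine (Subgroup.map_eq_bot_iff_of_injective _ N.subtype_injective).1 ?_
    rw [Subgroup.map_commutator, Subgroup.map_commutator, MonoidHom.map_zpowers,
      Subgroup.map_subgroupOf_eq_of_le Subgroup.le_normalizer]
    exact hquad
  refine @mem_of_quadratic_sol3 N _ _ p _ hp (hS.of_sect (sect_subgroup N)) P₀ C D hP₀n hP.comap_subtype hDn hC'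
    (fun x hx => ?_) (fun x hx => ?_) (fun M hM hMp x hx => ?_) _ hquad'
  · show QuotientGroup.mk' C x ∈ Cfsg.pCore p (↥N ⧸ C)
    rw [QuotientGroup.mk'_apply, (QuotientGroup.eq_one_iff x).2 hx]
    exact one_mem _
  · obtain ⟨k, hk⟩ := H19.pCore_isPGroup (G := ↥N ⧸ C) p ⟨_, hx⟩
    refine ⟨k, (QuotientGroup.eq_one_iff _).1 ?_⟩
    have := congrArg Subtype.val hk
    simpa using this
  · refine H19.le_pCore (hM.map _ (QuotientGroup.mk'_surjective C)) ?_
      (Subgroup.mem_map_of_mem (QuotientGroup.mk' C) hx)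
    rintro ⟨_, z, hz, rfl⟩
    obtain ⟨k, hk⟩ := hMp z hz
    refine ⟨k, Subtype.ext ?_⟩
    simp only [SubgroupClass.coe_pow, OneMemClass.coe_one, ← map_pow]
    exact (QuotientGroup.eq_one_iff _).2 hk

end Cfsg.Agent.H61
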