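import Cfsg.Agent.H20.Sylow
import Cfsg.Agent.H87.Frobenius

/-!
Coprime action in which all non-identity elements have the same fixed points: an invariant Sylow
subgroup exists without solvability, and gives a fixed-point-free section.
-/

set_option autoImplicit false
open scoped Pointwise

namespace Cfsg.Agent.H61.TIHallComplement

/-- A group is not partitioned into proper self-normalising TI subgroups, closed under conjugation. -/
theorem exists_part_eq_top {A : Type*} [Group A] [Finite A] [Nontrivial A] (J : A → Subgroup A)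
    (hmem : ∀ a, a ≠ 1 → a ∈ J a) (heq : ∀ a, a ≠ 1 → ∀ x ∈ J a, x ≠ 1 → J x = J a)
    (hnorm : ∀ a, a ≠ 1 → ∀ y, (∀ x ∈ J a, y * x * y⁻¹ ∈ J a) → y ∈ J a)
    (hconj : ∀ a, a ≠ 1 → ∀ x ∈ J a, ∀ y, y * x * y⁻¹ ∈ J (y * a * y⁻¹)) :
    ∃ a, a ≠ 1 ∧ J a = ⊤ := by
  classical
  by_contra hcon
  push_neg at hcon
  have hne : ∀ y a : A, a ≠ 1 → y * a * y⁻¹ ≠ 1 := fun y a ha h => ha (conj_eq_one_iff.1 h)
  have hTI : ∀ a, a ≠ 1 → ∀ y, ∀ x ∈ J a, x ≠ 1 → y * x * y⁻¹ ∈ J a → y ∈ J a := by
    intro a ha y x hx hx1 hxy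
    refine hnorm a ha y fun z hz => ?_
    have h1 := hconj a ha z hz y
    have h2 : J (y * a * y⁻¹) = J a :=
      (heq _ (hne y a ha) _ (hconj a ha x hx y) (hne y x hx1)).symm.trans
        (heq a ha _ hxy (hne y x hx1))
    exact h2 ▸ h1
  let S : A → Type _ := fun a => (A ⧸ J a) × {x : J a // x ≠ 1}
  let f : ∀ a, S a → {x : A // x ≠ 1} := fun a p =>
    ⟨p.1.out * ((p.2.1 : J a) : A) * p.1.out⁻¹, hne _ _ (fun h => p.2.2 (Subtype.ext h))⟩
  have finj : ∀ a, a ≠ 1 → Function.Injective (f a) := by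
    rintro a ha ⟨q, x, hx⟩ ⟨q', x', hx'⟩ h
    have h1 : q.out * (x : A) * q.out⁻¹ = q'.out * (x' : A) * q'.out⁻¹ := congrArg Subtype.val h
    have h2 : (q'.out⁻¹ * q.out) * (x : A) * (q'.out⁻¹ * q.out)⁻¹ = (x' : A) := by
      calc (q'.out⁻¹ * q.out) * (x : A) * (q'.out⁻¹ * q.out)⁻¹
          = q'.out⁻¹ * (q.out * (x : A) * q.out⁻¹) * q'.out := by group
        _ = (x' : A) := by rw [h1]; group
    have h3 := hTI a ha _ _ x.2 (fun h => hx (Subtype.ext h)) (h2 ▸ x'.2)
    have h4 : q' = q := by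
      have := QuotientGroup.eq.2 h3
      rwa [QuotientGroup.out_eq', QuotientGroup.out_eq'] at this
    subst h4
    have h5 : (x : A) = x' := by
      have := h1
      simpa using this
    exact Prod.ext rfl (Subtype.ext (Subtype.ext h5))
  have hS : ∀ a, Nat.card (S a) = (J a).index * (Nat.card (J a) - 1) := by
    intro a
    haveI := Fintype.ofFinite (J a)
    rw [Nat.card_prod, Nat.card_eq_fintype_card (α := {x : J a // x ≠ 1}),
      Fintype.card_subtype_compl, Fintype.card_subtype_eq, ← Nat.card_eq_fintype_card]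
    rfl
  have hB : Nat.card {x : A // x ≠ 1} + 1 = Nat.card A := by
    haveI := Fintype.ofFinite A
    rw [Nat.card_eq_fintype_card, Fintype.card_subtype_compl, Fintype.card_subtype_eq,
      Nat.card_eq_fintype_card]
    exact Nat.sub_add_cancel Fintype.card_pos
  have hidx : ∀ a, a ≠ 1 → 2 ≤ (J a).index ∧ 2 ≤ Nat.card (J a) ∧
      Nat.card (S a) + (J a).index = Nat.card A := by
    intro a ha
    have h2 : 2 ≤ Nat.card (J a) := by
      haveI : Nontrivial (J a) := ⟨⟨a, hmem a ha⟩, 1, fun h => ha (congrArg Subtype.val h)⟩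
      exact Finite.one_lt_card
    refine ⟨?_, h2, ?_⟩
    · have : (J a).index ≠ 1 := fun h => hcon a ha (Subgroup.index_eq_one.1 h)
      have := (J a).index_ne_zero_of_finite
      omega
    · rw [hS, ← (J a).index_mul_card, ← Nat.mul_add_one, Nat.sub_add_cancel (by omega)]
  obtain ⟨a, ha⟩ := exists_ne (1 : A)
  obtain ⟨b, hb1, hb⟩ : ∃ b : A, b ≠ 1 ∧ ∀ p : S a, (f a p : A) ≠ b := by
    by_contra h
    push_neg at h
    have hsurj : Function.Surjective (f a) := fun x => by
      obtain ⟨p, hp⟩ := h x x.2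
      exact ⟨p, Subtype.ext hp⟩
    have := Nat.card_le_card_of_surjective _ hsurj
    obtain ⟨h1, -, h3⟩ := hidx a ha
    omega
  have hinj : Function.Injective (Sum.elim (f a) (f b)) := by
    refine (finj a ha).sumElim (finj b hb1) ?_
    rintro ⟨q, x, hx⟩ ⟨q', x', hx'⟩ h
    have h1 : q.out * (x : A) * q.out⁻¹ = q'.out * (x' : A) * q'.out⁻¹ := congrArg Subtype.val h
    set y := q'.out⁻¹ * q.out with hy
    have h2 : y * (x : A) * y⁻¹ = (x' : A) := by
      calc y * (x : A) * y⁻¹ = q'.out⁻¹ * (q.out * (x : A) * q.out⁻¹) * q'.out := by rw [hy]; group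
        _ = (x' : A) := by rw [h1]; group
    have hx1 : (x : A) ≠ 1 := fun e => hx (Subtype.ext e)
    have h3 : J (y * a * y⁻¹) = J b :=
      ((heq _ (hne y a ha) _ (hconj a ha _ x.2 y) (hne y _ hx1)).symm).trans
        (heq b hb1 _ (h2.symm ▸ x'.2) (hne y _ hx1))
    have h4 : y⁻¹ * b * y ∈ J a := by
      have h6 := hconj _ (hne y a ha) b (h3 ▸ hmem b hb1) y⁻¹
      rw [inv_inv, show y⁻¹ * (y * a * y⁻¹) * y = a by group] at h6
      exact h6
    -- so `b` is covered by the conjugates of `J a`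
    obtain ⟨c, hc⟩ := QuotientGroup.mk_out_eq_mul (J a) y
    have h5 : (c : A) * 1 ∈ J a := by simp
    refine hb ⟨(y : A ⧸ J a), ⟨⟨(c : A)⁻¹ * (y⁻¹ * b * y) * c,
      mul_mem (mul_mem (inv_mem c.2) h4) c.2⟩, fun e => hne (y * c)⁻¹ b hb1 ?_⟩⟩ ?_
    · have := congrArg Subtype.val e
      simp only [OneMemClass.coe_one] at this
      rw [← this]; group
    · show (y : A ⧸ J a).out * ((c : A)⁻¹ * (y⁻¹ * b * y) * c) * (y : A ⧸ J a).out⁻¹ = b
      rw [hc]; group
  have := Nat.card_le_card_of_injective _ hinj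
  rw [Nat.card_sum] at this
  obtain ⟨h1, h2, h3⟩ := hidx a ha
  obtain ⟨h4, h5, h6⟩ := hidx b hb1
  have h7 := (J a).index_mul_card
  have h8 := (J b).index_mul_card
  have h9 : 2 * (J a).index ≤ Nat.card A := by nlinarith
  have h10 : 2 * (J b).index ≤ Nat.card A := by nlinarith
  omega

/-- All non-identity elements of `H` have the same fixed points in `M`: then `H` normalises a
Sylow subgroup of `M`. -/
theorem exists_invariant_sylow {G : Type*} [Group G] [Finite G] {H M C : Subgroup G}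
    (hH : H ≠ ⊥) (hHM : H ≤ Subgroup.normalizer (M : Set G))
    (hcop : (Nat.card H).Coprime (Nat.card M)) (hCM : C ≤ M)
    (hcomm : ∀ k ∈ C, ∀ h ∈ H, h * k = k * h)
    (hfix : ∀ k ∈ M, ∀ h ∈ H, h ≠ 1 → h * k = k * h → k ∈ C) (r : ℕ) [Fact r.Prime] :
    ∃ P : Subgroup G, P ≤ M ∧ Nat.card P = r ^ (Nat.card M).factorization r ∧
      H ≤ Subgroup.normalizer (P : Set G) := by
  classical
  haveI : Nontrivial H := (Subgroup.nontrivial_iff_ne_bot H).2 hH
  have hz : ∀ a : H, Subgroup.zpowers (a : G) ≤ Subgroup.normalizer (M : Set G) := fun a =>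
    Subgroup.zpowers_le.2 (hHM a.2)
  have hzc : ∀ a : H, (Nat.card (Subgroup.zpowers (a : G))).Coprime (Nat.card M) := fun a =>
    hcop.coprime_dvd_left (Subgroup.card_dvd_of_le (Subgroup.zpowers_le.2 a.2))
  have hzs : ∀ a : H, Group.IsSolvable (Subgroup.zpowers (a : G)) := fun a =>
    Group.isSolvable_of_comm fun x y => mul_comm' x y
  choose P hPM hPn _ hPc using fun a : H =>
    H20.exists_invariant_sylow_subgroup (hz a) (hzc a) (Or.inl (hzs a)) r
  set J : H → Subgroup H := fun a => (Subgroup.normalizer (P a : Set G)).subgroupOf H with hJ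
  have hJmem : ∀ a x : H, x ∈ J a ↔ (x : G) ∈ Subgroup.normalizer (P a : Set G) := fun a x => Iff.rfl
  -- two fixed Sylow subgroups of one non-identity element are conjugate in `C`
  have key : ∀ (x : H), x ≠ 1 → ∀ U V : Subgroup G, U ≤ M → V ≤ M →
      Nat.card U = r ^ (Nat.card M).factorization r → Nat.card V = r ^ (Nat.card M).factorization r →
      (x : G) ∈ Subgroup.normalizer (U : Set G) → (x : G) ∈ Subgroup.normalizer (V : Set G) →
      ∃ c ∈ C, MulAut.conj c • U = V := by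
    intro x hx U V hU hV hUc hVc hxU hxV
    obtain ⟨c, hc, hcUV⟩ := H20.invariant_sylow_subgroup_conj (hz x) (hzc x) (Or.inl (hzs x))
      hU hV hUc hVc (Subgroup.zpowers_le.2 hxU) (Subgroup.zpowers_le.2 hxV)
    exact ⟨c, hfix c hc.1 x x.2 (fun e => hx (Subtype.ext e))
      (Subgroup.mem_centralizer_iff.1 hc.2 x (Subgroup.mem_zpowers _)), hcUV⟩
  -- conjugating by an element commuting with `H` does not change the normaliser in `H`
  have norm_conj : ∀ (g : G) (U : Subgroup G) (x : G),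
      x ∈ Subgroup.normalizer ((MulAut.conj g • U : Subgroup G) : Set G) ↔
        g⁻¹ * x * g ∈ Subgroup.normalizer (U : Set G) := by
    intro g U x
    have hm : ∀ z : G, z ∈ MulAut.conj g • U ↔ g⁻¹ * z * g ∈ U := fun z => by
      rw [Subgroup.mem_pointwise_smul_iff_inv_smul_mem]
      simp [MulAut.smul_def]
    simp only [Subgroup.mem_normalizer_iff, hm]
    constructor
    · intro h z
      have := h (g * z * g⁻¹)
      simpa [mul_assoc] using this
    · intro h z
      have := h (g⁻¹ * z * g)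
      simpa [mul_assoc] using this
  have hnc : ∀ k ∈ C, ∀ (U : Subgroup G) (x : G), x ∈ H →
      (x ∈ Subgroup.normalizer ((MulAut.conj k • U : Subgroup G) : Set G) ↔
        x ∈ Subgroup.normalizer (U : Set G)) := by
    intro k hk U x hx
    rw [norm_conj, show k⁻¹ * x * k = x by rw [mul_assoc, hcomm k hk x hx, inv_mul_cancel_left]]
  have heq : ∀ a, a ≠ 1 → ∀ x ∈ J a, x ≠ 1 → J x = J a := by
    intro a _ x hx hx1
    obtain ⟨c, hc, e⟩ := key x hx1 (P a) (P x) (hPM a) (hPM x) (hPc a) (hPc x) hx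
      (hPn x (Subgroup.mem_zpowers _))
    ext y
    rw [hJmem, hJmem, ← e, hnc c hc _ _ y.2]
  have hconjM : ∀ (y : H) (U : Subgroup G), U ≤ M → MulAut.conj (y : G) • U ≤ M := by
    intro y U hU z hz'
    obtain ⟨u, hu, rfl⟩ := Subgroup.mem_smul_pointwise_iff_exists _ _ _ |>.1 hz'
    exact (Subgroup.mem_normalizer_iff.1 (hHM y.2) u).1 (hU hu)
  obtain ⟨a, ha, hJa⟩ := exists_part_eq_top J
    (fun a _ => hPn a (Subgroup.mem_zpowers _)) heq
    (by
      intro a ha y hy
      have haP : (a : G) ∈ Subgroup.normalizer (P a : Set G) := hPn a (Subgroup.mem_zpowers _)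
      have hU : ((y * a * y⁻¹ : H) : G) ∈
          Subgroup.normalizer ((MulAut.conj (y : G) • P a : Subgroup G) : Set G) := by
        rw [norm_conj]
        convert haP using 1
        push_cast
        group
      obtain ⟨c, hc, e⟩ := key (y * a * y⁻¹) (fun h => ha (conj_eq_one_iff.1 h)) (P a)
        (MulAut.conj (y : G) • P a) (hPM a) (hconjM y _ (hPM a)) (hPc a)
        (by rw [H20.card_conj_smul, hPc a]) (hy a haP) hU
      -- `c⁻¹ y` normalises `P a`, and `y` is one of its powers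
      have hcy : c⁻¹ * (y : G) ∈ Subgroup.normalizer (P a : Set G) := by
        refine H20.mem_normalizer_of_conj_smul_eq ?_
        rw [map_mul, mul_smul, ← e, map_inv, inv_smul_smul]
      have hcomm' : Commute c⁻¹ (y : G) := ((show Commute (y : G) c from hcomm c hc y y.2).symm).inv_left
      have hco : (orderOf c⁻¹).Coprime (orderOf (y : G)) :=
        ((hcop.coprime_dvd_left (Subgroup.orderOf_dvd_natCard H y.2)).coprime_dvd_right
          ((orderOf_inv c).symm ▸ Subgroup.orderOf_dvd_natCard M (hCM hc))).symm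
      obtain ⟨m, hm⟩ := exists_pow_eq_self_of_coprime (n := orderOf c⁻¹) (x := (y : G)) hco
      have hpow : (c⁻¹ * (y : G)) ^ (orderOf c⁻¹ * m) = (y : G) := by
        rw [hcomm'.mul_pow, pow_mul c⁻¹, pow_orderOf_eq_one, one_pow, one_mul, pow_mul, hm]
      rw [hJmem, ← hpow]
      exact pow_mem hcy _)
    (by
      intro a ha x hx y
      have hx' : ((y * x * y⁻¹ : H) : G) ∈
          Subgroup.normalizer ((MulAut.conj (y : G) • P a : Subgroup G) : Set G) := by
        rw [norm_conj]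
        convert (show (x : G) ∈ Subgroup.normalizer (P a : Set G) from hx) using 1
        push_cast
        group
      have hb : ((y * a * y⁻¹ : H) : G) ∈
          Subgroup.normalizer ((MulAut.conj (y : G) • P a : Subgroup G) : Set G) := by
        rw [norm_conj]
        convert hPn a (Subgroup.mem_zpowers _) using 1
        push_cast
        group
      obtain ⟨c, hc, e⟩ := key (y * a * y⁻¹) (fun h => ha (conj_eq_one_iff.1 h))
        (MulAut.conj (y : G) • P a) (P (y * a * y⁻¹)) (hconjM y _ (hPM a)) (hPM _)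
        (by rw [H20.card_conj_smul, hPc a]) (hPc _) hb (hPn _ (Subgroup.mem_zpowers _))
      rw [hJmem, ← e, hnc c hc _ _ (y * x * y⁻¹).2]
      exact hx')
  exact ⟨P a, hPM a, hPc a, Subgroup.subgroupOf_eq_top.1 hJa⟩

/-- A fixed-point-free section inside an `r`-group. -/
theorem exists_frobenius {G : Type*} [Group G] [Finite G] {H P D : Subgroup G}
    (hH : H ≠ ⊥) {r : ℕ} [Fact r.Prime] (hP : IsPGroup r P) (hDP : D < P)
    (hHP : H ≤ Subgroup.normalizer (P : Set G)) (hcop : (Nat.card H).Coprime (Nat.card P))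
    (hcomm : ∀ k ∈ D, ∀ h ∈ H, h * k = k * h)
    (hfix : ∀ k ∈ P, ∀ h ∈ H, h ≠ 1 → h * k = k * h → k ∈ D) :
    ∃ (Y : Subgroup G) (Z : Subgroup Y) (_ : Z.Normal), ∃ C : Subgroup (Y ⧸ Z),
      Cfsg.IsFrobeniusComplement C ∧ Nonempty (H ≃* C) := by
  classical
  set X := P ⊓ Subgroup.normalizer (D : Set G) with hX
  have hDX : D ≤ X := le_inf hDP.le Subgroup.le_normalizer
  have hHD : H ≤ Subgroup.normalizer (D : Set G) := fun h hh => by
    rw [Subgroup.mem_normalizer_iff]
    intro k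
    constructor
    · intro hk; rwa [hcomm k hk h hh, mul_inv_cancel_right]
    · intro hk
      have h1 := hcomm _ hk h hh
      have h2 : h * k * h⁻¹ = k := by
        have h3 : h * (h * k * h⁻¹) = h * k := by rw [h1]; group
        exact mul_left_cancel h3
      rwa [h2] at hk
  have hHX : H ≤ Subgroup.normalizer (X : Set G) :=
    H20.le_normalizer_inf hHP (hHD.trans Subgroup.le_normalizer)
  set Y := X ⊔ H with hY
  have hYD : Y ≤ Subgroup.normalizer (D : Set G) := sup_le inf_le_right hHD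
  haveI hZn : (D.subgroupOf Y).Normal := Subgroup.normal_subgroupOf_of_le_normalizer hYD
  refine ⟨Y, D.subgroupOf Y, hZn, ?_⟩
  set π := QuotientGroup.mk' (D.subgroupOf Y) with hπ
  set A := (X.subgroupOf Y).map π with hA
  set C := (H.subgroupOf Y).map π with hC
  haveI : (X.subgroupOf Y).Normal :=
    Subgroup.normal_subgroupOf_of_le_normalizer (sup_le Subgroup.le_normalizer hHX)
  haveI : A.Normal := Subgroup.Normal.map inferInstance _ (QuotientGroup.mk'_surjective _)
  have hπ1 : ∀ z : Y, π z = 1 ↔ (z : G) ∈ D := fun z => QuotientGroup.eq_one_iff z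
  have hHXbot : H ⊓ X = ⊥ :=
    Subgroup.inf_eq_bot_of_coprime (hcop.coprime_dvd_right (Subgroup.card_dvd_of_le inf_le_left))
  have hXlt : D < X := by
    refine lt_of_le_of_ne hDX fun e => ?_
    have hlt : D.subgroupOf P < ⊤ := lt_of_le_of_ne le_top fun h =>
      hDP.not_ge (Subgroup.subgroupOf_eq_top.1 h)
    haveI := hP.isNilpotent
    obtain ⟨g, hg, hgD⟩ := SetLike.exists_of_lt (Group.normalizerCondition_of_isNilpotent _ hlt)
    refine hgD (Subgroup.mem_subgroupOf.2 (e.symm ▸ Subgroup.mem_inf.2 ⟨g.2, ?_⟩))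
    rw [Subgroup.mem_normalizer_iff]
    intro k
    by_cases hk : k ∈ P
    · exact Subgroup.mem_normalizer_iff.1 hg ⟨k, hk⟩
    · refine iff_of_false (fun h => hk (hDP.le h)) fun h => hk ?_
      have := P.mul_mem (P.mul_mem (P.inv_mem g.2) (hDP.le h)) g.2
      simpa [mul_assoc] using this
  have hAne : A ≠ ⊥ := by
    obtain ⟨x, hxX, hxD⟩ := SetLike.exists_of_lt hXlt
    intro h
    have h1 : π ⟨x, le_sup_left (a := X) hxX⟩ ∈ A := Subgroup.mem_map_of_mem _ hxX
    rw [h, Subgroup.mem_bot, hπ1] at h1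
    exact hxD h1
  have hinjH : ∀ h ∈ H, h ∈ D → h = 1 := fun h hh hD => by
    have : h ∈ H ⊓ X := ⟨hh, hDX hD⟩
    rwa [hHXbot, Subgroup.mem_bot] at this
  have hCne : C ≠ ⊥ := by
    obtain ⟨h, hh, h1⟩ := (Subgroup.ne_bot_iff_exists_ne_one.1 hH)
      |> fun ⟨⟨h, hh⟩, h1⟩ => (⟨h, hh, fun e => h1 (Subtype.ext e)⟩ : ∃ h, h ∈ H ∧ h ≠ 1)
    intro e
    have h2 : π ⟨h, le_sup_right (a := X) hh⟩ ∈ C := Subgroup.mem_map_of_mem _ hh
    rw [e, Subgroup.mem_bot, hπ1] at h2
    exact h1 (hinjH h hh h2)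
  have hdisj : A ⊓ C = ⊥ := by
    rw [Subgroup.eq_bot_iff_forall]
    rintro _ ⟨⟨x, hx, rfl⟩, ⟨h, hh, e⟩⟩
    have h1 : π (h⁻¹ * x) = 1 := by rw [map_mul, map_inv, e, inv_mul_cancel]
    rw [hπ1] at h1
    push_cast at h1
    have h3 : (h : G) ∈ X := by
      have h4 : (h : G) = (x : G) * ((h : G)⁻¹ * x)⁻¹ := by group
      rw [h4]
      exact mul_mem hx (inv_mem (hDX h1))
    have h5 : (h : G) = 1 := by
      have : (h : G) ∈ H ⊓ X := ⟨hh, h3⟩
      rwa [hHXbot, Subgroup.mem_bot] at this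
    rw [← e, hπ1, h5]
    exact D.one_mem
  have htop : A ⊔ C = ⊤ := by
    rw [hA, hC, ← Subgroup.map_sup, ← Subgroup.subgroupOf_sup le_sup_left le_sup_right]
    exact (congrArg (Subgroup.map π) (Subgroup.subgroupOf_self Y)).trans
      (Subgroup.map_top_of_surjective _ (QuotientGroup.mk'_surjective _))
  refine ⟨C, (H87.frobenius_of_fixed_point_free A C hAne hCne hdisj htop ?_).1, ?_⟩
  · rintro _ ⟨h, hh, rfl⟩ h1 _ ⟨x, hx, rfl⟩ hcm
    rw [hπ1]
    have hh1 : (h : G) ≠ 1 := fun e => h1 ((hπ1 h).2 (e ▸ D.one_mem))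
    obtain ⟨c, hc, hceq⟩ : ∃ c ∈ D, (h : G) * x * (h : G)⁻¹ = x * c := by
      have h2 : π (x⁻¹ * (h * x * h⁻¹)) = 1 := by
        rw [map_mul, map_inv, map_mul, map_mul, map_inv, hcm]
        group
      rw [hπ1] at h2
      push_cast at h2
      exact ⟨_, h2, by group⟩
    have hiter : ∀ n : ℕ, (h : G) ^ n * x * ((h : G) ^ n)⁻¹ = x * c ^ n := by
      intro n
      induction n with
      | zero => simp
      | succ n ih =>
        have hcc : (h : G) * c ^ n * (h : G)⁻¹ = c ^ n := by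
          rw [hcomm _ (pow_mem hc n) h hh, mul_inv_cancel_right]
        calc (h : G) ^ (n + 1) * x * ((h : G) ^ (n + 1))⁻¹
            = (h : G) * ((h : G) ^ n * x * ((h : G) ^ n)⁻¹) * (h : G)⁻¹ := by rw [pow_succ']; group
          _ = ((h : G) * x * (h : G)⁻¹) * ((h : G) * c ^ n * (h : G)⁻¹) := by rw [ih]; group
          _ = x * c ^ (n + 1) := by rw [hceq, hcc, pow_succ']; group
    have hc1 : c = 1 := by
      have h3 := hiter (orderOf (h : G))
      rw [pow_orderOf_eq_one, one_mul, inv_one, mul_one, left_eq_mul] at h3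
      refine orderOf_eq_one_iff.1 (Nat.eq_one_of_dvd_coprimes hcop
        ((orderOf_dvd_of_pow_eq_one h3).trans (Subgroup.orderOf_dvd_natCard H hh))
        (Subgroup.orderOf_dvd_natCard P (hDP.le hc)))
    subst hc1
    rw [mul_one] at hceq
    exact hfix x (Subgroup.mem_inf.1 hx).1 h hh hh1 (mul_inv_eq_iff_eq_mul.1 hceq)
  · refine ⟨((Subgroup.subgroupOfEquivOfLe (show H ≤ Y from le_sup_right)).symm.trans
      (MulEquiv.ofBijective (π.subgroupMap (H.subgroupOf Y)) ⟨?_, π.subgroupMap_surjective _⟩))⟩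
    rw [injective_iff_map_eq_one]
    intro z hz
    have h2 : π (z : Y) = 1 := congrArg Subtype.val hz
    rw [hπ1] at h2
    exact Subtype.ext (Subtype.ext (hinjH _ z.2 h2))

end Cfsg.Agent.H61.TIHallComplement
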