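import Cfsg.Agent.H50.PSUThreeSylow

/-!
The centralizer of an involution in `PSU(3,4)`.
-/

set_option autoImplicit false

namespace Cfsg.Agent.H61.U34Centralizer

open Matrix
open Cfsg.Agent.H50 (PSUThree.mat PSUThree.Hyp)
open scoped commutatorElement

variable {F : Type*} [Field F] [Fintype F] (H : PSUThree.Hyp F 4)

local notation "SL3" => SpecialLinearGroup (Fin 3) F

/-- The antidiagonal form. -/
def anti (y z : Fin 3 → F) : F := y 0 * z 2 ^ 4 + y 1 * z 1 ^ 4 + y 2 * z 0 ^ 4

/-- Preserving the antidiagonal form. -/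
def Pres (M : SL3) : Prop :=
  ∀ y z : Fin 3 → F, anti ((M : Matrix (Fin 3) (Fin 3) F) *ᵥ y) ((M : Matrix (Fin 3) (Fin 3) F) *ᵥ z) = anti y z

include H in
theorem mem_SU_of_pres {M : SL3} (hM : Pres M) : H.base * M * H.base⁻¹ ∈ Cfsg.SU 3 F 4 := by
  rw [H3.mem_SU_iff]
  intro u v
  have hback : ∀ u : Fin 3 → F, ((H.base : SL3) : Matrix (Fin 3) (Fin 3) F) *ᵥ
      (((H.base⁻¹ : SL3) : Matrix (Fin 3) (Fin 3) F) *ᵥ u) = u := fun u =>
    (Matrix.mulVec_mulVec u _ _).trans ((congrArg
      (fun g : SL3 => (g : Matrix (Fin 3) (Fin 3) F) *ᵥ u) (mul_inv_cancel H.base)).trans (Matrix.one_mulVec u))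
  conv_rhs => rw [← hback u, ← hback v, H.form_base]
  have hprod : ∀ w : Fin 3 → F, ((H.base * M * H.base⁻¹ : SL3) : Matrix (Fin 3) (Fin 3) F) *ᵥ w =
      ((H.base : SL3) : Matrix (Fin 3) (Fin 3) F) *ᵥ ((M : Matrix (Fin 3) (Fin 3) F) *ᵥ
        (((H.base⁻¹ : SL3) : Matrix (Fin 3) (Fin 3) F) *ᵥ w)) := fun w =>
    ((Matrix.mulVec_mulVec _ _ _).trans (Matrix.mulVec_mulVec _ _ _)).symm
  rw [hprod, hprod, H.form_base]
  exact hM _ _

/-- The matrix of an element in the basis with two isotropic vectors. -/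
noncomputable def back (g : Cfsg.SU 3 F 4) : SL3 := H.base⁻¹ * (g : SL3) * H.base

theorem back_mul (g g' : Cfsg.SU 3 F 4) : back H (g * g') = back H g * back H g' := by
  simp only [back, Subgroup.coe_mul]
  group

theorem back_injective : Function.Injective (back H) := fun g g' h =>
  Subtype.ext (mul_left_cancel (mul_right_cancel h))

theorem back_toSU (u : H.U) : back H (H.toSU u) = (u : SL3) := by
  show H.base⁻¹ * (H.base * (u : SL3) * H.base⁻¹) * H.base = _
  group

theorem pres_back (g : Cfsg.SU 3 F 4) : Pres (back H g) := by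
  intro y z
  have hg := H3.mem_SU_iff.1 g.2
  have hmul : ∀ w, ((H.base : SL3) : Matrix (Fin 3) (Fin 3) F) *ᵥ ((back H g : Matrix (Fin 3) (Fin 3) F) *ᵥ w)
      = ((g : SL3) : Matrix (Fin 3) (Fin 3) F) *ᵥ (((H.base : SL3) : Matrix (Fin 3) (Fin 3) F) *ᵥ w) := by
    intro w
    rw [Matrix.mulVec_mulVec, Matrix.mulVec_mulVec]
    have : H.base * back H g = (g : SL3) * H.base := by simp only [back]; group
    exact congrArg (fun M : SL3 => (M : Matrix (Fin 3) (Fin 3) F) *ᵥ w) this
  unfold anti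
  rw [← H.form_base, ← H.form_base, hmul, hmul, hg]

/-- The distinguished involution. -/
noncomputable def inv0 : Cfsg.SU 3 F 4 :=
  H.toSU (H.elt 0 1 (by rw [one_pow, zero_pow (Nat.succ_ne_zero 4)]; exact H.add_self 1))

theorem back_inv0 : (back H (inv0 H) : SL3) = PSUThree.mat 4 0 1 := back_toSU H _

include H in
/-- The shape of a form-preserving matrix commuting with the involution. -/
theorem shape {M : SL3} (hM : Pres M) (hc : M * PSUThree.mat 4 0 1 = PSUThree.mat 4 0 1 * M) :
    ∃ l a c : F, l ^ 5 = 1 ∧ c + c ^ 4 = a ^ (4 + 1) ∧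
      (M : Matrix (Fin 3) (Fin 3) F) = !![l, l * a ^ 4, l * c; 0, l ^ 3, l ^ 3 * a; 0, 0, l] := by
  have hcm := congrArg (fun N : SL3 => (N : Matrix (Fin 3) (Fin 3) F)) hc
  simp only [Matrix.SpecialLinearGroup.coe_mul, H50.PSUThree.mat_val] at hcm
  have e := fun i j => congrFun (congrFun hcm i) j
  have z4 : (0 : F) ^ 4 = 0 := zero_pow (by norm_num)
  have e00 := e 0 0
  have e02 := e 0 2
  have e01 := e 0 1
  have e12 := e 1 2
  simp [Matrix.mul_apply, Fin.sum_univ_three, z4] at e00 e01 e02 e12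
  have h21 : (M : Matrix (Fin 3) (Fin 3) F) 2 1 = 0 := e01
  have h20 : (M : Matrix (Fin 3) (Fin 3) F) 2 0 = 0 := e00
  have h10 : (M : Matrix (Fin 3) (Fin 3) F) 1 0 = 0 := e12
  have h22 : (M : Matrix (Fin 3) (Fin 3) F) 2 2 = (M : Matrix (Fin 3) (Fin 3) F) 0 0 := by
    linear_combination -e02
  set l := (M : Matrix (Fin 3) (Fin 3) F) 0 0
  set x := (M : Matrix (Fin 3) (Fin 3) F) 0 1
  set y := (M : Matrix (Fin 3) (Fin 3) F) 0 2
  set m := (M : Matrix (Fin 3) (Fin 3) F) 1 1
  set b := (M : Matrix (Fin 3) (Fin 3) F) 1 2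
  have hdet := M.2
  rw [Matrix.det_fin_three, h21, h20, h10, h22] at hdet
  have hlm : l * l * m = 1 := by linear_combination hdet
  have hl0 : l ≠ 0 := fun h => by simp [h] at hlm
  have f02 := hM (Pi.single 0 1) (Pi.single 2 1)
  have f12 := hM (Pi.single 1 1) (Pi.single 2 1)
  have f22 := hM (Pi.single 2 1) (Pi.single 2 1)
  simp [anti, Matrix.mulVec, dotProduct, Fin.sum_univ_three, h21, h20, h10, h22, z4] at f02 f12 f22
  have hl5 : l ^ 5 = 1 := by linear_combination f02
  have hm : m = l ^ 3 := by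
    have : l * l * m = l * l * l ^ 3 := by rw [hlm]; linear_combination -hl5
    exact mul_left_cancel₀ (mul_ne_zero hl0 hl0) this
  refine ⟨l, l ^ 2 * b, l ^ 4 * y, hl5, ?_, ?_⟩
  · have h2 := H.two
    have : (l ^ 4 * y) ^ 4 = l * y ^ 4 := by
      linear_combination (l ^ 11 + l ^ 6 + l) * y ^ 4 * hl5
    rw [this, show (l ^ 2 * b) ^ (4 + 1) = b ^ 5 by linear_combination (l ^ 5 + 1) * b ^ 5 * hl5]
    linear_combination f22 - b ^ 5 * h2
  · ext i j
    fin_cases i <;> fin_cases j <;> simp [h21, h20, h10, h22, x, y, m, b, l]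
    · show x = l * (l ^ 2 * b) ^ 4
      have h2 := H.two
      rw [show (M : Matrix (Fin 3) (Fin 3) F) 1 1 = l ^ 3 from hm] at f12
      linear_combination l * f12 - (x + l ^ 4 * b ^ 4) * hl5 - (l ^ 4 * b ^ 4) * h2
    · show y = l * (l ^ 4 * y)
      linear_combination -y * hl5
    · exact hm
    · show b = l ^ 3 * (l ^ 2 * b)
      linear_combination -b * hl5

/-- The diagonal matrix. -/
noncomputable def dg {l : F} (hl : l ^ 5 = 1) : SL3 :=
  ⟨!![l, 0, 0; 0, l ^ 3, 0; 0, 0, l], by rw [Matrix.det_fin_three]; simp; linear_combination hl⟩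

theorem dg_val {l : F} (hl : l ^ 5 = 1) :
    ((dg hl : SL3) : Matrix (Fin 3) (Fin 3) F) = !![l, 0, 0; 0, l ^ 3, 0; 0, 0, l] := rfl

theorem dg_pres {l : F} (hl : l ^ 5 = 1) : Pres (dg hl) := by
  intro y z
  simp [anti, dg_val, Matrix.mulVec, dotProduct, Fin.sum_univ_three, mul_pow]
  linear_combination (y 0 * z 2 ^ 4 + (l ^ 10 + l ^ 5 + 1) * y 1 * z 1 ^ 4 + y 2 * z 0 ^ 4) * hl

/-- The diagonal element. -/
noncomputable def dSU {l : F} (hl : l ^ 5 = 1) : Cfsg.SU 3 F 4 :=
  ⟨H.base * dg hl * H.base⁻¹, mem_SU_of_pres H (dg_pres hl)⟩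

theorem back_dSU {l : F} (hl : l ^ 5 = 1) : back H (dSU H hl) = dg hl := by
  show H.base⁻¹ * (H.base * dg hl * H.base⁻¹) * H.base = _
  group

theorem dg_mul_mat {l : F} (hl : l ^ 5 = 1) (a c : F) :
    ((dg hl * PSUThree.mat 4 a c : SL3) : Matrix (Fin 3) (Fin 3) F) =
      !![l, l * a ^ 4, l * c; 0, l ^ 3, l ^ 3 * a; 0, 0, l] := by
  rw [Matrix.SpecialLinearGroup.coe_mul, dg_val, H50.PSUThree.mat_val]
  ext i j
  fin_cases i <;> fin_cases j <;> simp [Matrix.mul_apply, Fin.sum_univ_three]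

/-- The centralizer in `SU`. -/
noncomputable abbrev Cent : Subgroup (Cfsg.SU 3 F 4) := Subgroup.centralizer {inv0 H}

theorem mem_Cent_iff {g : Cfsg.SU 3 F 4} :
    g ∈ Cent H ↔ back H g * PSUThree.mat 4 0 1 = PSUThree.mat 4 0 1 * back H g := by
  rw [Subgroup.mem_centralizer_singleton_iff, ← back_inv0 H, ← back_mul, ← back_mul,
    (back_injective H).eq_iff]

theorem toSU_mem (u : H.U) : H.toSU u ∈ Cent H := by
  rw [mem_Cent_iff, back_toSU]
  obtain ⟨a, c, h, rfl⟩ := H.exists_elt u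
  rw [H.elt_val, H50.PSUThree.mat_mul H.card, H50.PSUThree.mat_mul H.card, H50.PSUThree.mat_eq_iff]
  simp [add_comm]

theorem dSU_mem {l : F} (hl : l ^ 5 = 1) : dSU H hl ∈ Cent H := by
  rw [mem_Cent_iff, back_dSU]
  refine Subtype.ext ?_
  rw [dg_mul_mat, Matrix.SpecialLinearGroup.coe_mul, H50.PSUThree.mat_val, dg_val]
  ext i j
  fin_cases i <;> fin_cases j <;> simp [Matrix.mul_apply, Fin.sum_univ_three]

theorem exists_decomp {g : Cfsg.SU 3 F 4} (hg : g ∈ Cent H) :
    ∃ (l : F) (hl : l ^ 5 = 1) (u : H.U), g = dSU H hl * H.toSU u := by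
  obtain ⟨l, a, c, hl, hac, hM⟩ := shape H (pres_back H g) ((mem_Cent_iff H).1 hg)
  refine ⟨l, hl, H.elt a c hac, back_injective H ?_⟩
  rw [back_mul, back_dSU, back_toSU, H.elt_val]
  refine Subtype.ext ?_
  rw [hM, dg_mul_mat]

/-- The set of fifth roots of unity. -/
abbrev Mu5 (F : Type*) [Field F] : Type _ := {l : F // l ^ 5 = 1}

include H in
theorem card_mu5 : Nat.card (Mu5 F) = 5 := by
  classical
  haveI : Fact (Nat.Prime 5) := ⟨by norm_num⟩
  have h15 : Nat.card Fˣ = 15 := by rw [Nat.card_units, Nat.card_eq_fintype_card, H.card]; norm_num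
  obtain ⟨u, hu⟩ := exists_prime_orderOf_dvd_card' 5 (show 5 ∣ Nat.card Fˣ by rw [h15]; norm_num)
  have he : Nat.card (Mu5 F) = Nat.card (rootsOfUnity 5 F) := by
    refine Nat.card_congr ⟨fun l => ⟨Units.mk0 l.1 (fun h => by simpa [h] using l.2), ?_⟩,
      fun u => ⟨(u.1 : Fˣ), ?_⟩, fun l => rfl, fun u => Subtype.ext (Units.ext rfl)⟩
    · rw [mem_rootsOfUnity]
      exact Units.ext (by simpa using l.2)
    · have := (mem_rootsOfUnity 5 u.1).1 u.2
      rw [← Units.val_pow_eq_pow_val, this, Units.val_one]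
  rw [he]
  refine le_antisymm ?_ ?_
  · exact card_rootsOfUnity F 5
  · have hle : Subgroup.zpowers u ≤ rootsOfUnity 5 F := by
      rw [Subgroup.zpowers_le, mem_rootsOfUnity, ← hu, pow_orderOf_eq_one]
    have := Subgroup.card_le_of_le hle
    rwa [Nat.card_zpowers, hu] at this

theorem card_Cent : Nat.card (Cent H) = 320 := by
  let f : Mu5 F × H.U → Cent H := fun p => ⟨dSU H p.1.2 * H.toSU p.2, mul_mem (dSU_mem H p.1.2) (toSU_mem H _)⟩
  have hf : Function.Bijective f := by
    refine ⟨?_, fun g => ?_⟩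
    · rintro ⟨⟨l, hl⟩, u⟩ ⟨⟨l', hl'⟩, u'⟩ h
      have h1 := congrArg (back H) (congrArg Subtype.val h)
      simp only [f, back_mul, back_dSU, back_toSU] at h1
      obtain ⟨a, c, hac, rfl⟩ := H.exists_elt u
      obtain ⟨a', c', hac', rfl⟩ := H.exists_elt u'
      have h2 := congrFun (congrFun (congrArg (fun N : SL3 => (N : Matrix (Fin 3) (Fin 3) F)) h1) 0) 0
      simp only [H.elt_val, dg_mul_mat] at h2
      have hll : l = l' := by simpa using h2
      subst hll
      exact Prod.ext rfl (Subtype.ext (mul_left_cancel h1))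
    · obtain ⟨l, hl, u, hg⟩ := exists_decomp H g.2
      exact ⟨(⟨l, hl⟩, u), Subtype.ext hg.symm⟩
  rw [← Nat.card_eq_of_bijective f hf, Nat.card_prod, card_mu5 H, H.card_U]
  norm_num

/-- The embedding of the model. -/
noncomputable def jHom : H.U →* Cent H := H.toSU.codRestrict _ (toSU_mem H)

theorem jHom_injective : Function.Injective (jHom H) := fun _ _ h =>
  H.toSU_injective (congrArg Subtype.val h)

theorem col_zero (g : Cent H) : (back H g : Matrix (Fin 3) (Fin 3) F) 1 0 = 0 ∧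
    (back H g : Matrix (Fin 3) (Fin 3) F) 2 0 = 0 := by
  obtain ⟨l, a, c, -, -, hM⟩ := shape H (pres_back H g) ((mem_Cent_iff H).1 g.2)
  rw [hM]
  simp

/-- The corner entry. -/
noncomputable def corner : Cent H →* F where
  toFun g := (back H g : Matrix (Fin 3) (Fin 3) F) 0 0
  map_one' := by simp [back]
  map_mul' g g' := by
    rw [Subgroup.coe_mul, back_mul, Matrix.SpecialLinearGroup.coe_mul, Matrix.mul_apply,
      Fin.sum_univ_three, (col_zero H g').1, (col_zero H g').2, mul_zero, mul_zero, add_zero, add_zero]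

theorem mem_range_of_corner {g : Cent H} (hg : corner H g = 1) : g ∈ (jHom H).range := by
  obtain ⟨l, hl, u, he⟩ := exists_decomp H g.2
  obtain ⟨a, c, hac, rfl⟩ := H.exists_elt u
  have h2 : (back H g : Matrix (Fin 3) (Fin 3) F) 0 0 = 1 := hg
  rw [he, back_mul, back_dSU, back_toSU, H.elt_val, dg_mul_mat] at h2
  have hl1 : l = 1 := by simpa using h2
  subst hl1
  have hd : dSU H hl = 1 := by
    apply back_injective H
    rw [back_dSU]
    refine Subtype.ext ?_
    rw [dg_val]
    ext i j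
    fin_cases i <;> fin_cases j <;> simp [back]
  exact ⟨H.elt a c hac, Subtype.ext (by rw [he, hd, one_mul]; rfl)⟩

include H in
theorem exists_conj_shift : ∃ l : F, ∃ hl : l ^ 5 = 1, l ^ 2 + 1 ≠ 0 := by
  have h := card_mu5 H
  haveI : Nontrivial (Mu5 F) := Finite.one_lt_card_iff_nontrivial.1 (by rw [h]; norm_num)
  obtain ⟨⟨l, hl⟩, hne⟩ := exists_ne (⟨1, one_pow 5⟩ : Mu5 F)
  refine ⟨l, hl, fun h0 => hne (Subtype.ext ?_)⟩
  have h1 : (l + 1) ^ 2 = 0 := by linear_combination h0 + l * H.two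
  have h2 := eq_zero_of_pow_eq_zero h1
  linear_combination h2 - H.two

theorem jHom_range : (jHom H).range = commutator (Cent H) := by
  refine le_antisymm ?_ ?_
  · set D := (commutator (Cent H)).comap (jHom H) with hD
    suffices hDt : D = ⊤ by
      rintro _ ⟨u, rfl⟩
      exact (hDt ▸ Subgroup.mem_top u : u ∈ D)
    obtain ⟨l, hl, hl2⟩ := exists_conj_shift H
    have hl0 : l ≠ 0 := fun h => by simp [h] at hl
    have hcover : ∀ b : F, ∃ c hc, H.elt b c hc ∈ D := by
      intro b
      set a := b / (l ^ 2 + 1)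
      obtain ⟨c, hc⟩ := H.exists_fibre a
      set w : Cent H := ⟨dSU H hl, dSU_mem H hl⟩ * jHom H (H.elt a c hc) * (⟨dSU H hl, dSU_mem H hl⟩)⁻¹
        with hw
      have hmem : ⁅(⟨dSU H hl, dSU_mem H hl⟩ : Cent H), jHom H (H.elt a c hc)⁆ ∈ commutator (Cent H) :=
        Subgroup.commutator_mem_commutator (Subgroup.mem_top _) (Subgroup.mem_top _)
      have hs : (l ^ 2 * a) ^ 4 = l ^ 3 * a ^ 4 := by linear_combination l ^ 3 * a ^ 4 * hl
      have hac2 : c + c ^ 4 = (l ^ 2 * a) ^ (4 + 1) := by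
        linear_combination hc - (l ^ 5 + 1) * a ^ 5 * hl
      have hval : w = jHom H (H.elt (l ^ 2 * a) c hac2) := by
        rw [hw, mul_inv_eq_iff_eq_mul]
        refine Subtype.ext (back_injective H ?_)
        show back H (dSU H hl * H.toSU _) = back H (H.toSU _ * dSU H hl)
        rw [back_mul, back_mul, back_dSU, back_toSU, back_toSU, H.elt_val, H.elt_val]
        refine Subtype.ext ?_
        rw [dg_mul_mat, Matrix.SpecialLinearGroup.coe_mul, H50.PSUThree.mat_val, dg_val, hs]
        ext i j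
        fin_cases i <;> fin_cases j <;> simp [Matrix.mul_apply, Fin.sum_univ_three]
        · linear_combination -(l * a ^ 4) * hl
        · ring
        · ring
      have hd : H.elt (l ^ 2 * a) c hac2 * (H.elt a c hc)⁻¹ ∈ D := by
        show jHom H _ ∈ commutator (Cent H)
        rw [map_mul, map_inv, ← hval, hw]
        rwa [commutatorElement_def] at hmem
      obtain ⟨a', c', hc', he⟩ := H.exists_elt (H.elt (l ^ 2 * a) c hac2 * (H.elt a c hc)⁻¹)
      have ha' : a' = b := by
        rw [mul_inv_eq_iff_eq_mul] at he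
        obtain ⟨_, e1⟩ := H.elt_mul hc' hc
        rw [e1, H.elt_eq_iff] at he
        have hab : (l ^ 2 + 1) * a = b := mul_div_cancel₀ b hl2
        linear_combination -he.1 + hab - a * H.two
      subst ha'
      exact ⟨c', hc', he ▸ hd⟩
    have hrep : ∀ x : H.U, ∃ d ∈ D, d⁻¹ * x ∈ Subgroup.center H.U := by
      intro x
      obtain ⟨a, c, hc, rfl⟩ := H.exists_elt x
      obtain ⟨c', hc', hd⟩ := hcover a
      refine ⟨_, hd, ?_⟩
      rw [H.mem_center_iff]
      obtain ⟨a', c'', h'', he⟩ := H.exists_elt ((H.elt a c' hc')⁻¹ * H.elt a c hc)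
      rw [he, H.elt_sq]
      rw [inv_mul_eq_iff_eq_mul] at he
      obtain ⟨_, e1⟩ := H.elt_mul hc' h''
      rw [e1, H.elt_eq_iff] at he
      linear_combination -he.1
    have hZ : Subgroup.center H.U ≤ D := by
      intro z hz
      obtain ⟨x, y, rfl⟩ := H.exists_commutator_eq z ((H.mem_center_iff z).1 hz)
      obtain ⟨d, hd, hdx⟩ := hrep x
      obtain ⟨e, he, hey⟩ := hrep y
      have hcx := fun g => Subgroup.mem_center_iff.1 hdx g
      have hcy := fun g => Subgroup.mem_center_iff.1 hey g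
      have hx : x = d * (d⁻¹ * x) := by group
      have hy : y = e * (e⁻¹ * y) := by group
      have heq : ⁅x, y⁆ = ⁅d, e⁆ := by
        set s := d⁻¹ * x
        set t := e⁻¹ * y
        rw [hx, hy]
        simp only [commutatorElement_def, _root_.mul_inv_rev]
        calc d * s * (e * t) * (s⁻¹ * d⁻¹) * (t⁻¹ * e⁻¹)
            = d * (s * (e * t)) * s⁻¹ * d⁻¹ * t⁻¹ * e⁻¹ := by group
          _ = d * ((e * t) * s) * s⁻¹ * d⁻¹ * t⁻¹ * e⁻¹ := by rw [← hcx]
          _ = d * e * (t * d⁻¹) * t⁻¹ * e⁻¹ := by group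
          _ = d * e * (d⁻¹ * t) * t⁻¹ * e⁻¹ := by rw [← hcy]
          _ = d * e * d⁻¹ * e⁻¹ := by group
      rw [heq, commutatorElement_def]
      exact mul_mem (mul_mem (mul_mem hd he) (inv_mem hd)) (inv_mem he)
    refine eq_top_iff.2 fun x _ => ?_
    obtain ⟨d, hd, hdx⟩ := hrep x
    simpa using mul_mem hd (hZ hdx)
  · rw [commutator_def, Subgroup.commutator_le]
    intro a _ b _
    apply mem_range_of_corner H
    have h1 : ∀ g : Cent H, corner H g⁻¹ * corner H g = 1 := fun g => by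
      rw [← map_mul, inv_mul_cancel, map_one]
    rw [commutatorElement_def, map_mul, map_mul, map_mul]
    linear_combination (corner H b⁻¹ * corner H b) * h1 a + h1 b

theorem isKleinFour_center : IsKleinFour (Subgroup.center (commutator (Cent H))) := by
  let e : H.U ≃* commutator (Cent H) :=
    (MonoidHom.ofInjective (jHom_injective H)).trans (MulEquiv.subgroupCongr (jHom_range H))
  refine ⟨(Nat.card_congr (Subgroup.centerCongr e).toEquiv).symm.trans H.card_center, ?_⟩
  haveI : Nontrivial (Subgroup.center (commutator (Cent H))) :=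
    Finite.one_lt_card_iff_nontrivial.1 (by
      rw [← Nat.card_congr (Subgroup.centerCongr e).toEquiv, H.card_center]; norm_num)
  refine (Monoid.exponent_eq_prime_iff Nat.prime_two).2 fun z hz => ?_
  refine orderOf_eq_prime (hp := ⟨Nat.prime_two⟩) ?_ hz
  obtain ⟨w, rfl⟩ := (Subgroup.centerCongr e).surjective z
  rw [sq, ← map_mul]
  have : w * w = 1 := Subtype.ext ((H.mem_center_iff _).1 w.2)
  rw [this, map_one]

theorem card_derived : Nat.card (commutator (Cent H)) = 64 := by
  rw [← jHom_range, ← Nat.card_congr (MonoidHom.ofInjective (jHom_injective H)).toEquiv, H.card_U]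
  norm_num

theorem exists_model {F : Type*} [Field F] [Fintype F] (hF : Fintype.card F = 16) :
    ∃ t : Cfsg.PSU 3 F 4, orderOf t = 2 ∧
      Nat.card (Subgroup.centralizer ({t} : Set (Cfsg.PSU 3 F 4))) = 320 ∧
      Nat.card (commutator (Subgroup.centralizer ({t} : Set (Cfsg.PSU 3 F 4)))) = 64 ∧
      IsKleinFour (Subgroup.center (commutator (Subgroup.centralizer ({t} : Set (Cfsg.PSU 3 F 4))))) := by
  have H : PSUThree.Hyp F 4 := H50.PSUThree.hyp_of_card (n := 2) (by norm_num) (by rw [hF]; norm_num)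
  have hz : Subgroup.center (Cfsg.SU 3 F 4) = ⊥ := by
    refine Subgroup.eq_bot_of_card_eq _ ?_
    rw [H3.card_center_SU H.card (by norm_num)]
    norm_num
  let π : Cfsg.SU 3 F 4 ≃* Cfsg.PSU 3 F 4 :=
    MulEquiv.ofBijective (QuotientGroup.mk' (Subgroup.center (Cfsg.SU 3 F 4)))
      ⟨by rw [← MonoidHom.ker_eq_bot_iff, QuotientGroup.ker_mk', hz], QuotientGroup.mk'_surjective _⟩
  refine ⟨π (inv0 H), ?_, ?_⟩
  · haveI : Fact (Nat.Prime 2) := ⟨Nat.prime_two⟩
    refine (orderOf_injective π.toMonoidHom π.injective _).trans ?_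
    unfold inv0
    rw [orderOf_injective _ H.toSU_injective]
    refine orderOf_eq_prime ?_ ?_
    · rw [sq, H.elt_sq]
    · intro h
      rw [H.elt_eq_one] at h
      exact one_ne_zero h.2
  · have hmap : (Cent H).map π.toMonoidHom = Subgroup.centralizer {π (inv0 H)} := by
      ext y
      obtain ⟨g, rfl⟩ := π.surjective y
      constructor
      · rintro ⟨x, hx, hxg⟩
        have := π.injective hxg
        subst this
        rw [Subgroup.mem_centralizer_singleton_iff, ← map_mul, ← map_mul,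
          Subgroup.mem_centralizer_singleton_iff.1 hx]
      · intro hg
        refine ⟨g, ?_, rfl⟩
        rw [Subgroup.mem_centralizer_singleton_iff] at hg
        exact Subgroup.mem_centralizer_singleton_iff.2 (π.injective (by rw [map_mul, map_mul, hg]))
    let ψ : Cent H ≃* Subgroup.centralizer {π (inv0 H)} :=
      ((Cent H).equivMapOfInjective π.toMonoidHom π.injective).trans (MulEquiv.subgroupCongr hmap)
    have hder : (commutator (Cent H)).map ψ.toMonoidHom = commutator _ := by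
      rw [commutator_def, commutator_def, Subgroup.map_commutator,
        Subgroup.map_top_of_surjective _ ψ.surjective]
    let χ : commutator (Cent H) ≃* commutator (Subgroup.centralizer {π (inv0 H)}) :=
      ((commutator (Cent H)).equivMapOfInjective ψ.toMonoidHom ψ.injective).trans (MulEquiv.subgroupCongr hder)
    refine ⟨(Nat.card_congr ψ.toEquiv).symm.trans (card_Cent H),
      (Nat.card_congr χ.toEquiv).symm.trans (card_derived H), ?_, ?_⟩
    · exact (Nat.card_congr (Subgroup.centerCongr χ).toEquiv).symm.trans (isKleinFour_center H).card_four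
    · rw [← Monoid.exponent_eq_of_mulEquiv (Subgroup.centerCongr χ)]
      exact (isKleinFour_center H).exponent_two

end Cfsg.Agent.H61.U34Centralizer
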