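import Cfsg.Agent.H61.TwoGroup64

/-!
A group of order 64 with centre a four-group and a suitable automorphism of order five has the
table of a Sylow 2-subgroup of `U3(4)`.
-/

set_option autoImplicit false

namespace Cfsg.Agent.H61.U34

open TwoGroup64
open scoped commutatorElement

/-- The table of the Sylow 2-subgroup of `U3(4)`. -/
def table : Table where
  s := fun _ => (1, 1)
  c := fun j i => if j.val = i.val + 1 then (1, 0) else (0, 1)

/-- A presentation together with the automorphism of order five. -/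
structure Data (T : Type*) [Group T] where
  P : Pres T table
  σ : MulAut T
  σ_zero : σ (P.t 0) = P.t 1
  σ_one : σ (P.t 1) = P.t 2
  σ_two : σ (P.t 2) = P.t 3
  σ_three : σ (P.t 3) = P.t 0 * P.t 1 * P.t 2 * P.t 3
  σ_ι : ∀ z, σ (P.ι z) = P.ι z

theorem Data.exists_equiv {T U : Type*} [Group T] [Finite T] [Group U] [Finite U]
    (D : Data T) (E : Data U) : ∃ e : T ≃* U, ∀ u, e (D.σ u) = E.σ (e u) := by
  obtain ⟨e, he, hι⟩ := D.P.exists_equiv E.P
  refine ⟨e, fun u => ?_⟩
  have key : e.toMonoidHom.comp D.σ.toMonoidHom = E.σ.toMonoidHom.comp e.toMonoidHom := by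
    refine MonoidHom.eq_of_eqOn_dense D.P.gen ?_
    rintro u (⟨i, rfl⟩ | ⟨z, rfl⟩)
    · show e (D.σ (D.P.t i)) = E.σ (e (D.P.t i))
      rw [he]
      fin_cases i
      · show e (D.σ (D.P.t 0)) = E.σ (E.P.t 0)
        rw [D.σ_zero, E.σ_zero, he]
      · show e (D.σ (D.P.t 1)) = E.σ (E.P.t 1)
        rw [D.σ_one, E.σ_one, he]
      · show e (D.σ (D.P.t 2)) = E.σ (E.P.t 2)
        rw [D.σ_two, E.σ_two, he]
      · show e (D.σ (D.P.t 3)) = E.σ (E.P.t 3)
        rw [D.σ_three, E.σ_three, map_mul, map_mul, map_mul, he, he, he, he]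
    · show e (D.σ (D.P.ι z)) = E.σ (e (D.P.ι z))
      rw [D.σ_ι, hι, E.σ_ι]
  exact DFunLike.congr_fun key u

/-- Fixed points of an automorphism of order five. -/
theorem card_fixed {H : Type*} [Group H] [Finite H] (σ : MulAut H) (h5 : σ ^ 5 = 1) :
    Nat.card H ≡ Nat.card {x : H // σ x = x} [MOD 5] := by
  haveI : Fact (Nat.Prime 5) := ⟨by norm_num⟩
  have hp : IsPGroup 5 (Subgroup.zpowers σ) := by
    rintro ⟨τ, k, rfl⟩
    refine ⟨1, Subtype.ext ?_⟩
    show (σ ^ k) ^ (5 ^ 1) = 1
    rw [pow_one, ← zpow_natCast, ← zpow_mul, mul_comm, zpow_mul, zpow_natCast, h5, one_zpow]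
  refine (hp.card_modEq_card_fixedPoints H).trans (congrArg (· % 5) ?_)
  refine Nat.card_congr (Equiv.subtypeEquivRight fun x => ⟨fun hx => ?_, fun hx => ?_⟩)
  · exact hx ⟨σ, Subgroup.mem_zpowers σ⟩
  · rintro ⟨τ, hτ⟩
    have : Subgroup.zpowers σ ≤ MulAction.stabilizer (MulAut H) x := by
      rw [Subgroup.zpowers_le]
      exact hx
    exact this hτ

variable {T : Type*} [Group T] [Finite T]

/-- Hypotheses on the group and the automorphism. -/
structure Hyp (T : Type*) [Group T] (σ : MulAut T) : Prop where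
  card : Nat.card T = 64
  center : Nat.card (Subgroup.center T) = 4
  center_sq : ∀ z ∈ Subgroup.center T, z * z = 1
  five : σ ^ 5 = 1
  ne_one : σ ≠ 1
  gen : ∀ N : Subgroup T, N.Normal → (∀ x ∈ N, σ x ∈ N) → (∀ x y : T, ⁅x, y⁆ ∈ N) →
    (∀ x, x⁻¹ * σ x ∈ N) → N = ⊤

/-- The induced automorphism of the quotient by the centre. -/
noncomputable def bar (σ : MulAut T) : MulAut (T ⧸ Subgroup.center T) :=
  QuotientGroup.congr _ _ σ (Subgroup.characteristic_iff_map_eq.1 inferInstance σ)

omit [Finite T] in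
theorem bar_mk (σ : MulAut T) (x : T) :
    bar σ (x : T ⧸ Subgroup.center T) = ((σ x : T) : T ⧸ Subgroup.center T) := rfl

namespace Hyp

variable {σ : MulAut T} (H : Hyp T σ)
include H

theorem five_apply (x : T) : σ (σ (σ (σ (σ x)))) = x := by
  have h := DFunLike.congr_fun H.five x
  simpa [pow_succ] using h

theorem σ_mem_center {z : T} (hz : z ∈ Subgroup.center T) : σ z ∈ Subgroup.center T := by
  rw [Subgroup.mem_center_iff] at hz ⊢
  intro g
  apply σ.symm.injective
  simpa using hz (σ.symm g)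

theorem σ_center {z : T} (hz : z ∈ Subgroup.center T) : σ z = z := by
  let τ : MulAut (Subgroup.center T) :=
    { toFun := fun w => ⟨σ w.1, H.σ_mem_center w.2⟩
      invFun := fun w => ⟨σ (σ (σ (σ w.1))), H.σ_mem_center (H.σ_mem_center (H.σ_mem_center (H.σ_mem_center w.2)))⟩
      left_inv := fun w => Subtype.ext (H.five_apply w.1)
      right_inv := fun w => Subtype.ext (H.five_apply w.1)
      map_mul' := fun a b => Subtype.ext (map_mul σ a.1 b.1) }
  have h5 : τ ^ 5 = 1 := MulEquiv.ext fun w => by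
    simp only [pow_succ, pow_zero, one_mul, MulAut.mul_apply, MulAut.one_apply]
    exact Subtype.ext (H.five_apply w.1)
  have hc := card_fixed τ h5
  have hle := Nat.card_le_card_of_injective (Subtype.val : {w : Subgroup.center T // τ w = w} → _)
    Subtype.val_injective
  rw [H.center] at hc hle
  have h4 : Nat.card {w : Subgroup.center T // τ w = w} = 4 := by
    unfold Nat.ModEq at hc
    omega
  have hbij : Function.Bijective (Subtype.val : {w : Subgroup.center T // τ w = w} → Subgroup.center T) :=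
    (Nat.bijective_iff_injective_and_card _).2 ⟨Subtype.val_injective, by rw [h4, H.center]⟩
  obtain ⟨⟨w, hw⟩, hwz⟩ := hbij.2 ⟨z, hz⟩
  subst hwz
  exact congrArg Subtype.val hw

omit [Finite T] in
theorem quot_card : Nat.card (T ⧸ Subgroup.center T) = 16 := by
  have h := Subgroup.card_eq_card_quotient_mul_card_subgroup (Subgroup.center T)
  rw [H.card, H.center] at h
  omega

theorem bar_five : (bar σ) ^ 5 = 1 := MulEquiv.ext fun v => by
  induction v using QuotientGroup.induction_on with
  | H x =>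
    simp only [pow_succ, pow_zero, one_mul, MulAut.mul_apply, MulAut.one_apply, bar_mk, H.five_apply]

theorem fpf {v : T ⧸ Subgroup.center T} (hv : (bar σ) v = v) : v = 1 := by
  let C : Subgroup (T ⧸ Subgroup.center T) :=
    { carrier := {w | (bar σ) w = w}
      one_mem' := map_one _
      mul_mem' := fun {a b} ha hb => by
        show (bar σ) (a * b) = a * b
        rw [map_mul, ha, hb]
      inv_mem' := fun {a} ha => by
        show (bar σ) a⁻¹ = a⁻¹
        rw [map_inv, ha] }
  have hC : Nat.card C = Nat.card {w // (bar σ) w = w} := rfl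
  have hm := card_fixed (bar σ) H.bar_five
  rw [← hC, H.quot_card] at hm
  have hd : Nat.card C ∣ 2 ^ 4 := by
    have := Subgroup.card_subgroup_dvd_card C
    rwa [H.quot_card] at this
  obtain ⟨k, hk, hCk⟩ := (Nat.dvd_prime_pow Nat.prime_two).1 hd
  rw [hCk] at hm
  interval_cases k
  · have hb : C = ⊥ := Subgroup.eq_bot_of_card_eq C hCk
    have : v ∈ C := hv
    rwa [hb, Subgroup.mem_bot] at this
  · simp [Nat.ModEq] at hm
  · simp [Nat.ModEq] at hm
  · simp [Nat.ModEq] at hm
  · exfalso
    have htop : C = ⊤ := Subgroup.eq_top_of_card_eq C (by rw [hCk, H.quot_card]; norm_num)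
    refine H.ne_one (MulEquiv.ext fun x => ?_)
    have hx : (bar σ) (x : T ⧸ Subgroup.center T) = x :=
      (show (x : T ⧸ Subgroup.center T) ∈ C by rw [htop]; exact Subgroup.mem_top _)
    rw [bar_mk, eq_comm, QuotientGroup.eq] at hx
    set z := x⁻¹ * σ x with hzdef
    have hsx : σ x = x * z := by rw [hzdef]; group
    have h5 := H.five_apply x
    simp only [hsx, map_mul, H.σ_center hx] at h5
    have hz2 := H.center_sq z hx
    simp only [mul_assoc, hz2, mul_one] at h5
    rw [show z = 1 from mul_eq_left.1 h5, mul_one] at hsx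
    rw [hsx]
    rfl

theorem invariant_top (K : Subgroup (T ⧸ Subgroup.center T)) (hK : ∀ v ∈ K, (bar σ) v ∈ K)
    (hne : ∃ v ∈ K, v ≠ 1) : K = ⊤ := by
  obtain ⟨v, hv, hv1⟩ := hne
  let τ : MulAut K :=
    { toFun := fun w => ⟨(bar σ) w.1, hK _ w.2⟩
      invFun := fun w => ⟨(bar σ) ((bar σ) ((bar σ) ((bar σ) w.1))), hK _ (hK _ (hK _ (hK _ w.2)))⟩
      left_inv := fun w => Subtype.ext (by
        have := DFunLike.congr_fun H.bar_five w.1
        simpa [pow_succ] using this)
      right_inv := fun w => Subtype.ext (by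
        have := DFunLike.congr_fun H.bar_five w.1
        simpa [pow_succ] using this)
      map_mul' := fun a b => Subtype.ext (map_mul (bar σ) a.1 b.1) }
  have h5 : τ ^ 5 = 1 := MulEquiv.ext fun w => by
    simp only [pow_succ, pow_zero, one_mul, MulAut.mul_apply, MulAut.one_apply]
    refine Subtype.ext ?_
    have := DFunLike.congr_fun H.bar_five w.1
    simp only [pow_succ, pow_zero, one_mul, MulAut.mul_apply, MulAut.one_apply] at this
    exact this
  have hm := card_fixed τ h5
  have hfix : Nat.card {w : K // τ w = w} = 1 := by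
    rw [Nat.card_eq_one_iff_exists]
    exact ⟨⟨1, map_one τ⟩, fun w => Subtype.ext (Subtype.ext (H.fpf (congrArg Subtype.val w.2)))⟩
  rw [hfix] at hm
  have hd : Nat.card K ∣ 2 ^ 4 := by
    have := Subgroup.card_subgroup_dvd_card K
    rwa [H.quot_card] at this
  obtain ⟨k, hk, hKk⟩ := (Nat.dvd_prime_pow Nat.prime_two).1 hd
  rw [hKk] at hm
  interval_cases k
  · have hb : K = ⊥ := Subgroup.eq_bot_of_card_eq K hKk
    rw [hb, Subgroup.mem_bot] at hv
    exact absurd hv hv1
  · simp [Nat.ModEq] at hm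
  · simp [Nat.ModEq] at hm
  · simp [Nat.ModEq] at hm
  · exact Subgroup.eq_top_of_card_eq K (by rw [hKk, H.quot_card]; norm_num)

theorem quot_elem (u v : T ⧸ Subgroup.center T) : u * v = v * u ∧ u * u = 1 := by
  haveI : Fact (Nat.Prime 2) := ⟨Nat.prime_two⟩
  have hp : IsPGroup 2 (T ⧸ Subgroup.center T) := IsPGroup.of_card (n := 4) (by rw [H.quot_card]; norm_num)
  haveI : Nontrivial (T ⧸ Subgroup.center T) := Finite.one_lt_card_iff_nontrivial.1 (by rw [H.quot_card]; norm_num)
  have hcen : Subgroup.center (T ⧸ Subgroup.center T) = ⊤ := by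
    refine H.invariant_top _ (fun w hw => ?_) ?_
    · rw [Subgroup.mem_center_iff] at hw ⊢
      intro g
      apply (bar σ).symm.injective
      simpa using hw ((bar σ).symm g)
    · haveI := hp.center_nontrivial
      obtain ⟨w, hw⟩ := exists_ne (1 : Subgroup.center (T ⧸ Subgroup.center T))
      exact ⟨w.1, w.2, fun h => hw (Subtype.ext h)⟩
  have hcomm : ∀ a b : T ⧸ Subgroup.center T, a * b = b * a := fun a b =>
    Subgroup.mem_center_iff.1 (hcen ▸ Subgroup.mem_top b) a
  let S : Subgroup (T ⧸ Subgroup.center T) :=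
    { carrier := {w | w * w = 1}
      one_mem' := one_mul 1
      mul_mem' := fun {a b} ha hb => by
        show a * b * (a * b) = 1
        rw [mul_assoc, ← mul_assoc b a b, hcomm b a, mul_assoc a b b, show b * b = 1 from hb, mul_one]
        exact ha
      inv_mem' := fun {a} ha => by
        show a⁻¹ * a⁻¹ = 1
        rw [← mul_inv_rev, show a * a = 1 from ha, inv_one] }
  have hS : S = ⊤ := by
    refine H.invariant_top S (fun w hw => ?_) ?_
    · show (bar σ) w * (bar σ) w = 1
      rw [← map_mul, show w * w = 1 from hw, map_one]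
    · obtain ⟨w, hw⟩ := exists_prime_orderOf_dvd_card' 2
        (show 2 ∣ Nat.card (T ⧸ Subgroup.center T) by rw [H.quot_card]; norm_num)
      refine ⟨w, ?_, fun h => by simp [h] at hw⟩
      show w * w = 1
      rw [← sq, ← hw, pow_orderOf_eq_one]
  exact ⟨hcomm u v, (hS ▸ Subgroup.mem_top u : u ∈ S)⟩

theorem sq_mem (x : T) : x * x ∈ Subgroup.center T := by
  rw [← QuotientGroup.eq_one_iff]
  exact (H.quot_elem (x : T ⧸ Subgroup.center T) (x : T ⧸ Subgroup.center T)).2

theorem comm_mem (x y : T) : ⁅x, y⁆ ∈ Subgroup.center T := by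
  rw [← QuotientGroup.eq_one_iff]
  show ((x * y * x⁻¹ * y⁻¹ : T) : T ⧸ Subgroup.center T) = 1
  rw [QuotientGroup.mk_mul, QuotientGroup.mk_mul, QuotientGroup.mk_mul, (H.quot_elem _ (y : T ⧸ _)).1]
  simp

theorem cen {z : T} (hz : z ∈ Subgroup.center T) (g : T) : z * g = g * z :=
  (Subgroup.mem_center_iff.1 hz g).symm

theorem comm_mul_left (x y z : T) : ⁅x * y, z⁆ = ⁅x, z⁆ * ⁅y, z⁆ := by
  have h := H.cen (H.comm_mem y z)
  calc ⁅x * y, z⁆ = x * ⁅y, z⁆ * (z * x⁻¹ * z⁻¹) := by simp only [commutatorElement_def]; group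
    _ = ⁅x, z⁆ * ⁅y, z⁆ := by
      rw [← h x, mul_assoc, h]
      simp only [commutatorElement_def]
      group

theorem comm_symm (x y : T) : ⁅x, y⁆ = ⁅y, x⁆ := by
  rw [← commutatorElement_inv y x, eq_comm, eq_inv_iff_mul_eq_one]
  exact H.center_sq _ (H.comm_mem y x)

theorem sq_mul (x y : T) : x * y * (x * y) = x * x * (y * y) * ⁅y, x⁆ := by
  have h := H.cen (H.comm_mem y x)
  calc x * y * (x * y) = x * (⁅y, x⁆ * x * y) * y := by simp only [commutatorElement_def]; group
    _ = ⁅y, x⁆ * (x * x * (y * y)) := by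
      simp only [← mul_assoc]
      rw [← h x]
    _ = x * x * (y * y) * ⁅y, x⁆ := h _

/-- The orbit of a non-central element generates, and can be normalised. -/
theorem exists_orbit : ∃ x : T, σ (σ (σ (σ x))) = x * σ x * σ (σ x) * σ (σ (σ x)) ∧
    Subgroup.closure ({x, σ x, σ (σ x), σ (σ (σ x))} ∪ (Subgroup.center T : Set T)) = ⊤ := by
  obtain ⟨v, hv⟩ : ∃ v : T ⧸ Subgroup.center T, v ≠ 1 := by
    haveI : Nontrivial (T ⧸ Subgroup.center T) := Finite.one_lt_card_iff_nontrivial.1 (by rw [H.quot_card]; norm_num)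
    exact exists_ne 1
  obtain ⟨x, rfl⟩ := QuotientGroup.mk_surjective v
  set π := QuotientGroup.mk' (Subgroup.center T)
  have hb : ∀ y, (bar σ) (π y) = π (σ y) := fun y => rfl
  set u := π x * π (σ x) * π (σ (σ x)) * π (σ (σ (σ x))) * π (σ (σ (σ (σ x)))) with hu
  have hu1 : u = 1 := by
    refine H.fpf ?_
    rw [hu, map_mul, map_mul, map_mul, map_mul, hb, hb, hb, hb, hb, H.five_apply,
      (H.quot_elem _ (π x)).1, ← mul_assoc, ← mul_assoc, ← mul_assoc]
  have hz : (x * σ x * σ (σ x) * σ (σ (σ x)))⁻¹ * σ (σ (σ (σ x))) ∈ Subgroup.center T := by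
    rw [← QuotientGroup.eq]
    show π (x * σ x * σ (σ x) * σ (σ (σ x))) = π (σ (σ (σ (σ x))))
    have h1 := hu1
    rw [hu, mul_eq_one_iff_eq_inv] at h1
    simp only [map_mul]
    rw [h1]
    exact inv_eq_of_mul_eq_one_right (H.quot_elem _ 1).2
  set z := (x * σ x * σ (σ x) * σ (σ (σ x)))⁻¹ * σ (σ (σ (σ x))) with hzdef
  have hK : Subgroup.closure ({π x, π (σ x), π (σ (σ x)), π (σ (σ (σ x)))} : Set (T ⧸ Subgroup.center T)) = ⊤ := by
    refine H.invariant_top _ ?_ ⟨π x, Subgroup.subset_closure (by simp), hv⟩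
    intro w hw
    have hle : (Subgroup.closure ({π x, π (σ x), π (σ (σ x)), π (σ (σ (σ x)))} :
        Set (T ⧸ Subgroup.center T))).map (bar σ).toMonoidHom ≤
        Subgroup.closure {π x, π (σ x), π (σ (σ x)), π (σ (σ (σ x)))} := by
      rw [MonoidHom.map_closure, Subgroup.closure_le]
      rintro _ ⟨y, hy, rfl⟩
      show (bar σ) y ∈ _
      rcases hy with rfl | rfl | rfl | rfl
      · rw [hb]; exact Subgroup.subset_closure (by simp)
      · rw [hb]; exact Subgroup.subset_closure (by simp)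
      · rw [hb]; exact Subgroup.subset_closure (by simp)
      · rw [hb]
        have h1 := hu1
        rw [hu, mul_eq_one_iff_eq_inv] at h1
        have hi := Subgroup.inv_mem _ (mul_mem (mul_mem (mul_mem
          (Subgroup.subset_closure (show π x ∈ ({π x, π (σ x), π (σ (σ x)), π (σ (σ (σ x)))} : Set _) by simp))
          (Subgroup.subset_closure (show π (σ x) ∈ _ by simp)))
          (Subgroup.subset_closure (show π (σ (σ x)) ∈ _ by simp)))
          (Subgroup.subset_closure (show π (σ (σ (σ x))) ∈ _ by simp)))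
        rwa [h1, inv_inv] at hi
    exact hle ⟨w, hw, rfl⟩
  refine ⟨x * z, ?_, ?_⟩
  · simp only [map_mul, H.σ_center hz]
    have hz2 := H.center_sq z hz
    rw [show σ (σ (σ (σ x))) = x * σ x * σ (σ x) * σ (σ (σ x)) * z by rw [hzdef]; group]
    have key : ∀ a b : T, a * z * (b * z) = a * b := fun a b => by
      rw [← H.cen hz b, mul_assoc, ← mul_assoc z z b, hz2, one_mul]
    rw [key x (σ x), ← mul_assoc (x * σ x) (σ (σ x)) z, key, mul_assoc, hz2, mul_one]
  · rw [eq_top_iff]
    intro y _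
    set L := Subgroup.closure
      ({x * z, σ (x * z), σ (σ (x * z)), σ (σ (σ (x * z)))} ∪ (Subgroup.center T : Set T)) with hL
    have hzL : Subgroup.center T ≤ L := fun w hw => Subgroup.subset_closure (Or.inr hw)
    have hmap : L.map π = ⊤ := by
      rw [eq_top_iff, ← hK, Subgroup.closure_le]
      intro w hw
      have hz1 : π z = 1 := (QuotientGroup.eq_one_iff z).2 hz
      rcases hw with rfl | rfl | rfl | rfl
      · exact ⟨x * z, Subgroup.subset_closure (by simp), by rw [map_mul, hz1, mul_one]⟩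
      · exact ⟨σ (x * z), Subgroup.subset_closure (by simp), by rw [map_mul, H.σ_center hz, map_mul, hz1, mul_one]⟩
      · exact ⟨σ (σ (x * z)), Subgroup.subset_closure (by simp), by
          simp only [map_mul, H.σ_center hz]; rw [hz1, mul_one]⟩
      · exact ⟨σ (σ (σ (x * z))), Subgroup.subset_closure (by simp), by
          simp only [map_mul, H.σ_center hz]; rw [hz1, mul_one]⟩
    obtain ⟨w, hw, hwy⟩ : π y ∈ L.map π := hmap ▸ Subgroup.mem_top _
    have hd : w⁻¹ * y ∈ Subgroup.center T := QuotientGroup.eq.1 hwy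
    have := mul_mem hw (hzL hd)
    rwa [mul_inv_cancel_left] at this

/-- The data from the hypotheses. -/
theorem exists_data : ∃ D : Data T, D.σ = σ := by
  obtain ⟨x, hx4, hgen⟩ := H.exists_orbit
  set b₁ := ⁅σ x, x⁆ with hb₁
  set b₂ := ⁅σ (σ x), x⁆ with hb₂
  have hb1m : b₁ ∈ Subgroup.center T := H.comm_mem _ _
  have hb2m : b₂ ∈ Subgroup.center T := H.comm_mem _ _
  have hxx : x * x ∈ Subgroup.center T := H.sq_mem x
  have shift : ∀ a b, ⁅σ a, σ b⁆ = ⁅a, b⁆ := fun a b => by
    rw [← map_commutatorElement]; exact H.σ_center (H.comm_mem a b)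
  have shiftsq : ∀ a, σ a * σ a = a * a := fun a => by
    rw [← map_mul]; exact H.σ_center (H.sq_mem a)
  have c21 : ⁅σ (σ x), σ x⁆ = b₁ := shift _ _
  have c32 : ⁅σ (σ (σ x)), σ (σ x)⁆ = b₁ := by rw [shift, c21]
  have c31 : ⁅σ (σ (σ x)), σ x⁆ = b₂ := shift _ _
  have c30 : ⁅σ (σ (σ x)), x⁆ = b₂ := by
    conv_lhs => rw [← shift, ← shift, H.five_apply]
    exact H.comm_symm _ _
  have hb1b2 : b₁ * b₂ = x * x := by
    have hc := H.cen hb1m b₂
    have e : σ (σ (σ (σ x))) * σ (σ (σ (σ x))) = x * x := by simp only [shiftsq]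
    rw [hx4, H.sq_mul, H.sq_mul, H.sq_mul] at e
    simp only [shiftsq] at e
    rw [H.comm_symm (σ (σ (σ x))), H.comm_mul_left, H.comm_mul_left, H.comm_symm (σ (σ x)) (x * σ x),
      H.comm_mul_left, H.comm_symm x (σ (σ (σ x))), H.comm_symm (σ x) (σ (σ (σ x))),
      H.comm_symm (σ (σ x)) (σ (σ (σ x))), H.comm_symm x (σ (σ x)), H.comm_symm (σ x) (σ (σ x)),
      c30, c31, c32, c21, ← hb₁, ← hb₂] at e
    have a2 := H.center_sq _ hxx
    have q1 := H.center_sq _ hb1m
    have q2 := H.center_sq _ hb2m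
    simp only [a2, q2, one_mul, mul_one] at e
    rw [mul_assoc b₁ (x * x), H.cen hxx (b₂ * b₁), mul_assoc b₁, mul_assoc (b₂ * b₁), a2, mul_one] at e
    simp only [mul_assoc, q1, mul_one] at e
    exact e
  let f : Multiplicative Val →* T :=
    { toFun := fun v => b₁ ^ (Multiplicative.toAdd v).1.val * b₂ ^ (Multiplicative.toAdd v).2.val
      map_one' := by simp
      map_mul' := fun v w => by
        have k1 : ∀ a b : ZMod 2, b₁ ^ (a + b).val = b₁ ^ a.val * b₁ ^ b.val := fun a b => by
          rcases Pres.bit a with rfl | rfl <;> rcases Pres.bit b with rfl | rfl <;>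
            simp [ZMod.val_one, show (1 : ZMod 2) + 1 = 0 from rfl, H.center_sq _ hb1m]
        have k2 : ∀ a b : ZMod 2, b₂ ^ (a + b).val = b₂ ^ a.val * b₂ ^ b.val := fun a b => by
          rcases Pres.bit a with rfl | rfl <;> rcases Pres.bit b with rfl | rfl <;>
            simp [ZMod.val_one, show (1 : ZMod 2) + 1 = 0 from rfl, H.center_sq _ hb2m]
        rw [toAdd_mul, Prod.fst_add, Prod.snd_add, k1, k2]
        exact (Commute.mul_mul_mul_comm (H.cen (pow_mem hb1m _) _) _ _) }
  have hf : ∀ v, f v ∈ Subgroup.center T := fun v => mul_mem (pow_mem hb1m _) (pow_mem hb2m _)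
  have h10 : f (Multiplicative.ofAdd ((1, 0) : Val)) = b₁ := by simp [f, ZMod.val_one]
  have h01 : f (Multiplicative.ofAdd ((0, 1) : Val)) = b₂ := by simp [f, ZMod.val_one]
  have h11 : f (Multiplicative.ofAdd ((1, 1) : Val)) = x * x := by simp [f, ZMod.val_one, hb1b2]
  let t : Fin 4 → T := ![x, σ x, σ (σ x), σ (σ (σ x))]
  let W : Subgroup T := f.range
  have hWc : W ≤ Subgroup.center T := by rintro _ ⟨v, rfl⟩; exact hf v
  haveI hWn : W.Normal := ⟨fun w hw g => by rwa [← H.cen (hWc hw) g, mul_inv_cancel_right]⟩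
  have htsq : ∀ i, t i * t i = f (Multiplicative.ofAdd (table.s i)) := by
    intro i
    fin_cases i <;> simp [t, table, shiftsq, h11]
  have htc : ∀ i j : Fin 4, i < j → ⁅t j, t i⁆ = f (Multiplicative.ofAdd (table.c j i)) := by
    intro i j hij
    fin_cases i <;> fin_cases j <;> simp_all [t, table] <;> simp_all [hb₁, hb₂]
  have hgen' : Subgroup.closure (Set.range t ∪ (Subgroup.center T : Set T)) = ⊤ := by
    rw [eq_top_iff, ← hgen, Subgroup.closure_le]
    rintro y ((rfl | rfl | rfl | rfl) | hy)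
    · exact Subgroup.subset_closure (Or.inl ⟨0, rfl⟩)
    · exact Subgroup.subset_closure (Or.inl ⟨1, rfl⟩)
    · exact Subgroup.subset_closure (Or.inl ⟨2, rfl⟩)
    · exact Subgroup.subset_closure (Or.inl ⟨3, rfl⟩)
    · exact Subgroup.subset_closure (Or.inr hy)
  -- the quotient by `W` is elementary abelian
  have hA : ∀ a b : T ⧸ W, a * b = b * a := by
    have htt : ∀ i j, ⁅t j, t i⁆ ∈ W := by
      intro i j
      rcases lt_trichotomy i j with h | rfl | h
      · exact ⟨_, (htc i j h).symm⟩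
      · simp
      · rw [H.comm_symm]; exact ⟨_, (htc j i h).symm⟩
    have hgA : Subgroup.closure (QuotientGroup.mk' W '' (Set.range t ∪ (Subgroup.center T : Set T))) = ⊤ := by
      rw [← MonoidHom.map_closure, hgen', ← MonoidHom.range_eq_map, MonoidHom.range_eq_top]
      exact QuotientGroup.mk'_surjective W
    have hsub : ∀ a ∈ QuotientGroup.mk' W '' (Set.range t ∪ (Subgroup.center T : Set T)),
        ∀ b ∈ QuotientGroup.mk' W '' (Set.range t ∪ (Subgroup.center T : Set T)), a * b = b * a := by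
      rintro _ ⟨u, hu, rfl⟩ _ ⟨v, hv, rfl⟩
      rw [← commutatorElement_eq_one_iff_mul_comm, ← map_commutatorElement]
      refine (QuotientGroup.eq_one_iff _).2 ?_
      rcases hu with ⟨i, rfl⟩ | hu
      · rcases hv with ⟨j, rfl⟩ | hv
        · exact htt j i
        · rw [commutatorElement_eq_one_iff_mul_comm.2 (H.cen hv _).symm]; exact W.one_mem
      · rw [commutatorElement_eq_one_iff_mul_comm.2 (H.cen hu _)]; exact W.one_mem
    have h1 : ∀ a : T ⧸ W, ∀ b ∈ QuotientGroup.mk' W '' (Set.range t ∪ (Subgroup.center T : Set T)),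
        a * b = b * a := by
      intro a b hb
      have : (⊤ : Subgroup (T ⧸ W)) ≤ Subgroup.centralizer {b} := by
        rw [← hgA, Subgroup.closure_le]
        intro c hc
        exact Subgroup.mem_centralizer_singleton_iff.2 (hsub c hc b hb)
      exact Subgroup.mem_centralizer_singleton_iff.1 (this (Subgroup.mem_top a))
    intro a b
    have : (⊤ : Subgroup (T ⧸ W)) ≤ Subgroup.centralizer {a} := by
      rw [← hgA, Subgroup.closure_le]
      intro c hc
      exact Subgroup.mem_centralizer_singleton_iff.2 (h1 a c hc).symm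
    exact (Subgroup.mem_centralizer_singleton_iff.1 (this (Subgroup.mem_top b))).symm
  have hWσ : W ≤ W.comap σ.toMonoidHom := fun w hw => by
    show σ w ∈ W
    rwa [H.σ_center (hWc hw)]
  let σ' : T ⧸ W →* T ⧸ W := QuotientGroup.map W W σ.toMonoidHom hWσ
  let d : T ⧸ W →* T ⧸ W :=
    { toFun := fun a => a⁻¹ * σ' a
      map_one' := by simp
      map_mul' := fun a b => by
        rw [map_mul, mul_inv_rev, hA b⁻¹ a⁻¹]
        simp only [mul_assoc]
        congr 1
        rw [← mul_assoc, ← mul_assoc, hA b⁻¹ (σ' a)] }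
  have hdtop : d.range.comap (QuotientGroup.mk' W) = ⊤ := by
    refine H.gen _ ⟨fun n hn g => ?_⟩ ?_ ?_ ?_
    · show QuotientGroup.mk' W (g * n * g⁻¹) ∈ d.range
      rw [map_mul, map_mul, hA _ (QuotientGroup.mk' W n), map_inv, mul_inv_cancel_right]
      exact hn
    · rintro y ⟨a, ha⟩
      refine ⟨σ' a, ?_⟩
      show d (σ' a) = σ' (QuotientGroup.mk' W y)
      rw [← ha]
      show (σ' a)⁻¹ * σ' (σ' a) = σ' (a⁻¹ * σ' a)
      rw [map_mul, map_inv]
    · intro y w
      show QuotientGroup.mk' W ⁅y, w⁆ ∈ d.range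
      rw [map_commutatorElement, commutatorElement_eq_one_iff_mul_comm.2 (hA _ _)]
      exact one_mem _
    · intro y
      exact ⟨QuotientGroup.mk' W y, rfl⟩
  have hWZ : W = Subgroup.center T := by
    refine le_antisymm hWc fun z hz => ?_
    have hsurj : Function.Surjective d := fun a => by
      obtain ⟨y, rfl⟩ := QuotientGroup.mk'_surjective W a
      exact (hdtop ▸ Subgroup.mem_top y : y ∈ d.range.comap (QuotientGroup.mk' W))
    have hinj := Finite.injective_iff_surjective.2 hsurj
    have h0 : d (QuotientGroup.mk' W z) = 1 := by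
      show (QuotientGroup.mk' W z)⁻¹ * σ' (QuotientGroup.mk' W z) = 1
      rw [show σ' (QuotientGroup.mk' W z) = QuotientGroup.mk' W (σ z) from rfl, H.σ_center hz, inv_mul_cancel]
    exact (QuotientGroup.eq_one_iff z).1 (hinj (h0.trans (map_one d).symm))
  refine ⟨⟨⟨f, t, fun v g => H.cen (hf v) g, htsq, fun i j hij => ?_, ?_, H.card⟩, σ, rfl, rfl, rfl,
    hx4, fun v => H.σ_center (hf v)⟩, rfl⟩
  · rw [← htc i j hij, ← H.cen (H.comm_mem _ _)]
    simp only [commutatorElement_def]
    group
  · rw [show Set.range f = (W : Set T) from rfl, hWZ]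
    exact hgen'

end Hyp

end Cfsg.Agent.H61.U34
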